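/-
Bryukhanova's bound (2-length at most the exponent): the notions shared by the parts of the proof.
-/
import Mathlib
import Cfsg.Agent.Lib.HallHigmanExc.SmallCommutators

set_option autoImplicit false
set_option linter.style.haveILetI false
set_option linter.unusedSectionVars false

open scoped commutatorElement

namespace CfsgLib.TwoLengthExponent

open CfsgLib.HallHigmanExc

universe u v w

/-- An invariant nondegenerate alternating pairing on a module killed by `q`. -/
structure FormData {M : Type v} [AddCommGroup M] {R : Type w} [Group R] {C : Type u} [AddCommGroup C]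
    (q : ℕ) (φ : R →* AddMonoid.End M) (B : M →+ M →+ C) : Prop where
  tors : ∀ m : M, q • m = 0
  alt : ∀ m, B m m = 0
  nondeg : ∀ m, (∀ m', B m m' = 0) → m = 0
  inv : ∀ r a b, B (φ r a) (φ r b) = B a b

/-- `r` moves only a plane, on which its `2 ^ k`th power is minus one. -/
def IsRot {M : Type v} [AddCommGroup M] {R : Type w} [Group R] (q k : ℕ) (φ : R →* AddMonoid.End M)
    (r : R) : Prop :=
  Nat.card (disp φ r).range = q ^ 2 ∧ ∀ w ∈ (disp φ r).range, φ (r ^ 2 ^ k) w = -w

/-- Every invariant subgroup of `P` has a proper invariant subgroup with elementary quotient in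
which the products of `2 ^ n` successive conjugates under a `2`-element vanish. -/
def HasSteps {H : Type w} [Group H] (n : ℕ) (P N : Subgroup H) : Prop :=
  ∀ X : Subgroup H, X ≤ P → X ≠ ⊥ → N ≤ Subgroup.normalizer (X : Set H) →
    ∃ Y : Subgroup H, Y < X ∧ N ≤ Subgroup.normalizer (Y : Set H) ∧ ⁅X, X⁆ ≤ Y ∧
      (∀ x ∈ X, x ^ 2 ∈ Y) ∧
      ∀ y ∈ N, (∃ k, y ^ 2 ^ k = 1) → ∀ x ∈ X, (x * y) ^ 2 ^ n * (y ^ 2 ^ n)⁻¹ ∈ Y

end CfsgLib.TwoLengthExponent
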