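/-
The symplectic module of a block of a normal class two `q`-subgroup, with the action of the
stabilizer of the block.
-/
import Mathlib
import Cfsg.Agent.Lib.GrossTwoLength.PairCommute
import Cfsg.Agent.Lib.HallHigmanExc.GrossConfig
import Cfsg.Agent.Lib.TwoLengthExponent.Defs

set_option autoImplicit false
set_option linter.style.haveILetI false
set_option linter.unusedSectionVars false

open scoped commutatorElement

namespace CfsgLib.TwoLengthExponent

open CfsgLib.HallHigmanExc CfsgLib.GrossTwoLength CfsgLib.CoprimeAction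

universe u v w

variable {G : Type w} [Group G] [Finite G] {K : Type u} [Field K] {V : Type v} [AddCommGroup V]
  [Module K V] {ρ : G →* Module.End K V} {Q : Subgroup G} {q : ℕ}

/-- The block kernel of the character `l` of the centre. -/
noncomputable abbrev blockSe (ρ : G →* Module.End K V) (Q : Subgroup G) (l : centerImage ρ Q →* Kˣ) : Subgroup G :=
  blockKer ρ Q (blk (centerImage ρ Q) l) (fun _ h => commute_blk_of_mem l h)

/-- The elements fixing a block and acting trivially on its module. -/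
def blockFix (ρ : G →* Module.End K V) (Q : Subgroup G) (l : centerImage ρ Q →* Kˣ) : Subgroup G where
  carrier := {g | g ∈ Subgroup.normalizer (Q : Set G) ∧ g ∈ blockStab ρ (blk (centerImage ρ Q) l) ∧
    ∀ a ∈ Q, a⁻¹ * (g * a * g⁻¹) ∈ blockSe ρ Q l}
  one_mem' := ⟨one_mem _, one_mem _, fun a _ => by simp⟩
  mul_mem' {g h} hg hh := ⟨mul_mem hg.1 hh.1, mul_mem hg.2.1 hh.2.1, fun a ha => by
    have h1 := (Subgroup.mem_normalizer_iff.1 (blockKer_normalizer hg.1 hg.2.1) _).1 (hh.2.2 a ha)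
    have h2 := hg.2.2 a ha
    have h3 := (blockSe ρ Q l).mul_mem h2 h1
    rw [show a⁻¹ * (g * h * a * (g * h)⁻¹) =
      a⁻¹ * (g * a * g⁻¹) * (g * (a⁻¹ * (h * a * h⁻¹)) * g⁻¹) by group]
    exact h3⟩
  inv_mem' {g} hg := ⟨inv_mem hg.1, inv_mem hg.2.1, fun a ha => by
    have hg' : g⁻¹ ∈ Subgroup.normalizer (Q : Set G) := inv_mem hg.1
    have ha' : g⁻¹ * a * g⁻¹⁻¹ ∈ Q := (Subgroup.mem_normalizer_iff.1 hg' a).1 ha
    have h1 := (blockSe ρ Q l).inv_mem (hg.2.2 _ ha')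
    have h3 : (g⁻¹ * a * g⁻¹⁻¹)⁻¹ * (g * (g⁻¹ * a * g⁻¹⁻¹) * g⁻¹) =
        (a⁻¹ * (g⁻¹ * a * g⁻¹⁻¹))⁻¹ * 1 := by group
    rw [h3, mul_one] at h1
    simpa using h1⟩

theorem mem_blockFix {l : centerImage ρ Q →* Kˣ} {g : G} :
    g ∈ blockFix ρ Q l ↔ g ∈ Subgroup.normalizer (Q : Set G) ∧
      g ∈ blockStab ρ (blk (centerImage ρ Q) l) ∧ ∀ a ∈ Q, a⁻¹ * (g * a * g⁻¹) ∈ blockSe ρ Q l :=
  Iff.rfl

/-- The module of a block: `Q` modulo the block kernel, with the commutator pairing. -/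
theorem exists_block_module [Fact q.Prime] (hcl : ⁅Q, Q⁆ ≤ Subgroup.centralizer (Q : Set G))
    (hpow : ∀ g ∈ Q, g ^ q ∈ Subgroup.centralizer (Q : Set G))
    (hQn : ∀ g, g ∈ Subgroup.normalizer (Q : Set G)) (l : centerImage ρ Q →* Kˣ)
    (hl : blk (centerImage ρ Q) l ≠ 0) :
    ∃ (M : Type w) (_ : AddCommGroup M) (_ : Finite M) (mk : Q → M)
      (φ : blockStab ρ (blk (centerImage ρ Q) l) →* AddMonoid.End M) (B : M →+ M →+ Additive Kˣ),
      Function.Surjective mk ∧ (∀ a b, mk (a * b) = mk a + mk b) ∧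
      (∀ a, mk a = 0 ↔ (a : G) ∈ blockSe ρ Q l) ∧
      (∀ (r : blockStab ρ (blk (centerImage ρ Q) l)) (a : Q),
        φ r (mk a) = mk ⟨(r : G) * a * (r : G)⁻¹, (Subgroup.mem_normalizer_iff.1 (hQn r) a).1 a.2⟩) ∧
      (∀ a b : Q, B (mk a) (mk b) = 0 ↔
        ρ a * ρ b * blk (centerImage ρ Q) l = ρ b * ρ a * blk (centerImage ρ Q) l) ∧
      (∀ r, φ r = 1 ↔ (r : G) ∈ blockFix ρ Q l) ∧
      FormData q φ B := by
  classical
  set e := blk (centerImage ρ Q) l with he
  have hQe : ∀ g ∈ Q, Commute (ρ g) e := fun g hg => commute_blk_of_mem l hg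
  have hsc : ∀ a ∈ Q, ∀ b ∈ Q, ∃ c : K, ρ (a * b * a⁻¹ * b⁻¹) * e = c • e :=
    fun a ha b hb => scalar_commutators hcl l ha hb
  set Se := blockSe ρ Q l with hSe
  have hSQ' : ⁅Q, Q⁆ ≤ Se := commutator_le_blockKer hsc
  haveI hSn : (Se.subgroupOf Q).Normal := ⟨fun x hx y => by
    show (y : G) * x * (y : G)⁻¹ ∈ Se
    rw [show (y : G) * x * (y : G)⁻¹ = ⁅(y : G), (x : G)⁆ * x by simp [commutatorElement_def, mul_assoc]]
    exact Se.mul_mem (hSQ' (Subgroup.commutator_mem_commutator y.2 x.2)) hx⟩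
  have hMcomm : ∀ a b : Q ⧸ Se.subgroupOf Q, a * b = b * a := fun a b => by
    induction a using QuotientGroup.induction_on with | _ a =>
    induction b using QuotientGroup.induction_on with | _ b =>
    rw [← QuotientGroup.mk_mul, ← QuotientGroup.mk_mul, QuotientGroup.eq]
    refine hSQ' ?_
    have h := Subgroup.commutator_mem_commutator (Q.inv_mem b.2) (Q.inv_mem a.2)
    simpa [commutatorElement_def, mul_assoc] using h
  letI : CommGroup (Q ⧸ Se.subgroupOf Q) :=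
    { (inferInstance : Group (Q ⧸ Se.subgroupOf Q)) with mul_comm := hMcomm }
  let mk : Q → Additive (Q ⧸ Se.subgroupOf Q) := fun g => Additive.ofMul (g : Q ⧸ Se.subgroupOf Q)
  have hmks : Function.Surjective mk := fun m => by
    obtain ⟨g, hg⟩ := QuotientGroup.mk_surjective (Additive.toMul m)
    exact ⟨g, congrArg Additive.ofMul hg⟩
  have hmk0 : ∀ a : Q, mk a = 0 ↔ (a : G) ∈ Se := fun a =>
    (QuotientGroup.eq_one_iff a).trans Iff.rfl
  let R := blockStab ρ e
  let cj : R → MulAut Q := fun r => Subgroup.normalizerMonoidHom Q ⟨r, hQn r⟩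
  have hcj : ∀ (r : R) (g : Q), ((cj r g : Q) : G) = r * g * (r : G)⁻¹ := fun _ _ => rfl
  let act : R → AddMonoid.End (Additive (Q ⧸ Se.subgroupOf Q)) := fun r =>
    MonoidHom.toAdditive (QuotientGroup.map _ (Se.subgroupOf Q) (cj r).toMonoidHom (fun x hx =>
      show ((cj r x : Q) : G) ∈ Se from
        (Subgroup.mem_normalizer_iff.1 (blockKer_normalizer (hQn r) r.2) _).1 hx))
  have hact : ∀ r g, act r (mk g) = mk (cj r g) := fun r g => rfl
  let φ : R →* AddMonoid.End (Additive (Q ⧸ Se.subgroupOf Q)) :=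
    { toFun := act
      map_one' := AddMonoidHom.ext fun m => by
        obtain ⟨g, rfl⟩ := hmks m
        refine (hact 1 g).trans (congrArg mk (Subtype.ext ?_))
        rw [hcj]; simp
      map_mul' := fun r r' => AddMonoidHom.ext fun m => by
        obtain ⟨g, rfl⟩ := hmks m
        refine (hact (r * r') g).trans ?_
        show _ = act r (act r' (mk g))
        rw [hact, hact]
        refine congrArg mk (Subtype.ext ?_)
        rw [hcj, hcj, hcj]
        simp [mul_assoc] }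
  have hφ : ∀ r g, φ r (mk g) = mk (cj r g) := hact
  -- the commutator form
  let ζ : (Q ⊓ Subgroup.centralizer (Q : Set G) : Subgroup G) →* Kˣ :=
    l.comp ((ρ.toHomUnits.comp (Q ⊓ Subgroup.centralizer (Q : Set G) : Subgroup G).subtype).codRestrict
      (centerImage ρ Q) (fun g => Subgroup.mem_map_of_mem ρ.toHomUnits g.2))
  have hζ : ∀ g : (Q ⊓ Subgroup.centralizer (Q : Set G) : Subgroup G),
      ρ g * e = (ζ g : K) • e := fun g =>
    mul_blk (centerImage ρ Q) l ⟨_, Subgroup.mem_map_of_mem ρ.toHomUnits g.2⟩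
  have hcmem : ∀ a b : Q, ⁅(a : G), (b : G)⁆ ∈ Q ⊓ Subgroup.centralizer (Q : Set G) := fun a b =>
    ⟨Subgroup.commutator_le_self Q (Subgroup.commutator_mem_commutator a.2 b.2),
      hcl (Subgroup.commutator_mem_commutator a.2 b.2)⟩
  let χ : Q → Q → Kˣ := fun a b => ζ ⟨_, hcmem a b⟩
  have hχskew : ∀ a b, χ a b = (χ b a)⁻¹ := fun a b => by
    rw [← map_inv]
    exact congrArg ζ (Subtype.ext (commutatorElement_inv (b : G) (a : G)).symm)
  have hχmul : ∀ a a' b, χ (a * a') b = χ a b * χ a' b := fun a a' b => by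
    rw [← map_mul]
    exact congrArg ζ (Subtype.ext (commutator_mul_left_of_central hcl a.2 a'.2 b.2))
  have hχmul' : ∀ a b b', χ a (b * b') = χ a b * χ a b' := fun a b b' => by
    rw [hχskew, hχmul, mul_inv, ← hχskew, ← hχskew]
  have hχone : ∀ a b : Q, χ a b = 1 ↔ ρ a * ρ b * e = ρ b * ρ a * e := by
    intro a b
    rw [mul_eq_iff_commutator hQe a.2 b.2, show ρ ⁅(a : G), (b : G)⁆ * e = _ from hζ ⟨_, hcmem a b⟩]
    show χ a b = 1 ↔ ((χ a b : Kˣ) : K) • e = e
    refine ⟨fun h => by rw [h, Units.val_one, one_smul], fun h => ?_⟩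
    nth_rw 2 [← one_smul K e] at h
    exact Units.ext (smul_left_injective K hl h)
  have hχker : ∀ a : Q, (∀ b, χ a b = 1) ↔ (a : G) ∈ Se := fun a =>
    ⟨fun h => ⟨a.2, fun b hb => (hχone a ⟨b, hb⟩).1 (h ⟨b, hb⟩)⟩,
      fun h b => (hχone a b).2 (h.2 b b.2)⟩
  let β : Q →* (Q →* Kˣ) := MonoidHom.mk' (fun a => MonoidHom.mk' (χ a) (hχmul' a))
    (fun a a' => MonoidHom.ext fun b => hχmul a a' b)
  have hβ : Se.subgroupOf Q ≤ β.ker := fun a ha => MonoidHom.mem_ker.2 (MonoidHom.ext fun b =>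
    (hχker a).2 ha b)
  let β₁ : (Q ⧸ Se.subgroupOf Q) →* (Q →* Kˣ) := QuotientGroup.lift _ β hβ
  have hβ₁ : Se.subgroupOf Q ≤ β₁.flip.ker := fun b hb => MonoidHom.mem_ker.2 (MonoidHom.ext fun x => by
    induction x using QuotientGroup.induction_on with | _ a =>
    show χ a b = 1
    rw [hχskew, (hχker b).2 hb a, inv_one])
  let β₂ : (Q ⧸ Se.subgroupOf Q) →* ((Q ⧸ Se.subgroupOf Q) →* Kˣ) := QuotientGroup.lift _ β₁.flip hβ₁
  let B : Additive (Q ⧸ Se.subgroupOf Q) →+ Additive (Q ⧸ Se.subgroupOf Q) →+ Additive Kˣ :=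
    AddMonoidHom.mk' (fun x => (β₂ (Additive.toMul x)).toAdditive)
      (fun x y => AddMonoidHom.ext fun z => by
        show Additive.ofMul (β₂ (Additive.toMul (x + y)) (Additive.toMul z)) = _
        rw [toMul_add, map_mul]
        rfl)
  have hBmk : ∀ a b : Q, B (mk a) (mk b) = Additive.ofMul (χ b a) := fun a b => rfl
  have hB0 : ∀ a b : Q, B (mk a) (mk b) = 0 ↔ ρ a * ρ b * e = ρ b * ρ a * e := fun a b => by
    rw [hBmk]
    show χ b a = 1 ↔ _
    rw [hχone]
    exact eq_comm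
  refine ⟨Additive (Q ⧸ Se.subgroupOf Q), inferInstance, inferInstance, mk, φ, B, hmks,
    fun _ _ => rfl, hmk0, fun r a => hφ r a, hB0, fun r => ?_, ?_⟩
  · rw [end_eq_one_iff]
    constructor
    · intro h
      refine ⟨hQn r, r.2, fun a ha => ?_⟩
      have h1 : mk (cj r ⟨a, ha⟩) = mk ⟨a, ha⟩ := (hφ r _).symm.trans (h _)
      exact (QuotientGroup.eq (s := Se.subgroupOf Q) (a := (⟨a, ha⟩ : Q))).1
        (congrArg Additive.toMul h1.symm)
    · intro h m
      obtain ⟨a, rfl⟩ := hmks m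
      rw [hφ]
      exact congrArg Additive.ofMul
        ((QuotientGroup.eq (s := Se.subgroupOf Q) (a := a) (b := cj r a)).2 (h.2.2 a a.2)).symm
  refine ⟨fun x => ?_, fun x => ?_, fun x hx => ?_, fun r a b => ?_⟩
  · obtain ⟨g, rfl⟩ := hmks x
    show Additive.ofMul ((g : Q ⧸ Se.subgroupOf Q) ^ q) = 0
    rw [← QuotientGroup.mk_pow]
    refine (QuotientGroup.eq_one_iff (g ^ q)).2 ⟨(g ^ q).2, fun b hb => ?_⟩
    rw [← map_mul, ← map_mul]
    refine congrArg (fun x => ρ x * e) ?_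
    show (g : G) ^ q * b = b * (g : G) ^ q
    exact (Subgroup.mem_centralizer_iff.1 (hpow g g.2) b hb).symm
  · obtain ⟨g, rfl⟩ := hmks x
    exact (hB0 g g).2 rfl
  · obtain ⟨g, rfl⟩ := hmks x
    refine (hmk0 g).2 ((hχker g).1 fun b => ?_)
    have h1 := hx (mk b)
    rw [hBmk] at h1
    rw [hχskew, show χ b g = 1 from congrArg Additive.toMul h1, inv_one]
  · obtain ⟨a, rfl⟩ := hmks a
    obtain ⟨b, rfl⟩ := hmks b
    rw [hφ, hφ, hBmk, hBmk]
    refine congrArg Additive.ofMul (Units.ext ?_)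
    refine smul_left_injective K hl ?_
    show (ζ ⟨_, hcmem (cj r b) (cj r a)⟩ : K) • e = (ζ ⟨_, hcmem b a⟩ : K) • e
    rw [← hζ, ← hζ]
    show ρ ⁅((cj r b : Q) : G), ((cj r a : Q) : G)⁆ * e = ρ ⁅(b : G), (a : G)⁆ * e
    rw [hcj, hcj, ← conjugate_commutatorElement, map_mul, map_mul, mul_assoc,
      (commute_inv r.2).eq, mul_assoc, ← mul_assoc (ρ ⁅(b : G), (a : G)⁆),
      show ρ ⁅(b : G), (a : G)⁆ * e = _ from hζ ⟨_, hcmem b a⟩, smul_mul_assoc, mul_smul_comm,
      ← mul_assoc, r.2.eq, mul_assoc, (rho_mul_inv (r : G)).1, mul_one]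

end CfsgLib.TwoLengthExponent
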