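/-
Hall-Higman technique in characteristic two: in the exceptional configuration the semiregular
operator of 2-power order lies in the span of the image of the `q`-group.
-/
import Cfsg.Agent.Lib.HallHigmanExc.Exceptional
import Cfsg.Agent.Lib.HallHigmanExc.GrossConfig

set_option autoImplicit false
set_option linter.style.haveILetI false
set_option linter.unusedSectionVars false

open Module Polynomial
open scoped IsMulCommutative

namespace CfsgLib.TwoLengthExponent

open CfsgLib.HallHigmanExc

universe u v w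

variable {K : Type u} [Field K] {W : Type v} [AddCommGroup W] [Module K W] {Q : Type w} [Group Q]

/-- In characteristic two a unipotent element with `(x - 1) ^ q = 0` has vanishing geometric sum
of length `q + 1`, when `q + 1` is a power of two. -/
theorem geom_sum_eq_zero {A : Type*} [Ring A] [Algebra K A] [CharP K 2] (x : A) {q j : ℕ}
    (hq : q + 1 = 2 ^ j) (hx : (x - 1) ^ q = 0) : ∑ i ∈ Finset.range (q + 1), x ^ i = 0 := by
  haveI : Fact (Nat.Prime 2) := ⟨Nat.prime_two⟩
  have hpoly : ∑ i ∈ Finset.range (q + 1), (Polynomial.X : K[X]) ^ i =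
      (Polynomial.X - Polynomial.C 1) ^ q := by
    refine mul_right_cancel₀ (Polynomial.X_sub_C_ne_zero (1 : K)) ?_
    rw [Polynomial.C_1, geom_sum_mul, ← pow_succ, hq, sub_pow_char_pow, one_pow]
  have h := congrArg (aeval x) hpoly
  simp only [map_sum, map_pow, map_sub, aeval_X, map_one, hx] at h
  exact h

/-- A unipotent element of 2-power order in characteristic two is killed by `(X - 1) ^ d`, where `d`
is the degree of its minimal polynomial. -/
theorem sub_one_pow_natDegree_minpoly {A : Type*} [Ring A] [Algebra K A] [Module.Finite K A]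
    [CharP K 2] (x : A) {j : ℕ} (hx : x ^ 2 ^ j = 1) :
    (x - 1) ^ (minpoly K x).natDegree = 0 := by
  haveI : Fact (Nat.Prime 2) := ⟨Nat.prime_two⟩
  have h0 : aeval x ((Polynomial.X - Polynomial.C (1 : K)) ^ 2 ^ j) = 0 := by
    rw [Polynomial.C_1, sub_pow_char_pow, one_pow]
    simp [hx]
  obtain ⟨i, -, hi⟩ := (dvd_prime_pow (prime_X_sub_C (1 : K)) _).1 (minpoly.dvd K x h0)
  have hmin := eq_of_monic_of_associated (minpoly.monic (IsIntegral.of_finite K x))
    ((monic_X_sub_C (1 : K)).pow i) hi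
  have h := minpoly.aeval K x
  rw [hmin] at h ⊢
  rw [natDegree_pow, natDegree_X_sub_C, mul_one]
  simpa using h

set_option maxHeartbeats 1600000 in
/-- The exceptional configuration in characteristic two: `q + 1 = 2 ^ (k + 1)` and the operator is
in the span of the image. -/
theorem exceptional_mem_span [IsAlgClosed K] [FiniteDimensional K W] [CharP K 2] [Finite Q] {q : ℕ}
    [Fact q.Prime] (hQ : IsPGroup q Q) (σ : Q →* Module.End K W)
    (hcomm : ∀ a b : Q, ∃ c : K, σ (a * b * a⁻¹ * b⁻¹) = c • (1 : Module.End K W))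
    (hnab : ∃ a b : Q, ¬ Commute (σ a) (σ b))
    (hscal : ∀ g ∈ commKer σ, ∃ c : K, σ g = c • (1 : Module.End K W))
    (φ : MulAut Q) (θ : (Module.End K W)ˣ) {k : ℕ}
    (hθ : ∀ g, (θ : Module.End K W) * σ g = σ (φ g) * (θ : Module.End K W))
    (hθP : θ ^ 2 ^ (k + 1) = 1)
    (hfree : ∀ g : Q, ∀ i, 0 < i → i < 2 ^ (k + 1) →
      g⁻¹ * (φ ^ i) g ∈ commKer σ → g ∈ commKer σ)
    {s : ℕ} (hs : s < 2 ^ (k + 1)) {c : ℕ → K} (hc : c s ≠ 0)
    (hrel : ∑ i ∈ Finset.range (s + 1), c i • (θ : Module.End K W) ^ i = 0) :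
    1 ≤ k ∧ q + 1 = 2 ^ (k + 1) ∧ Nat.card (Q ⧸ commKer σ) = q ^ 2 ∧
      (θ : Module.End K W) ∈ Submodule.span K (Set.range σ) := by
  classical
  haveI : Fact (Nat.Prime 2) := ⟨Nat.prime_two⟩
  have hp : (2 : ℕ).Prime := Nat.prime_two
  obtain ⟨a0, b0, hab0⟩ := hnab
  haveI : Nontrivial W := by
    by_contra h
    rw [not_nontrivial_iff_subsingleton] at h
    exact hab0 (Subsingleton.elim _ _)
  haveI hSn := commKer_normal hcomm
  let S := commKer σ
  choose χ hχ using hcomm
  let X := Q ⧸ S
  haveI : Fintype X := Fintype.ofFinite X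
  let rep : X → Q := fun x => Quotient.out x
  have hrep : ∀ x : X, (QuotientGroup.mk (rep x) : X) = x := fun x => Quotient.out_eq x
  have hunit : ∀ a : Q, σ a * σ a⁻¹ = 1 ∧ σ a⁻¹ * σ a = 1 := fun a =>
    ⟨by rw [← map_mul, mul_inv_cancel, map_one], by rw [← map_mul, inv_mul_cancel, map_one]⟩
  have hne0 : ∀ a : Q, σ a ≠ 0 := fun a h => by
    have h1 := (hunit a).1
    rw [h, zero_mul] at h1
    exact zero_ne_one h1
  have hswap : ∀ g a : Q, σ g * σ a = χ g a • (σ a * σ g) := fun g a => by
    rw [← map_mul, ← map_mul, show g * a = g * a * g⁻¹ * a⁻¹ * (a * g) by group, map_mul, hχ,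
      smul_mul_assoc, one_mul]
  have hχinj : ∀ x y : X, (∀ g, χ g (rep x) = χ g (rep y)) → x = y := by
    intro x y hxy
    set a := rep x
    set b := rep y
    have key : a⁻¹ * b ∈ S := by
      intro g
      have h1 : σ g * σ a⁻¹ = (χ g a)⁻¹ • (σ a⁻¹ * σ g) := by
        have hne : χ g a ≠ 0 := fun h0 => by
          have h2 := hswap g a
          rw [h0, zero_smul, ← map_mul] at h2
          exact hne0 _ h2
        have e1 : σ a⁻¹ * σ g = χ g a • (σ g * σ a⁻¹) := by
          calc σ a⁻¹ * σ g = σ a⁻¹ * ((σ g * σ a) * σ a⁻¹) := by rw [mul_assoc, (hunit a).1, mul_one]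
            _ = _ := by
              rw [hswap, smul_mul_assoc, mul_smul_comm, ← mul_assoc, ← mul_assoc, (hunit a).2, one_mul]
        rw [e1, smul_smul, inv_mul_cancel₀ hne, one_smul]
      have hne : χ g a ≠ 0 := fun h0 => by
        have h2 := hswap g a
        rw [h0, zero_smul, ← map_mul] at h2
        exact hne0 _ h2
      show σ (a⁻¹ * b) * σ g = σ g * σ (a⁻¹ * b)
      rw [map_mul, ← mul_assoc (σ g), h1, smul_mul_assoc, mul_assoc _ (σ g), hswap g b, ← hxy g,
        mul_smul_comm, smul_smul, inv_mul_cancel₀ hne, one_smul, mul_assoc]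
    rw [← hrep x, ← hrep y]
    exact QuotientGroup.eq.2 key
  have hsc : ∀ a b : Q, (a : X) = (b : X) → ∃ c : K, σ a = c • σ b := by
    intro a b hab
    obtain ⟨c, hc⟩ := hscal _ (QuotientGroup.eq.1 hab.symm)
    exact ⟨c, by rw [show a = b * (b⁻¹ * a) by group, map_mul, hc, mul_smul_comm, mul_one]⟩
  -- an irreducible invariant subspace
  obtain ⟨U, hU⟩ : ∃ U, Minimal (fun U : Submodule K W => U ≠ ⊥ ∧ ∀ g, ∀ w ∈ U, σ g w ∈ U) U :=
    exists_minimal_of_wellFoundedLT _ ⟨⊤, top_ne_bot, fun g w _ => Submodule.mem_top⟩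
  obtain ⟨hUne, hUinv⟩ := hU.prop
  haveI : Nontrivial U := Submodule.nontrivial_iff_ne_bot.2 hUne
  let σU : Q →* Module.End K U :=
    { toFun := fun g => (σ g).restrict (hUinv g)
      map_one' := by ext w; simp
      map_mul' := fun g h => by ext w; simp }
  have hirr : ∀ W' : Submodule K U, (∀ g, ∀ w ∈ W', σU g w ∈ W') → W' = ⊥ ∨ W' = ⊤ := by
    intro W' hW'
    by_cases hb : W' = ⊥
    · exact Or.inl hb
    right
    have h : U ≤ W'.map U.subtype := hU.le_of_le ⟨fun h => hb (by
        rw [← Submodule.map_bot U.subtype] at h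
        exact Submodule.map_injective_of_injective U.subtype_injective h), by
      rintro g _ ⟨w, hw, rfl⟩
      exact ⟨σU g w, hW' g w hw, rfl⟩⟩ (Submodule.map_subtype_le U W')
    rw [eq_top_iff]
    intro w _
    obtain ⟨w', hw', he⟩ := h w.2
    rwa [← U.subtype_injective he]
  -- restriction is bijective on the span
  let eW : X → Module.End K W := fun x => σ (rep x)
  let eU : X → Module.End K U := fun x => σU (rep x)
  have heU0 : ∀ x, eU x ≠ 0 := fun x h => by
    have h1 : σU (rep x) * σU (rep x)⁻¹ = 1 := by rw [← map_mul, mul_inv_cancel, map_one]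
    rw [show σU (rep x) = 0 from h, zero_mul] at h1
    exact zero_ne_one h1
  have hswapU : ∀ g a : Q, σU g * σU a = χ g a • (σU a * σU g) := fun g a => by
    refine LinearMap.ext fun w => Subtype.ext ?_
    exact LinearMap.congr_fun (hswap g a) (w : W)
  let Lg : Q → Module.End K U →ₗ[K] Module.End K U := fun g =>
    (LinearMap.mulLeft K (σU g)).comp (LinearMap.mulRight K (σU g⁻¹))
  have hliU : LinearIndependent K eU := by
    refine CfsgLib.HallHigmanB.linearIndependent_of_eigen eU heU0 Lg (fun x g => χ g (rep x))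
      (fun x g => ?_) hχinj
    show σU g * (σU (rep x) * σU g⁻¹) = _
    rw [← mul_assoc, hswapU, smul_mul_assoc, mul_assoc, ← map_mul σU g, mul_inv_cancel, map_one,
      mul_one]
  let jW : (X → K) →ₗ[K] Module.End K W := Fintype.linearCombination K eW
  let jU : (X → K) →ₗ[K] Module.End K U := Fintype.linearCombination K eU
  have hjU : Function.Bijective jU := by
    refine ⟨(injective_iff_map_eq_zero jU).2 fun d hd => funext (Fintype.linearIndependent_iff.1 hliU d
      (by simpa [jU, Fintype.linearCombination_apply] using hd)), LinearMap.range_eq_top.1 (top_le_iff.1 ?_)⟩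
    rw [← CfsgLib.HallHigmanB.span_range_eq_top σU hirr, Submodule.span_le]
    rintro _ ⟨g, rfl⟩
    obtain ⟨c, hc⟩ := hsc g (rep (g : X)) (hrep _).symm
    refine ⟨Pi.single (g : X) c, ?_⟩
    simp only [jU, Fintype.linearCombination_apply_single]
    refine LinearMap.ext fun w => Subtype.ext ?_
    exact (LinearMap.congr_fun hc (w : W)).symm
  let B : Submodule K (Module.End K W) := Submodule.span K (Set.range σ)
  have hBW : B ≤ LinearMap.range jW := by
    rw [Submodule.span_le]
    rintro _ ⟨g, rfl⟩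
    obtain ⟨c, hc⟩ := hsc g (rep (g : X)) (hrep _).symm
    exact ⟨Pi.single (g : X) c, by simp [jW, Fintype.linearCombination_apply_single, eW, hc]⟩
  have hjB : ∀ d, jW d ∈ B := fun d => by
    simp only [jW, Fintype.linearCombination_apply]
    exact Submodule.sum_mem _ fun x _ => Submodule.smul_mem _ _ (Submodule.subset_span ⟨_, rfl⟩)
  have hres : ∀ (d : X → K) (w : U), (jW d) (w : W) = ((jU d w : U) : W) := fun d w => by
    simp [jW, jU, Fintype.linearCombination_apply, eW, eU, σU, LinearMap.sum_apply]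
  have hBinj : ∀ f ∈ B, ∀ f' ∈ B, (∀ w : U, f (w : W) = f' (w : W)) → f = f' := by
    intro f hf f' hf' h
    obtain ⟨d, rfl⟩ := hBW hf
    obtain ⟨d', rfl⟩ := hBW hf'
    rw [hjU.1 (LinearMap.ext fun w => Subtype.ext (by rw [← hres, ← hres]; exact h w) :
      jU d = jU d')]
  have hBmul : ∀ f ∈ B, ∀ f' ∈ B, f * f' ∈ B := by
    intro f hf f' hf'
    have h := Submodule.mul_mem_mul hf hf'
    rw [Submodule.span_mul_span] at h
    refine Submodule.span_mono ?_ h
    rintro _ ⟨_, ⟨g, rfl⟩, _, ⟨g', rfl⟩, rfl⟩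
    exact ⟨g * g', map_mul σ g g'⟩
  have hBone : (1 : Module.End K W) ∈ B := Submodule.subset_span ⟨1, map_one σ⟩
  -- conjugation by `θ`
  let γ : Module.End K W →ₗ[K] Module.End K W :=
    (LinearMap.mulLeft K (θ : Module.End K W)).comp
      (LinearMap.mulRight K ((θ⁻¹ : (Module.End K W)ˣ) : Module.End K W))
  have hγσ : ∀ g, γ (σ g) = σ (φ g) := fun g => by
    show (θ : Module.End K W) * (σ g * _) = _
    rw [← mul_assoc, hθ, mul_assoc, Units.mul_inv, mul_one]
  have hγmul : ∀ f f', γ (f * f') = γ f * γ f' := fun f f' => by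
    show (θ : Module.End K W) * ((f * f') * _) =
      (θ : Module.End K W) * (f * _) * ((θ : Module.End K W) * (f' * _))
    simp only [mul_assoc]
    rw [← mul_assoc ((θ⁻¹ : (Module.End K W)ˣ) : Module.End K W) (θ : Module.End K W),
      Units.inv_mul, one_mul]
  have hγB : ∀ f ∈ B, γ f ∈ B := by
    intro f hf
    have h := Submodule.mem_map_of_mem (f := γ) hf
    rw [Submodule.map_span] at h
    refine Submodule.span_mono ?_ h
    rintro _ ⟨_, ⟨g, rfl⟩, rfl⟩
    exact ⟨φ g, (hγσ g).symm⟩
  let jUe : (X → K) ≃ₗ[K] Module.End K U := LinearEquiv.ofBijective jU hjU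
  let lift : Module.End K U →ₗ[K] Module.End K W := jW.comp jUe.symm.toLinearMap
  have hlB : ∀ F, lift F ∈ B := fun F => hjB _
  have hlres : ∀ F (w : U), lift F (w : W) = ((F w : U) : W) := fun F w => by
    show jW (jUe.symm F) (w : W) = _
    rw [hres]
    exact congrArg Subtype.val (LinearMap.congr_fun (jUe.apply_symm_apply F) w)
  let res : Module.End K W → Module.End K U := fun f => jU (if h : f ∈ B then (hBW h).choose else 0)
  have hresl : ∀ f ∈ B, ∀ w : U, ((res f w : U) : W) = f (w : W) := fun f hf w => by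
    simp only [res, dif_pos hf]
    rw [← hres, (hBW hf).choose_spec]
  have hlift : ∀ f ∈ B, lift (res f) = f := fun f hf =>
    hBinj _ (hlB _) f hf fun w => by rw [hlres, hresl f hf]
  have hlmul : ∀ F F', lift (F * F') = lift F * lift F' := fun F F' =>
    hBinj _ (hlB _) _ (hBmul _ (hlB F) _ (hlB F')) fun w => by
      rw [hlres, Module.End.mul_apply, Module.End.mul_apply, hlres, hlres]
  have hl1 : lift 1 = 1 := hBinj _ (hlB _) _ hBone fun w => by rw [hlres]; rfl
  let α : Module.End K U →ₗ[K] Module.End K U :=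
    { toFun := fun F => res (γ (lift F))
      map_add' := fun F F' => LinearMap.ext fun w => Subtype.ext (by
        rw [LinearMap.add_apply, Submodule.coe_add, hresl _ (hγB _ (hlB _)),
          hresl _ (hγB _ (hlB _)), hresl _ (hγB _ (hlB _)), map_add, map_add, LinearMap.add_apply])
      map_smul' := fun c F => LinearMap.ext fun w => Subtype.ext (by
        rw [RingHom.id_apply, LinearMap.smul_apply, Submodule.coe_smul, hresl _ (hγB _ (hlB _)),
          hresl _ (hγB _ (hlB _)), map_smul, map_smul, LinearMap.smul_apply]) }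
  have hlα : ∀ F, lift (α F) = γ (lift F) := fun F => hlift _ (hγB _ (hlB _))
  have hlinj : Function.Injective lift := fun F F' h => LinearMap.ext fun w => Subtype.ext (by
    rw [← hlres, ← hlres, h])
  have hα1 : α 1 = 1 := hlinj (by
    rw [hlα, hl1]
    show (θ : Module.End K W) * (1 * _) = _
    rw [one_mul, Units.mul_inv])
  have hαmul : ∀ F F', α (F * F') = α F * α F' := fun F F' => hlinj (by
    rw [hlα, hlmul, hγmul, hlmul, hlα, hlα])
  have hαinj : Function.Injective α := fun F F' h => hlinj (by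
    have h1 := congrArg lift h
    rw [hlα, hlα] at h1
    have h2 := congrArg (fun f => ((θ⁻¹ : (Module.End K W)ˣ) : Module.End K W) * f *
      (θ : Module.End K W)) h1
    simpa [γ, ← mul_assoc] using h2)
  let αe : Module.End K U ≃ₐ[K] Module.End K U :=
    AlgEquiv.ofBijective (AlgHom.ofLinearMap α hα1 hαmul)
      ⟨hαinj, (LinearMap.injective_iff_surjective (f := α)).1 hαinj⟩
  obtain ⟨T₀, hT₀⟩ := αe.eq_linearEquivConjAlgEquiv
  have hconj : ∀ F : Module.End K U, α F = T₀.toLinearMap * F * T₀.symm.toLinearMap := fun F => by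
    have h := AlgEquiv.congr_fun hT₀ F
    exact h
  set T : Module.End K U := T₀.toLinearMap with hT
  set T' : Module.End K U := T₀.symm.toLinearMap with hT'
  have hTT' : T * T' = 1 := LinearMap.ext fun w => T₀.apply_symm_apply w
  have hT'T : T' * T = 1 := LinearMap.ext fun w => T₀.symm_apply_apply w
  -- `θ = T C` with `C` centralizing the image
  set C : Module.End K W := lift T' * (θ : Module.End K W) with hC
  have hσl : ∀ g, σ g = lift (res (σ g)) := fun g => (hlift _ (Submodule.subset_span ⟨g, rfl⟩)).symm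
  have hCσ : ∀ g, Commute C (σ g) := fun g => by
    show C * σ g = σ g * C
    rw [hC, mul_assoc, hθ, ← mul_assoc, ← mul_assoc]
    congr 1
    rw [← hγσ, hσl g, ← hlα, hconj, ← hlmul, ← hlmul, ← mul_assoc, ← mul_assoc, hT'T, one_mul]
  have hCB : ∀ f ∈ B, Commute C f := fun f hf => by
    induction hf using Submodule.span_induction with
    | mem x hx => obtain ⟨g, rfl⟩ := hx; exact hCσ g
    | zero => exact Commute.zero_right _
    | add x y _ _ hx hy => exact hx.add_right hy
    | smul a x _ hx => exact hx.smul_right a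
  have hθC : (θ : Module.End K W) = lift T * C := by
    rw [hC, ← mul_assoc, ← hlmul, hTT', hl1, one_mul]
  have hCu : IsUnit C := by
    rw [hC]
    refine IsUnit.mul ⟨⟨lift T', lift T, by rw [← hlmul, hT'T, hl1], by rw [← hlmul, hTT', hl1]⟩, rfl⟩
      θ.isUnit
  have hlpow : ∀ i : ℕ, lift (T ^ i) = lift T ^ i := fun i => by
    induction i with
    | zero => rw [pow_zero, pow_zero, hl1]
    | succ i ih => rw [pow_succ, pow_succ, hlmul, ih]
  -- `T` satisfies a relation of degree at most `s`
  have hcoef : ∀ D : X → Module.End K W, (∀ x g, Commute (D x) (σ g)) → ∑ x, eW x * D x = 0 →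
      ∀ x, D x = 0 := by
    intro D hD hsum
    by_contra! hne
    obtain ⟨x0, hx0⟩ := hne
    let Y := {x : X // D x ≠ 0}
    let e' : Y → Module.End K W := fun x => eW x.1 * D x.1
    have hli : LinearIndependent K e' := by
      refine CfsgLib.HallHigmanB.linearIndependent_of_eigen e' (fun x h => x.2 ?_)
        (fun g => (LinearMap.mulLeft K (σ g)).comp (LinearMap.mulRight K (σ g⁻¹)))
        (fun x g => χ g (rep x.1)) (fun x g => ?_) (fun x y h => Subtype.ext (hχinj _ _ h))
      · have h1 := congrArg (σ (rep x.1)⁻¹ * ·) h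
        simpa [e', eW, ← mul_assoc, (hunit _).2] using h1
      · show σ g * (eW x.1 * D x.1 * σ g⁻¹) = _
        rw [mul_assoc, (hD x.1 g⁻¹).eq, ← mul_assoc, ← mul_assoc, hswap, smul_mul_assoc,
          smul_mul_assoc, mul_assoc (σ (rep x.1)), (hunit g).1, mul_one]
    have h0 : ∑ x : Y, (1 : K) • e' x = 0 := by
      simp only [one_smul, e']
      rw [← Finset.sum_subtype (Finset.univ.filter fun x => D x ≠ 0) (by simp) fun x => eW x * D x,
        Finset.sum_filter_of_ne (p := fun x => D x ≠ 0) (fun x _ h => mt (fun hD0 : D x = 0 => by rw [hD0, mul_zero]) h)]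
      exact hsum
    exact one_ne_zero (Fintype.linearIndependent_iff.1 hli (fun _ => 1) h0 ⟨x0, hx0⟩)
  have hdep : ∃ d : ℕ → K, (∃ i ≤ s, d i ≠ 0) ∧
      ∑ i ∈ Finset.range (s + 1), d i • T ^ i = 0 := by
    by_contra hno
    push Not at hno
    have hliT : LinearIndependent K fun i : Fin (s + 1) => T ^ (i : ℕ) := by
      rw [Fintype.linearIndependent_iff]
      intro g hg i
      by_contra hi
      refine hno (fun j => if h : j < s + 1 then g ⟨j, h⟩ else 0)
        ⟨(i : ℕ), Nat.lt_succ_iff.1 i.2, by simpa [i.2] using hi⟩ ?_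
      rw [← Fin.sum_univ_eq_sum_range (fun j => (if h : j < s + 1 then g ⟨j, h⟩ else 0) • T ^ j)]
      rw [← hg]
      exact Finset.sum_congr rfl fun x _ => by rw [dif_pos x.2]
    obtain ⟨ℓ, hℓ⟩ := LinearMap.exists_extend
      ((Finsupp.lapply (⟨s, Nat.lt_succ_self s⟩ : Fin (s + 1))).comp hliT.repr)
    have hℓT : ∀ i : Fin (s + 1), ℓ (T ^ (i : ℕ)) = if (i : ℕ) = s then 1 else 0 := by
      intro i
      have h := LinearMap.congr_fun hℓ ⟨T ^ (i : ℕ), Submodule.subset_span ⟨i, rfl⟩⟩
      simp only [LinearMap.comp_apply, Submodule.subtype_apply] at h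
      rw [h, hliT.repr_eq_single i _ rfl, Finsupp.lapply_apply, Finsupp.single_apply]
      simp [Fin.ext_iff]
    let t : ℕ → X → K := fun i => jUe.symm (T ^ i)
    let D : X → Module.End K W := fun x => ∑ i ∈ Finset.range (s + 1), (c i * t i x) • C ^ i
    have hD : ∀ x g, Commute (D x) (σ g) := fun x g =>
      Commute.sum_left _ _ _ fun i _ => ((hCσ g).pow_left i).smul_left _
    have hsum : ∑ x, eW x * D x = 0 := by
      rw [← hrel]
      simp only [D, Finset.mul_sum]
      rw [Finset.sum_comm]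
      refine Finset.sum_congr rfl fun i _ => ?_
      rw [hθC, (hCB _ (hlB T)).symm.mul_pow, ← hlpow]
      show _ = c i • (jW (t i) * C ^ i)
      simp only [jW, Fintype.linearCombination_apply, Finset.sum_mul, Finset.smul_sum]
      refine Finset.sum_congr rfl fun x _ => ?_
      rw [mul_smul_comm, smul_mul_assoc, smul_smul]
    have hz := hcoef D hD hsum
    have h1 : ∑ x, (ℓ (eU x)) • D x = 0 := Finset.sum_eq_zero fun x _ => by rw [hz x, smul_zero]
    have h2 : ∀ i, ∑ x, ℓ (eU x) * (c i * t i x) = c i * ℓ (T ^ i) := fun i => by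
      have e1 : T ^ i = ∑ x, t i x • eU x := by
        conv_lhs => rw [← jUe.apply_symm_apply (T ^ i)]
        exact Fintype.linearCombination_apply K eU (t i)
      rw [e1, map_sum, Finset.mul_sum]
      exact Finset.sum_congr rfl fun x _ => by rw [map_smul, smul_eq_mul]; ring
    simp only [D, Finset.smul_sum, smul_smul] at h1
    rw [Finset.sum_comm] at h1
    simp only [← Finset.sum_smul, h2] at h1
    rw [Finset.sum_eq_single s] at h1
    · rw [hℓT ⟨s, Nat.lt_succ_self s⟩, if_pos rfl, mul_one, smul_eq_zero] at h1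
      exact h1.elim hc (hCu.pow s).ne_zero
    · intro i hi hne
      rw [hℓT ⟨i, Finset.mem_range.1 hi⟩, if_neg hne, mul_zero, zero_smul]
    · exact fun h => absurd (Finset.self_mem_range_succ s) h
  -- normalize `T` so that `T ^ P = 1`
  set P := 2 ^ (k + 1) with hPdef
  have hP2 : 2 ≤ P := hp.two_le.trans (Nat.le_self_pow (by omega) 2)
  have hφi : ∀ (i : ℕ) (g : Q), ((θ ^ i : (Module.End K W)ˣ) : Module.End K W) * σ g =
      σ ((φ ^ i) g) * ((θ ^ i : (Module.End K W)ˣ) : Module.End K W) := by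
    intro i
    induction i with
    | zero => intro g; simp
    | succ i ih =>
      intro g
      rw [pow_succ', pow_succ', Units.val_mul, MulAut.mul_apply, mul_assoc, ih, ← mul_assoc, hθ,
        mul_assoc]
  have hαi : ∀ (i : ℕ) (F : Module.End K U), lift (T ^ i * F * T' ^ i) =
      ((θ ^ i : (Module.End K W)ˣ) : Module.End K W) * lift F *
        (((θ ^ i)⁻¹ : (Module.End K W)ˣ) : Module.End K W) := by
    intro i
    induction i with
    | zero => intro F; simp
    | succ i ih =>
      intro F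
      have e : T ^ (i + 1) * F * T' ^ (i + 1) = α (T ^ i * F * T' ^ i) := by
        rw [hconj, pow_succ' T, pow_succ T']; simp only [mul_assoc]
      rw [e, hlα, ih, pow_succ', mul_inv_rev, Units.val_mul, Units.val_mul]
      simp [γ, mul_assoc]
  obtain ⟨ω, hω⟩ : ∃ ω : K, T ^ P = ω • (1 : Module.End K U) := by
    refine CfsgLib.HallHigmanB.exists_scalar (fun g => σU g) hirr fun g => ?_
    have h := hαi P (σU g)
    rw [hθP, inv_one, Units.val_one, one_mul, mul_one] at h
    have h2 : T ^ P * σU g * T' ^ P = σU g := hlinj h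
    calc T ^ P * σU g = T ^ P * σU g * (T' ^ P * T ^ P) := by
          rw [← (show Commute T' T from hT'T.trans hTT'.symm).mul_pow, hT'T, one_pow, mul_one]
      _ = σU g * T ^ P := by rw [← mul_assoc, h2]
  have hω0 : ω ≠ 0 := fun h => by
    rw [h, zero_smul] at hω
    have h1 : T ^ P * T' ^ P = 1 := by
      rw [← (show Commute T T' from hTT'.trans hT'T.symm).mul_pow, hTT', one_pow]
    rw [hω, zero_mul] at h1
    exact zero_ne_one h1
  obtain ⟨r, hr⟩ := IsAlgClosed.exists_pow_nat_eq ω (show 0 < P by omega)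
  have hr0 : r ≠ 0 := fun h => hω0 (by rw [← hr, h, zero_pow (by omega)])
  set T₁ : Module.End K U := r⁻¹ • T with hT₁
  set T₁' : Module.End K U := r • T' with hT₁'
  have hT₁1 : T₁ ^ P = 1 := by
    rw [hT₁, _root_.smul_pow, hω, smul_smul, inv_pow, hr, inv_mul_cancel₀ hω0, one_smul]
  have hT₁T₁' : T₁ * T₁' = 1 := by
    rw [hT₁, hT₁', smul_mul_smul_comm, inv_mul_cancel₀ hr0, hTT', one_smul]
  have hdeg : (minpoly K T₁).natDegree ≤ s := by
    obtain ⟨d, ⟨i0, hi0, hdi0⟩, hdrel⟩ := hdep
    let F : K[X] := ∑ i ∈ Finset.range (s + 1), Polynomial.C (d i * r ^ i) * Polynomial.X ^ i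
    have hF0 : F ≠ 0 := fun h => by
      have h1 := congrArg (fun G : K[X] => G.coeff i0) h
      simp only [F, finsetSum_coeff, coeff_C_mul, coeff_X_pow, mul_ite, mul_one, mul_zero,
        Finset.sum_ite_eq, Finset.mem_range, Nat.lt_succ_iff, hi0, if_true, coeff_zero] at h1
      exact mul_ne_zero hdi0 (pow_ne_zero _ hr0) h1
    have hFT : aeval T₁ F = 0 := by
      rw [← hdrel]
      simp only [F, map_sum]
      refine Finset.sum_congr rfl fun i _ => ?_
      rw [map_mul, aeval_C, map_pow, aeval_X, ← Algebra.smul_def, hT₁, _root_.smul_pow, smul_smul,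
        mul_assoc, ← mul_pow, mul_inv_cancel₀ hr0, one_pow, mul_one]
    refine (natDegree_le_of_dvd (minpoly.dvd K T₁ hFT) hF0).trans ?_
    exact natDegree_sum_le_of_forall_le _ _ fun i hi => (natDegree_C_mul_X_pow_le _ _).trans
      (Nat.lt_succ_iff.1 (Finset.mem_range.1 hi))
  set N := finrank K U with hNdef
  have hdegN : (minpoly K T₁).natDegree ≤ N :=
    (natDegree_le_of_dvd (LinearMap.minpoly_dvd_charpoly T₁) (LinearMap.charpoly_monic T₁).ne_zero).trans
      (LinearMap.charpoly_natDegree T₁).le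
  -- the centralizer of `T₁` is large
  have hcom : N ^ 2 ≤ (minpoly K T₁).natDegree * finrank K (LinearMap.ker
      (LinearMap.mulLeft K T₁ - LinearMap.mulRight K T₁)) := by
    haveI : CharP (Module.End K U) 2 := charP_of_injective_algebraMap (algebraMap K _).injective 2
    have hnil : (T₁ - 1) ^ P = 0 := by
      rw [hPdef, sub_pow_char_pow_of_commute (p := 2) (n := k + 1) (h := Commute.one_right T₁), ← hPdef, hT₁1, one_pow, sub_self]
    have hdvd : minpoly K T₁ ∣ (Polynomial.X - Polynomial.C (1 : K)) ^ P := minpoly.dvd K T₁ (by simp [hnil])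
    obtain ⟨j, -, hj⟩ := (dvd_prime_pow (prime_X_sub_C (1 : K)) P).1 hdvd
    have hmin := eq_of_monic_of_associated (minpoly.monic (IsIntegral.of_finite K T₁))
      ((monic_X_sub_C (1 : K)).pow j) hj
    have hjs : (T₁ - 1) ^ j = 0 := by
      have := minpoly.aeval K T₁
      rw [hmin] at this
      simpa using this
    have hjd : (minpoly K T₁).natDegree = j := by rw [hmin, natDegree_pow, natDegree_X_sub_C, mul_one]
    have h := CfsgLib.HallHigmanB.sq_finrank_le_commutant hjs
    have e : LinearMap.mulLeft K (T₁ - 1) - LinearMap.mulRight K (T₁ - 1) =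
        LinearMap.mulLeft K T₁ - LinearMap.mulRight K T₁ := LinearMap.ext fun F => by
      simp [sub_mul, mul_sub]
    rw [e] at h
    rw [hjd]
    exact h
  -- conjugation by `T₁` permutes the basis semiregularly
  have hφS : ∀ g, g ∈ S → φ g ∈ S := by
    intro g hg b
    obtain ⟨b', rfl⟩ := φ.surjective b
    show σ (φ g) * σ (φ b') = σ (φ b') * σ (φ g)
    rw [← hγσ, ← hγσ, ← hγmul, ← hγmul, (hg b').eq]
  have hφS' : ∀ g, φ g ∈ S → g ∈ S := by
    intro g hg b
    have h : γ (σ g * σ b) = γ (σ b * σ g) := by rw [hγmul, hγmul, hγσ, hγσ, (hg (φ b)).eq]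
    show σ g * σ b = σ b * σ g
    have h2 := congrArg (fun f => ((θ⁻¹ : (Module.End K W)ˣ) : Module.End K W) * f *
      (θ : Module.End K W)) h
    simpa [γ, ← mul_assoc] using h2
  let τ : Equiv.Perm X :=
    { toFun := QuotientGroup.map S S φ.toMonoidHom (fun g hg => hφS g hg)
      invFun := QuotientGroup.map S S φ.symm.toMonoidHom (fun g hg => by
        refine hφS' _ ?_
        simpa using hg)
      left_inv := fun x => by
        induction x using QuotientGroup.induction_on with | _ g => simp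
      right_inv := fun x => by
        induction x using QuotientGroup.induction_on with | _ g => simp }
  have hτ : ∀ (i : ℕ) (g : Q), (τ ^ i) (g : X) = (((φ ^ i) g : Q) : X) := by
    intro i
    induction i with
    | zero => intro g; rfl
    | succ i ih =>
      intro g
      rw [pow_succ', pow_succ', Equiv.Perm.mul_apply, ih, MulAut.mul_apply]
      rfl
  have hτP : τ ^ P = 1 := by
    ext x
    rw [← hrep x, hτ]
    show (((φ ^ P) (rep x) : Q) : X) = ((rep x : Q) : X)
    refine QuotientGroup.eq.2 ?_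
    intro b
    have h := hφi P (rep x)
    rw [hθP, Units.val_one, one_mul, mul_one] at h
    have h1 : σ (((φ ^ P) (rep x))⁻¹ * rep x) = 1 := by rw [map_mul, h, (hunit _).2]
    rw [h1]
    exact Commute.one_left _
  let B' : Basis X K (Module.End K U) := (Pi.basisFun K X).map jUe
  have hB' : ∀ x, B' x = eU x := fun x => by
    simp only [B', Basis.map_apply, Pi.basisFun_apply]
    show jU (Pi.single x 1) = eU x
    rw [Fintype.linearCombination_apply_single, one_smul]
  let L : Module.End K U →ₗ[K] Module.End K U :=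
    (LinearMap.mulLeft K T₁).comp (LinearMap.mulRight K T₁')
  have hLα : ∀ F, L F = α F := fun F => by
    show T₁ * (F * T₁') = _
    rw [hconj, hT₁, hT₁', mul_smul_comm, smul_mul_smul_comm, inv_mul_cancel₀ hr0, one_smul, mul_assoc]
  have hω' : ∀ x : X, ∃ d : K, d ≠ 0 ∧ L (B' x) = d • B' (τ x) := by
    intro x
    obtain ⟨d, hd⟩ := hsc (φ (rep x)) (rep (τ x)) (by
      rw [hrep]
      conv_rhs => rw [← hrep x]
      rfl)
    refine ⟨d, fun h0 => hne0 (φ (rep x)) (by rw [hd, h0, zero_smul]), hlinj ?_⟩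
    have hlσ : ∀ g, lift (σU g) = σ g := fun g =>
      hBinj _ (hlB _) _ (Submodule.subset_span ⟨g, rfl⟩) fun w => by rw [hlres]; rfl
    rw [hLα, hlα, map_smul, hB', hB', show eU x = σU (rep x) from rfl,
      show eU (τ x) = σU (rep (τ x)) from rfl, hlσ, hlσ, hγσ, hd]
  choose ω' hω'0 hω'e using hω'
  have horb := CfsgLib.HallHigmanB.finrank_fixed_monomial B' L τ ω' hω'0 hω'e (P := P) (by omega)
    ((1 : Q) : X) hτP (by show ((φ 1 : Q) : X) = _; rw [map_one])
    (by
      intro x i hi hiP hx
      rw [← hrep x, hτ] at hx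
      rw [← hrep x]
      exact (QuotientGroup.eq_one_iff _).2 (hfree _ i hi hiP (QuotientGroup.eq.1 hx.symm)))
  have hN2 : Fintype.card X = N ^ 2 := by
    rw [← finrank_eq_card_basis B', Module.finrank_linearMap, pow_two]
  have hker : LinearMap.ker (LinearMap.mulLeft K T₁ - LinearMap.mulRight K T₁) ≤
      LinearMap.ker (L - 1) := by
    intro F hF
    rw [LinearMap.mem_ker, LinearMap.sub_apply, LinearMap.mulLeft_apply, LinearMap.mulRight_apply,
      sub_eq_zero] at hF
    rw [LinearMap.mem_ker, LinearMap.sub_apply, Module.End.one_apply, sub_eq_zero]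
    show T₁ * (F * T₁') = F
    rw [← mul_assoc, hF, mul_assoc, hT₁T₁', mul_one]
  have hN1 : 2 ≤ N := by
    have hX : 1 < Fintype.card X := by
      rw [Fintype.one_lt_card_iff]
      exact ⟨(a0 : X), ((1 : Q) : X), fun h => hab0 ((QuotientGroup.eq_one_iff a0).1 h b0)⟩
    rw [hN2] at hX
    by_contra hlt
    interval_cases N <;> simp at hX
  obtain ⟨hNP, hdN⟩ := CfsgLib.HallHigmanB.core_arith (P := P) hN1 hdegN
    (lt_of_le_of_lt hdeg hs) (hcom.trans (Nat.mul_le_mul_left _ (Submodule.finrank_mono hker)))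
    (horb.trans_eq (by rw [hN2]))
  obtain ⟨j, hj⟩ := IsPGroup.iff_card.1 (hQ.to_quotient S)
  rw [Nat.card_eq_fintype_card, hN2] at hj
  obtain ⟨m, -, hm⟩ := (Nat.dvd_prime_pow (Fact.out : q.Prime)).1 (hj ▸ dvd_pow_self N two_ne_zero)
  have hm1 : 1 ≤ m := by
    by_contra h0
    rw [show m = 0 by omega, pow_zero] at hm
    omega
  have hqN : 2 ^ (k + 1) - 1 = q ^ m := by omega
  have hq2 : q ≠ 2 := by
    rintro rfl
    have e1 : 2 ∣ 2 ^ (k + 1) := dvd_pow_self 2 (by omega)
    have e2 : 2 ∣ 2 ^ m := dvd_pow_self 2 (by omega)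
    have e3 : 1 ≤ 2 ^ (k + 1) := Nat.one_le_two_pow
    omega
  obtain ⟨rfl, hk2, hqk⟩ := mersenne_of_pow_sub_one (Fact.out : q.Prime) hq2 hm1 hqN
  rw [pow_one] at hm
  refine ⟨by omega, hqk, by rw [Nat.card_eq_fintype_card, hN2, hm], ?_⟩
  -- both operators are annihilated by `(X - 1) ^ q`
  have hdq : (minpoly K T₁).natDegree = q := hdN.trans hm
  have hT₁q : (T₁ - 1) ^ q = 0 := by
    have h := CfsgLib.TwoLengthExponent.sub_one_pow_natDegree_minpoly (K := K) T₁ (j := k + 1) hT₁1
    rwa [hdq] at h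
  have hθq : ((θ : Module.End K W) - 1) ^ q = 0 := by
    have hθ1 : (θ : Module.End K W) ^ 2 ^ (k + 1) = 1 := by
      rw [← Units.val_pow_eq_pow_val, hθP, Units.val_one]
    let F : K[X] := ∑ i ∈ Finset.range (s + 1), Polynomial.C (c i) * Polynomial.X ^ i
    have hF0 : F ≠ 0 := fun h => by
      have h1 := congrArg (fun G : K[X] => G.coeff s) h
      simp only [F, finsetSum_coeff, coeff_C_mul, coeff_X_pow, mul_ite, mul_one, mul_zero,
        Finset.sum_ite_eq, Finset.mem_range, Nat.lt_succ_self, if_true, coeff_zero] at h1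
      exact hc h1
    have hFθ : aeval (θ : Module.End K W) F = 0 := by
      rw [← hrel]
      simp only [F, map_sum]
      refine Finset.sum_congr rfl fun i _ => ?_
      rw [map_mul, aeval_C, map_pow, aeval_X, ← Algebra.smul_def]
    have hle : (minpoly K (θ : Module.End K W)).natDegree ≤ s :=
      (natDegree_le_of_dvd (minpoly.dvd K _ hFθ) hF0).trans
        (natDegree_sum_le_of_forall_le _ _ fun i hi => (natDegree_C_mul_X_pow_le _ _).trans
          (Nat.lt_succ_iff.1 (Finset.mem_range.1 hi)))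
    exact pow_eq_zero_of_le (show (minpoly K (θ : Module.End K W)).natDegree ≤ q by omega)
      (CfsgLib.TwoLengthExponent.sub_one_pow_natDegree_minpoly (K := K) _ hθ1)
  -- `θ = lift T₁ * C₁` with `C₁` centralizing the image
  set C₁ : Module.End K W := r • C with hC₁
  have hθC₁ : (θ : Module.End K W) = lift T₁ * C₁ := by
    rw [hθC, hC₁, hT₁, map_smul, smul_mul_smul_comm, inv_mul_cancel₀ hr0, one_smul]
  have hC₁σ : ∀ g, Commute C₁ (σ g) := fun g => (hCσ g).smul_left r
  have hl1pow : ∀ i : ℕ, lift (T₁ ^ i) = lift T₁ ^ i := fun i => by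
    induction i with
    | zero => rw [pow_zero, pow_zero, hl1]
    | succ i ih => rw [pow_succ, pow_succ, hlmul, ih]
  have hθpow : ∀ i : ℕ, (θ : Module.End K W) ^ i = lift (T₁ ^ i) * C₁ ^ i := fun i => by
    rw [hθC₁, hl1pow, (((hCB _ (hlB T₁)).smul_left r).symm).mul_pow]
  have hsumθ := CfsgLib.TwoLengthExponent.geom_sum_eq_zero (K := K) _ hqk hθq
  have hsumT := CfsgLib.TwoLengthExponent.geom_sum_eq_zero (K := K) _ hqk hT₁q
  rw [Finset.sum_range_succ] at hsumθ hsumT
  have hTq : T₁ ^ q = - ∑ i ∈ Finset.range q, T₁ ^ i := eq_neg_of_add_eq_zero_right hsumT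
  let E : Fin q → Module.End K W := fun i => C₁ ^ (i : ℕ) - C₁ ^ q
  have hE0 : ∑ i : Fin q, lift (T₁ ^ (i : ℕ)) * E i = 0 := by
    rw [hθpow q, hTq, map_neg, map_sum, neg_mul, Finset.sum_mul] at hsumθ
    simp only [hθpow] at hsumθ
    rw [← sub_eq_add_neg, ← Finset.sum_sub_distrib] at hsumθ
    rw [Fin.sum_univ_eq_sum_range (fun i : ℕ => lift (T₁ ^ i) * (C₁ ^ i - C₁ ^ q))]
    simpa only [mul_sub] using hsumθ
  have hli : LinearIndependent K fun i : Fin q => T₁ ^ (i : ℕ) :=
    (linearIndependent_pow T₁).comp (Fin.cast hdq.symm) (Fin.cast_injective _)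
  let t : Fin q → X → K := fun i => jUe.symm (T₁ ^ (i : ℕ))
  have hexp : ∀ i : Fin q, T₁ ^ (i : ℕ) = ∑ x, t i x • eU x := fun i => by
    conv_lhs => rw [← jUe.apply_symm_apply (T₁ ^ (i : ℕ))]
    exact Fintype.linearCombination_apply K eU (t i)
  have hD := hcoef (fun x => ∑ i, t i x • E i)
    (fun x g => Commute.sum_left _ _ _ fun i _ =>
      ((((hC₁σ g).pow_left _).sub_left ((hC₁σ g).pow_left _))).smul_left _)
    (by
      rw [← hE0]
      simp only [Finset.mul_sum, mul_smul_comm]
      rw [Finset.sum_comm]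
      refine Finset.sum_congr rfl fun i _ => ?_
      show _ = jW (t i) * E i
      simp only [jW, Fintype.linearCombination_apply, Finset.sum_mul, smul_mul_assoc])
  have hEz : ∀ i, E i = 0 := fun i => by
    refine (Module.forall_dual_apply_eq_zero_iff K _).1 fun ξ => ?_
    refine Fintype.linearIndependent_iff.1 hli (fun j => ξ (E j)) ?_ i
    simp only [hexp, Finset.smul_sum, smul_smul]
    rw [Finset.sum_comm]
    refine Finset.sum_eq_zero fun x _ => ?_
    rw [← Finset.sum_smul]
    have h1 := congrArg ξ (hD x)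
    simp only [map_sum, map_smul, smul_eq_mul, map_zero] at h1
    rw [show ∑ j, ξ (E j) * t j x = 0 from by simpa only [mul_comm] using h1, zero_smul]
  have hq' : 2 ≤ q := (Fact.out : q.Prime).two_le
  have e0 := sub_eq_zero.1 (hEz ⟨0, by omega⟩)
  have e1 := sub_eq_zero.1 (hEz ⟨1, by omega⟩)
  simp only [pow_zero, pow_one] at e0 e1
  rw [hθC₁, e1, ← e0, mul_one]
  exact hlB T₁

end CfsgLib.TwoLengthExponent
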