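/-
On the module of a block a `2`-element satisfying the short relation is trivial or a rotation
of a plane.
-/
import Mathlib
import Cfsg.Agent.Lib.TwoLengthExponent.BlockModule
import Cfsg.Agent.Lib.TwoLengthExponent.Core
import Cfsg.Agent.Lib.GrossTwoLength.CentralElement

set_option autoImplicit false
set_option linter.style.haveILetI false
set_option linter.unusedSectionVars false

open scoped commutatorElement IsMulCommutative

namespace CfsgLib.TwoLengthExponent

open CfsgLib.HallHigmanExc CfsgLib.GrossTwoLength CfsgLib.CoprimeAction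

universe u v w

variable {G : Type w} [Group G] [Finite G] {K : Type u} [Field K] {V : Type v} [AddCommGroup V]
  [Module K V]

variable {ρ : G →* Module.End K V} {Q : Subgroup G} {q : ℕ}

/-- An element whose image fixes the block pointwise lies in the block kernel. -/
theorem mem_blockSe_of_trivial {l : centerImage ρ Q →* Kˣ} {g : G} (hg : g ∈ Q)
    (h : ρ g * blk (centerImage ρ Q) l = blk (centerImage ρ Q) l) : g ∈ blockSe ρ Q l := by
  refine ⟨hg, fun b hb => ?_⟩
  rw [mul_assoc, (commute_blk_of_mem l hb).eq, ← mul_assoc, h, mul_assoc (ρ b), h,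
    (commute_blk_of_mem l hb).eq]

set_option maxHeartbeats 1600000 in
/-- On a block where the involutory power acts, the stabilizing power is a rotation of a plane. -/
theorem exists_rot [IsAlgClosed K] [FiniteDimensional K V] [CharP K 2] [hqf : Fact q.Prime]
    (hq2 : q ≠ 2) (hQ : IsPGroup q Q) (hcl : ⁅Q, Q⁆ ≤ Subgroup.centralizer (Q : Set G))
    (hQn : ∀ g, g ∈ Subgroup.normalizer (Q : Set G)) {y : G} {n : ℕ}
    (hy : y ^ 2 ^ (n + 1) = 1 ∧ ∑ i ∈ Finset.range (2 ^ (n + 1)), ρ y ^ i = 0)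
    {l : centerImage ρ Q →* Kˣ} (hl : blk (centerImage ρ Q) l ≠ 0)
    {M : Type w} [AddCommGroup M] [Finite M] {mk : Q → M}
    {φ : blockStab ρ (blk (centerImage ρ Q) l) →* AddMonoid.End M} {B : M →+ M →+ Additive Kˣ}
    (hmks : Function.Surjective mk) (hmk : ∀ a b, mk (a * b) = mk a + mk b)
    (hmk0 : ∀ a, mk a = 0 ↔ (a : G) ∈ blockSe ρ Q l)
    (hφ : ∀ (r : blockStab ρ (blk (centerImage ρ Q) l)) (a : Q),
        φ r (mk a) = mk ⟨(r : G) * a * (r : G)⁻¹, (Subgroup.mem_normalizer_iff.1 (hQn r) a).1 a.2⟩)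
    (hB0 : ∀ a b : Q, B (mk a) (mk b) = 0 ↔
        ρ a * ρ b * blk (centerImage ρ Q) l = ρ b * ρ a * blk (centerImage ρ Q) l)
    (hdata : FormData q φ B) (hz : y ^ 2 ^ n ∉ blockFix ρ Q l) :
    ∃ t k : ℕ, ∃ hc : y ^ 2 ^ t ∈ blockStab ρ (blk (centerImage ρ Q) l),
      n = t + k ∧ 1 ≤ k ∧ q + 1 = 2 ^ (k + 1) ∧ IsRot q k φ ⟨y ^ 2 ^ t, hc⟩ := by
  classical
  haveI : Fact (Nat.Prime 2) := ⟨Nat.prime_two⟩
  have hq : q.Prime := Fact.out
  have hqK : (q : K) ≠ 0 := by
    rw [Ne, CharP.cast_eq_zero_iff K 2 q]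
    exact fun h => hq2 ((Nat.prime_dvd_prime_iff_eq Nat.prime_two hq).1 h).symm
  haveI := hQ.isNilpotent
  have hQsol : Group.IsSolvable Q := inferInstance
  obtain ⟨jQ, hjQ⟩ := IsPGroup.iff_card.1 hQ
  revert hmks hmk hmk0 hφ hB0 hdata
  revert φ
  set e := blk (centerImage ρ Q) l with he
  intro φ hmks hmk hmk0 hφ hB0 hdata
  have hA := card_centerImage_ne_zero (ρ := ρ) hQ hqK
  have hee : e * e = e := by rw [he, blk_mul_blk _ hA, if_pos rfl]
  have hQe : ∀ g ∈ Q, Commute (ρ g) e := fun g hg => commute_blk_of_mem l hg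
  have hsc : ∀ a ∈ Q, ∀ b ∈ Q, ∃ c : K, ρ (a * b * a⁻¹ * b⁻¹) * e = c • e :=
    fun a ha b hb => scalar_commutators hcl l ha hb
  obtain ⟨t, htn, hcom, c', hc', hrel'⟩ := exists_block_relation_pow hQ hqK (hQn y) hy hl
  obtain ⟨k, hk⟩ : ∃ k, n = t + k := ⟨n - t, by omega⟩
  set σ0 := y ^ 2 ^ t with hσ0
  set τ := y ^ 2 ^ n with hτ
  have hσk : σ0 ^ 2 ^ k = τ := by rw [hσ0, hτ, ← pow_mul, ← pow_add, hk]
  have hττ : τ * τ = 1 := by rw [hτ, ← pow_add, ← two_mul, ← pow_succ', hy.1]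
  have hτe : Commute (ρ τ) e := pow_commute_blk hQ hqK (hQn y) hy hl
  set sR : blockStab ρ e := ⟨σ0, hcom⟩ with hsR
  set tR : blockStab ρ e := ⟨τ, hτe⟩ with htR
  have hsk : sR ^ 2 ^ k = tR := Subtype.ext (by rw [SubmonoidClass.coe_pow]; exact hσk)
  set Q0 := ⁅Q, Subgroup.zpowers τ⁆ with hQ0
  have hzN : Subgroup.zpowers τ ≤ Subgroup.normalizer (Q : Set G) := Subgroup.zpowers_le.2 (hQn τ)
  have hQ0Q : Q0 ≤ Q := commutator_le_left hzN
  have hcopτ : (Nat.card (Subgroup.zpowers τ)).Coprime (Nat.card Q) := by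
    rw [Nat.card_zpowers, hjQ]
    exact Nat.Coprime.coprime_dvd_left (orderOf_dvd_of_pow_eq_one (n := 2) (by rw [pow_two, hττ]))
      (((Nat.coprime_primes Nat.prime_two hq).2 (Ne.symm hq2)).pow_right jQ)
  have hQ0e : ∀ g ∈ Q0, Commute (ρ g) e := fun g hg => hQe g (hQ0Q hg)
  have hy'Q0 : σ0 ∈ Subgroup.normalizer (Q0 : Set G) := by
    rw [← conj_smul_eq_self]
    show Subgroup.map (MulAut.conj _).toMonoidHom _ = _
    rw [hQ0, Subgroup.map_commutator]
    congr 1
    · exact conj_smul_eq_self.2 (hQn σ0)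
    · rw [MonoidHom.map_zpowers]
      congr 1
      show y ^ 2 ^ t * y ^ 2 ^ n * (y ^ 2 ^ t)⁻¹ = y ^ 2 ^ n
      rw [← pow_add, add_comm, pow_add, mul_inv_cancel_right]
  have hτQ0 : τ ∈ Subgroup.normalizer (Q0 : Set G) := hσk ▸ Subgroup.pow_mem _ hy'Q0 _
  have hgen0 : Q0 ≤ ⁅Q0, Subgroup.zpowers τ⁆ := (commutator_commutator_eq hzN hcopτ (Or.inr hQsol)).ge
  have hdispQ : ∀ a ∈ Q, a⁻¹ * (τ * a * τ⁻¹) ∈ Q0 := fun a ha => by
    have h := Subgroup.commutator_mem_commutator (Q.inv_mem ha) (Subgroup.mem_zpowers τ)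
    rw [← hQ0, commutatorElement_def, inv_inv] at h
    rw [show a⁻¹ * (τ * a * τ⁻¹) = a⁻¹ * τ * a * τ⁻¹ by group]
    exact h
  have hs : (2 ^ (n + 1) - 1) / 2 ^ t < 2 ^ (k + 1) := by
    rw [Nat.div_lt_iff_lt_mul (pow_pos two_pos _), ← pow_add, show k + 1 + t = n + 1 by omega]
    exact Nat.sub_lt (pow_pos two_pos _) one_pos
  have hy'k : σ0 ^ 2 ^ (k + 1) = 1 := by rw [pow_succ, pow_mul, hσk, pow_two, hττ]
  -- the representation of the commutator part on the block
  set W := LinearMap.range e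
  set C := Submonoid.centralizer ({e} : Set (Module.End K V))
  have hfix : ∀ w : W, e (w : V) = w := fun ⟨w, v, hv⟩ => by
    subst hv
    exact LinearMap.congr_fun hee v
  let cn : ∀ g : G, Commute (ρ g) e → Module.End K W :=
    fun g hg => corner e ⟨ρ g, by rintro x rfl; exact hg.symm⟩
  have hcn : ∀ g hg (w : W), ((cn g hg w : W) : V) = ρ g w := fun g hg w => rfl
  let σ : Q0 →* Module.End K W :=
    (corner e).comp ((ρ.comp Q0.subtype).codRestrict C (fun g => by rintro x rfl; exact (hQ0e g g.2).symm))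
  have hσ : ∀ (g : Q0) (w : W), ((σ g w : W) : V) = ρ g w := fun g w => rfl
  have hinvc : Commute (ρ σ0⁻¹) e := commute_inv hcom
  let θ : (Module.End K W)ˣ :=
    ⟨cn σ0 hcom, cn σ0⁻¹ hinvc,
      LinearMap.ext fun w => Subtype.ext (by
        show ρ σ0 (ρ σ0⁻¹ (w : V)) = w
        rw [← Module.End.mul_apply, (rho_mul_inv σ0).1, Module.End.one_apply]),
      LinearMap.ext fun w => Subtype.ext (by
        show ρ σ0⁻¹ (ρ σ0 (w : V)) = w
        rw [← Module.End.mul_apply, (rho_mul_inv σ0).2, Module.End.one_apply])⟩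
  have hθi : ∀ (i : ℕ) (w : W), ((((θ : Module.End K W) ^ i) w : W) : V) = (ρ σ0 ^ i) w := by
    intro i
    induction i with
    | zero => intro w; rfl
    | succ i ih =>
      intro w
      rw [pow_succ, pow_succ, Module.End.mul_apply, Module.End.mul_apply, ih]
      rfl
  let f : MulAut Q0 := Subgroup.normalizerMonoidHom Q0 ⟨σ0, hy'Q0⟩
  have hfi : ∀ (i : ℕ) (g : Q0), (((f ^ i) g : Q0) : G) = σ0 ^ i * g * (σ0 ^ i)⁻¹ := fun i g => by
    simp only [f, ← map_pow]
    rfl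
  have hθσ : ∀ g, (θ : Module.End K W) * σ g = σ (f g) * (θ : Module.End K W) := fun g =>
    LinearMap.ext fun w => Subtype.ext (by
      show ρ σ0 (ρ g (w : V)) = ρ ((f g : Q0) : G) (ρ σ0 (w : V))
      rw [← Module.End.mul_apply, ← map_mul, ← Module.End.mul_apply (ρ ((f g : Q0) : G)), ← map_mul,
        show ((f g : Q0) : G) = σ0 * g * σ0⁻¹ from rfl, inv_mul_cancel_right])
  have hθP : θ ^ 2 ^ (k + 1) = 1 := Units.ext (LinearMap.ext fun w => Subtype.ext (by
    rw [Units.val_pow_eq_pow_val, hθi, ← map_pow, hy'k, map_one]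
    rfl))
  have hrelW : ∑ i ∈ Finset.range ((2 ^ (n + 1) - 1) / 2 ^ t + 1), c' i • (θ : Module.End K W) ^ i = 0 :=
    LinearMap.ext fun w => Subtype.ext (by
      have h := LinearMap.congr_fun hrel' (w : V)
      rw [Module.End.mul_apply, hfix] at h
      simp only [LinearMap.sum_apply, LinearMap.smul_apply, LinearMap.zero_apply] at h
      simp only [LinearMap.sum_apply, LinearMap.smul_apply, LinearMap.zero_apply,
        AddSubmonoidClass.coe_finsetSum, Submodule.coe_smul, hθi, ZeroMemClass.coe_zero]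
      exact h)
  have hσcomm : ∀ a b : Q0, ∃ d : K, σ (a * b * a⁻¹ * b⁻¹) = d • (1 : Module.End K W) := by
    intro a b
    obtain ⟨d, hd⟩ := hsc a (hQ0Q a.2) b (hQ0Q b.2)
    refine ⟨d, LinearMap.ext fun w => Subtype.ext ?_⟩
    have h := LinearMap.congr_fun hd (w : V)
    rw [Module.End.mul_apply, hfix, LinearMap.smul_apply, hfix] at h
    exact h
  set Sk := blockKer ρ Q0 e hQ0e with hSk
  have hker : ∀ g : Q0, g ∈ commKer σ ↔ (g : G) ∈ Sk := by
    intro g
    rw [mem_commKer, hSk, mem_blockKer]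
    constructor
    · intro h
      refine ⟨g.2, fun b hb => LinearMap.ext fun v => ?_⟩
      exact congrArg Subtype.val (LinearMap.congr_fun (h ⟨b, hb⟩).eq ⟨e v, v, rfl⟩)
    · intro h b
      refine LinearMap.ext fun w => Subtype.ext ?_
      have h2 := LinearMap.congr_fun (h.2 b b.2) (w : V)
      simp only [Module.End.mul_apply, hfix] at h2
      exact h2
  have hσS : σ0 ∈ Subgroup.normalizer (Sk : Set G) := blockKer_normalizer hy'Q0 hcom
  -- the part acts noncommutatively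
  have hnab : ∃ a b : Q0, ¬ Commute (σ a) (σ b) := by
    rcases block_dichotomy (p := 2) (e := e) (k := k + 1) hqK (hQ.to_le hQ0Q) hee hQ0e hy'Q0 hcom
        (fun a ha b hb => hsc a (hQ0Q ha) b (hQ0Q hb)) (Nat.le_add_left 1 k) hy'k
        (by rw [Nat.add_sub_cancel, hσk]; exact hgen0) hs hc' hrel' with
      htriv | ⟨j, m, -, hm, -, -, hidx⟩
    · exact absurd ⟨hQn τ, hτe, fun a ha => mem_blockSe_of_trivial
        (hQ0Q (hdispQ a ha)) (htriv _ (hdispQ a ha))⟩ hz
    · by_contra hall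
      push Not at hall
      have h1 : Sk = Q0 := le_antisymm blockKer_le fun g hg =>
        (hker ⟨g, hg⟩).1 fun b => hall _ b
      rw [← hSk, h1, Subgroup.relIndex_self] at hidx
      exact absurd hidx.symm (Nat.one_lt_pow (by omega) hq.one_lt).ne'
  -- elements commuting with the image are scalar
  have hscal : ∀ g ∈ commKer σ, ∃ c : K, σ g = c • (1 : Module.End K W) := by
    intro g hg
    let σu := σ.toHomUnits
    let A : Subgroup (Module.End K W)ˣ := (commKer σ).map σu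
    haveI : Finite A := by
      refine Finite.of_surjective (fun g : commKer σ => (⟨σu g, Subgroup.mem_map_of_mem σu g.2⟩ : A)) ?_
      rintro ⟨_, g, hg, rfl⟩
      exact ⟨⟨g, hg⟩, rfl⟩
    haveI : IsMulCommutative A := ⟨⟨by
      rintro ⟨_, g, hg, rfl⟩ ⟨_, h, -, rfl⟩
      exact Subtype.ext (Units.ext (hg h))⟩⟩
    have hAK : (Nat.card A : K) ≠ 0 := by
      obtain ⟨j, hj⟩ := IsPGroup.iff_card.1 (((hQ.to_le hQ0Q).to_subgroup (commKer σ)).map σu)
      rw [hj, Nat.cast_pow]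
      exact pow_ne_zero _ hqK
    have hmemS : ∀ g, f g ∈ commKer σ ↔ g ∈ commKer σ := fun g => by
      rw [hker, hker]
      exact (Subgroup.mem_normalizer_iff.1 hσS _).symm
    have hθ' : ∀ g, θ * σu g = σu (f g) * θ := fun g => Units.ext (hθσ g)
    have hθA : θ ∈ Subgroup.normalizer (A : Set (Module.End K W)ˣ) := by
      rw [Subgroup.mem_normalizer_iff]
      intro x
      constructor
      · rintro ⟨g, hg, rfl⟩
        exact ⟨f g, (hmemS g).2 hg, by rw [hθ', mul_inv_cancel_right]⟩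
      · rintro ⟨g, hg, he⟩
        obtain ⟨g', rfl⟩ := f.surjective g
        refine ⟨g', (hmemS g').1 hg, ?_⟩
        have h1 := hθ' g'
        rw [he, inv_mul_cancel_right] at h1
        exact mul_left_cancel h1
    have hcm := commute_of_relation A hAK hθA Nat.prime_two (Nat.le_add_left 1 k) hθP hs hc' hrelW
      ⟨_, Subgroup.mem_map_of_mem σu hg⟩
    set g' : Q0 := (f ^ 2 ^ k) g with hg'
    have hg'G : (g' : G) = τ * g * τ⁻¹ := by rw [hg', hfi, hσk]
    have heq : σ g' = σ g := by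
      refine LinearMap.ext fun w => Subtype.ext ?_
      obtain ⟨w', hw'⟩ : ∃ w' : W, ((θ : Module.End K W) ^ 2 ^ k) w' = w :=
        ⟨(((θ⁻¹) ^ 2 ^ k : (Module.End K W)ˣ) : Module.End K W) w, by
          rw [← Units.val_pow_eq_pow_val, ← Module.End.mul_apply, ← Units.val_mul, inv_pow,
            mul_inv_cancel]
          rfl⟩
      rw [Nat.add_sub_cancel, Units.val_pow_eq_pow_val] at hcm
      have h2 := congrArg Subtype.val (LinearMap.congr_fun hcm.eq w')
      simp only [Module.End.mul_apply] at h2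
      have h2' : ρ τ (ρ g (w' : V)) = ρ g (ρ τ (w' : V)) := by
        rw [hθi, ← map_pow, hσk] at h2
        refine h2.trans ?_
        show ρ g ((((θ : Module.End K W) ^ 2 ^ k) w' : W) : V) = _
        rw [hθi, ← map_pow, hσk]
      rw [← hw', hσ, hσ, hθi, hg'G, ← map_pow, hσk, map_mul, map_mul, Module.End.mul_apply,
        Module.End.mul_apply, ← Module.End.mul_apply (ρ τ⁻¹), (rho_mul_inv τ).2, Module.End.one_apply]
      exact h2'
    have hgQ : (g : G) ∈ Q := hQ0Q g.2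
    -- the product with the conjugate is central
    set S0 := Q0 ⊓ (Q ⊓ Subgroup.centralizer (Q : Set G)) with hS0
    have hQ0S0 : ∀ a ∈ Q0, ∀ b ∈ Q0, ⁅a, b⁆ ∈ S0 := fun a ha b hb =>
      ⟨Subgroup.commutator_le_self Q0 (Subgroup.commutator_mem_commutator ha hb),
        Subgroup.commutator_le_self Q (Subgroup.commutator_mem_commutator (hQ0Q ha) (hQ0Q hb)),
        hcl (Subgroup.commutator_mem_commutator (hQ0Q ha) (hQ0Q hb))⟩
    have hτS0 : τ ∈ Subgroup.normalizer (S0 : Set G) := mem_normalizer_of_conj_mem fun x hx =>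
      ⟨(Subgroup.mem_normalizer_iff.1 hτQ0 _).1 hx.1,
        (Subgroup.mem_normalizer_iff.1 (mem_normalizer_center (hQn τ)) _).1 hx.2⟩
    have hg'Q : τ * g * τ⁻¹ ∈ Q0 := hg'G ▸ g'.2
    have hprod : (g : G) * (τ * g * τ⁻¹) ∈ S0 := by
      refine mem_of_commutator_mem (Q := Q0) (S := S0) inf_le_left (Subgroup.commutator_le.2 hQ0S0)
        hτQ0 hτS0 hgen0 (Q0.mul_mem g.2 hg'Q) ?_
      have hinvτ : τ⁻¹ = τ := inv_eq_of_mul_eq_one_right hττ
      have e1 : ((g : G) * (τ * g * τ⁻¹))⁻¹ * (τ * ((g : G) * (τ * g * τ⁻¹)) * τ⁻¹) =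
          ⁅(τ * g * τ⁻¹)⁻¹, (g : G)⁻¹⁆ := by
        rw [commutatorElement_def]
        simp only [mul_inv_rev, inv_inv, hinvτ, mul_assoc]
        simp only [hττ, mul_one]
      rw [e1]
      exact hQ0S0 _ (Q0.inv_mem hg'Q) _ (Q0.inv_mem g.2)
    obtain ⟨c, hc⟩ : ∃ c : K, ρ ((g : G) * (τ * g * τ⁻¹)) * e = c • e :=
      ⟨_, mul_blk (centerImage ρ Q) l ⟨_, Subgroup.mem_map_of_mem ρ.toHomUnits hprod.2⟩⟩
    have hsq : σ g * σ g = c • (1 : Module.End K W) := by
      conv_lhs => arg 2; rw [← heq]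
      rw [← map_mul]
      refine LinearMap.ext fun w => Subtype.ext ?_
      have h := LinearMap.congr_fun hc (w : V)
      rw [Module.End.mul_apply, hfix, LinearMap.smul_apply, hfix] at h
      rw [hσ, Subgroup.coe_mul, hg'G]
      exact h
    obtain ⟨r, hr⟩ := hQ ⟨g, hgQ⟩
    have hgr : g ^ q ^ r = 1 := Subtype.ext (by
      rw [SubmonoidClass.coe_pow]; exact congrArg Subtype.val hr)
    obtain ⟨a, ha⟩ := (hq.odd_of_ne_two hq2).pow (n := r)
    refine ⟨c ^ (a + 1), ?_⟩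
    have h3 : σ g ^ (2 * a + 1) = 1 := by rw [← ha, ← map_pow, hgr, map_one]
    calc σ g = σ g * σ g ^ (2 * a + 1) := by rw [h3, mul_one]
      _ = (σ g * σ g) ^ (a + 1) := by rw [← pow_succ', ← pow_two, ← pow_mul]; congr 1
      _ = _ := by rw [hsq, _root_.smul_pow, one_pow]
  have hfree : ∀ g : Q0, ∀ i, 0 < i → i < 2 ^ (k + 1) → g⁻¹ * (f ^ i) g ∈ commKer σ →
      g ∈ commKer σ := by
    intro g i hi hip hg
    rw [hker] at hg ⊢
    have hgy : (g : G)⁻¹ * (σ0 ^ i * g * (σ0 ^ i)⁻¹) ∈ Sk := by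
      have : ((g⁻¹ * (f ^ i) g : Q0) : G) = (g : G)⁻¹ * (σ0 ^ i * g * (σ0 ^ i)⁻¹) := by
        rw [Subgroup.coe_mul, Subgroup.coe_inv, hfi]
      rwa [this] at hg
    have hstab : ∀ m : ℕ, (g : G)⁻¹ * ((σ0 ^ i) ^ m * g * ((σ0 ^ i) ^ m)⁻¹) ∈ Sk := by
      intro m
      induction m with
      | zero => simp
      | succ m ih =>
        have h := Sk.mul_mem hgy ((Subgroup.mem_normalizer_iff.1 (Subgroup.pow_mem _ hσS i) _).1 ih)
        convert h using 1
        rw [pow_succ' (σ0 ^ i)]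
        group
    obtain ⟨v, u, hu, hiu⟩ := Nat.exists_eq_pow_mul_and_not_dvd hi.ne' 2 (by omega)
    have hv : v ≤ k := by
      by_contra hle
      have : 2 ^ (k + 1) ≤ 2 ^ v * u := (Nat.pow_le_pow_right two_pos (by omega)).trans
        (Nat.le_mul_of_pos_right _ (Nat.pos_of_ne_zero fun h0 => hu (h0 ▸ dvd_zero 2)))
      omega
    obtain ⟨a, ha⟩ := Nat.not_even_iff_odd.1 (fun h => hu (even_iff_two_dvd.1 h))
    have hz2 := hstab (2 ^ (k - v))
    rw [← pow_mul, hiu, show 2 ^ v * u * 2 ^ (k - v) = 2 ^ k * u by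
      rw [mul_right_comm, ← pow_add]; congr 2; omega, pow_mul, hσk, ha, pow_succ, pow_mul, pow_two, hττ,
      one_pow, one_mul] at hz2
    exact mem_of_commutator_mem blockKer_le
      (commutator_le_blockKer fun a ha b hb => hsc a (hQ0Q ha) b (hQ0Q hb)) hτQ0
      (hσk ▸ Subgroup.pow_mem _ hσS _) hgen0 g.2 hz2
  obtain ⟨hk1, hqk, hcard, hspan⟩ := exceptional_mem_span (hQ.to_le hQ0Q) σ hσcomm hnab hscal f θ
    hθσ hθP hfree hs hc' hrelW
  refine ⟨t, k, hcom, hk, hk1, hqk, ?_⟩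
  -- the plane
  have hmk1 : mk 1 = 0 := (hmk0 1).2 (one_mem _)
  have hmkinv : ∀ a, mk a⁻¹ = - mk a := fun a => eq_neg_of_add_eq_zero_left (by
    rw [← hmk, inv_mul_cancel, hmk1])
  have htt : ∀ m, φ tR (φ tR m) = m := fun m => by
    rw [← end_map_mul_apply, show tR * tR = 1 from Subtype.ext hττ, end_map_one_apply]
  have hoddq : Odd q := hq.odd_of_ne_two hq2
  obtain ⟨h, hh⟩ := hoddq
  have hhalf : ∀ m : M, (h + 1) • (2 • m) = m := fun m => by
    rw [← mul_nsmul', show (h + 1) * 2 = q + 1 by omega, add_nsmul, hdata.tors, zero_add, one_nsmul]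
  set D := (disp φ tR).range with hD
  have hneg : ∀ w ∈ D, φ tR w = -w := by
    rintro _ ⟨m, rfl⟩
    rw [disp_apply, map_sub, htt, neg_sub]
  have hQ0neg : ∀ a : Q, (a : G) ∈ Q0 → φ tR (mk a) = - mk a := fun a ha => by
    rw [hφ, eq_neg_iff_add_eq_zero, add_comm, ← hmk, hmk0]
    have hd := hdispQ a a.2
    have hQ0S : ⁅Q0, Q0⁆ ≤ Q ⊓ Subgroup.centralizer (Q : Set G) := Subgroup.commutator_le.2 fun x hx x' hx' =>
      ⟨Subgroup.commutator_le_self Q (Subgroup.commutator_mem_commutator (hQ0Q hx) (hQ0Q hx')),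
        hcl (Subgroup.commutator_mem_commutator (hQ0Q hx) (hQ0Q hx'))⟩
    have hsub : Q0 ⊓ (Q ⊓ Subgroup.centralizer (Q : Set G)) ≤ blockSe ρ Q l := fun x hx =>
      ⟨hx.2.1, fun b hb => by
        rw [← map_mul, ← map_mul, (Subgroup.mem_centralizer_iff.1 hx.2.2 b hb).symm]⟩
    have hτS : τ ∈ Subgroup.normalizer
        ((Q0 ⊓ (Q ⊓ Subgroup.centralizer (Q : Set G)) : Subgroup G) : Set G) :=
      mem_normalizer_of_conj_mem fun x hx => ⟨(Subgroup.mem_normalizer_iff.1 hτQ0 _).1 hx.1,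
        (Subgroup.mem_normalizer_iff.1 (mem_normalizer_center (hQn τ)) _).1 hx.2⟩
    have hτa : τ * a * τ⁻¹ ∈ Q0 := (Subgroup.mem_normalizer_iff.1 hτQ0 _).1 ha
    refine hsub (mem_of_commutator_mem inf_le_left (le_inf (Subgroup.commutator_le_self Q0) hQ0S)
      hτQ0 hτS hgen0 (Q0.mul_mem ha hτa) ?_)
    have hinvτ : τ⁻¹ = τ := inv_eq_of_mul_eq_one_right hττ
    have e1 : ((a : G) * (τ * a * τ⁻¹))⁻¹ * (τ * ((a : G) * (τ * a * τ⁻¹)) * τ⁻¹) =
        ⁅(τ * a * τ⁻¹)⁻¹, (a : G)⁻¹⁆ := by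
      rw [commutatorElement_def]
      simp only [mul_inv_rev, inv_inv, hinvτ, mul_assoc]
      simp only [hττ, mul_one]
    show ((a : G) * (τ * a * τ⁻¹))⁻¹ * (τ * ((a : G) * (τ * a * τ⁻¹)) * τ⁻¹) ∈ _
    rw [e1]
    have h9 := Subgroup.commutator_mem_commutator (Q0.inv_mem hτa) (Q0.inv_mem ha)
    exact ⟨Subgroup.commutator_le_self Q0 h9, hQ0S h9⟩
  -- fixed points of the involution are fixed
  have hfixed : ∀ m, φ tR m = m → φ sR m = m := by
    intro m hm
    obtain ⟨g, rfl⟩ := hmks m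
    have hcomm0 : ∀ a : Q, (a : G) ∈ Q0 → ρ a * ρ g * e = ρ g * ρ a * e := fun a ha => by
      rw [← hB0]
      have h1 := hdata.inv tR (mk a) (mk g)
      rw [hQ0neg a ha, hm, map_neg, AddMonoidHom.neg_apply, neg_eq_iff_add_eq_zero, ← two_nsmul] at h1
      refine eq_zero_of_coprime_nsmul (Nat.coprime_two_left.2 (hq.odd_of_ne_two hq2)) h1 ?_
      rw [← AddMonoidHom.nsmul_apply, ← map_nsmul, hdata.tors, map_zero, AddMonoidHom.zero_apply]
    have hcs : ∀ a : Q0, Commute (cn g (hQe g g.2)) (σ a) := fun a => LinearMap.ext fun w => Subtype.ext (by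
      show ρ g (ρ a (w : V)) = ρ a (ρ g (w : V))
      have h2 := LinearMap.congr_fun (hcomm0 ⟨a, hQ0Q a.2⟩ a.2) (w : V)
      simp only [Module.End.mul_apply, hfix] at h2
      exact h2.symm)
    have hcθ : Commute (cn g (hQe g g.2)) (θ : Module.End K W) := by
      suffices h9 : ∀ T ∈ Submodule.span K (Set.range σ), Commute (cn g (hQe g g.2)) T from h9 _ hspan
      intro T hT
      induction hT using Submodule.span_induction with
      | mem x hx => obtain ⟨a, rfl⟩ := hx; exact hcs a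
      | zero => exact Commute.zero_right _
      | add x y _ _ hx hy => exact hx.add_right hy
      | smul a x _ hx => exact hx.smul_right a
    rw [hφ]
    have key : ρ (σ0 * g * σ0⁻¹) * e = ρ g * e := LinearMap.ext fun v => by
      let w : W := ⟨ρ σ0⁻¹ (e v), ρ σ0⁻¹ v, by
        rw [← Module.End.mul_apply, ← hinvc.eq, Module.End.mul_apply]⟩
      have h2 := congrArg Subtype.val (LinearMap.congr_fun hcθ.eq w)
      change ρ g (ρ σ0 (ρ σ0⁻¹ (e v))) = ρ σ0 (ρ g (ρ σ0⁻¹ (e v))) at h2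
      rw [← Module.End.mul_apply (ρ σ0) (ρ σ0⁻¹), (rho_mul_inv σ0).1, Module.End.one_apply] at h2
      rw [Module.End.mul_apply, Module.End.mul_apply, map_mul, map_mul, Module.End.mul_apply,
        Module.End.mul_apply]
      exact h2.symm
    set c : Q := ⟨σ0 * g * σ0⁻¹, (Subgroup.mem_normalizer_iff.1 (hQn σ0) g).1 g.2⟩ with hc
    show mk c = mk g
    rw [show c = c * g⁻¹ * g by group, hmk, add_eq_right, hmk0]
    refine mem_blockSe_of_trivial (c * g⁻¹).2 ?_
    show ρ ((c : G) * (g : G)⁻¹) * e = e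
    rw [map_mul, mul_assoc, ← (hQe _ (Q.inv_mem g.2)).symm.eq, ← mul_assoc,
      show ρ (c : G) * e = ρ g * e from key, mul_assoc, (hQe _ (Q.inv_mem g.2)).symm.eq, ← mul_assoc,
      (rho_mul_inv (g : G)).1, one_mul]
  have hts : tR * sR = sR * tR := by rw [← hsk]; exact (Commute.pow_self sR _).eq
  have hDs : ∀ w ∈ D, φ sR w ∈ D := by
    rintro _ ⟨m, rfl⟩
    refine ⟨φ sR m, ?_⟩
    rw [disp_apply, disp_apply, map_sub, ← end_map_mul_apply, ← end_map_mul_apply, hts]
  have hrange : (disp φ sR).range = D := by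
    refine le_antisymm ?_ fun w hw => ?_
    · rintro _ ⟨m, rfl⟩
      set d := disp φ tR m with hd
      have hdD : d ∈ D := ⟨m, rfl⟩
      have h1 : φ sR (m + φ tR m) = m + φ tR m := hfixed _ (by rw [map_add, htt, add_comm])
      have h2 : 2 • disp φ sR m = -(φ sR d - d) := by
        rw [map_add] at h1
        rw [hd, disp_apply, disp_apply, map_sub, two_nsmul]
        rw [eq_sub_of_add_eq' h1]
        abel
      rw [← hhalf (disp φ sR m), h2]
      exact D.nsmul_mem (D.neg_mem (D.sub_mem (hDs d hdD) hdD)) _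
    · let F : D → D := fun x => ⟨disp φ sR x, D.sub_mem (hDs x x.2) x.2⟩
      have hinj : Function.Injective F := fun x x' hxx => Subtype.ext (by
        have h1 : disp φ sR ((x : M) - x') = 0 := by
          rw [map_sub, sub_eq_zero]; exact congrArg Subtype.val hxx
        rw [disp_apply, sub_eq_zero] at h1
        have h2 : ∀ i : ℕ, φ (sR ^ i) ((x : M) - x') = (x : M) - x' := fun i => by
          induction i with
          | zero => rw [pow_zero, end_map_one_apply]
          | succ i ih => rw [pow_succ', end_map_mul_apply, ih, h1]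
        have h3 := h2 (2 ^ k)
        rw [hsk, hneg _ (D.sub_mem x.2 x'.2), neg_eq_iff_add_eq_zero, ← two_nsmul] at h3
        rw [← sub_eq_zero, ← hhalf ((x : M) - x'), h3, nsmul_zero])
      obtain ⟨x, hx⟩ := Finite.injective_iff_surjective.1 hinj ⟨w, hw⟩
      exact ⟨x, congrArg Subtype.val hx⟩
  refine ⟨?_, fun w hw => ?_⟩
  · rw [hrange, ← hcard]
    have hin : ∀ a : Q0, mk ⟨a, hQ0Q a.2⟩ ∈ D := fun a => by
      refine ⟨-((h + 1) • mk ⟨a, hQ0Q a.2⟩), ?_⟩
      rw [map_neg, map_nsmul, disp_apply, hQ0neg _ a.2, show ∀ x : M, -x - x = -(2 • x) from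
        fun x => by rw [two_nsmul]; abel, smul_neg, neg_neg, hhalf]
    let F : Q0 →* Multiplicative D := MonoidHom.mk' (fun a => Multiplicative.ofAdd ⟨_, hin a⟩)
      (fun a b => congrArg Multiplicative.ofAdd (Subtype.ext (hmk ⟨a, hQ0Q a.2⟩ ⟨b, hQ0Q b.2⟩)))
    have hFs : Function.Surjective F := by
      rintro ⟨_, m, rfl⟩
      obtain ⟨g, rfl⟩ := hmks m
      refine ⟨⟨_, hdispQ g g.2⟩, congrArg Multiplicative.ofAdd (Subtype.ext ?_)⟩
      show mk ⟨(g : G)⁻¹ * (τ * g * τ⁻¹), _⟩ = disp φ tR (mk g)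
      rw [disp_apply, hφ, sub_eq_add_neg, add_comm, ← hmkinv, ← hmk]
      exact congrArg mk (Subtype.ext rfl)
    have hFk : F.ker = commKer σ := Subgroup.ext fun a => by
      rw [MonoidHom.mem_ker, hker]
      show Multiplicative.ofAdd (_ : D) = 1 ↔ _
      rw [ofAdd_eq_one, ← ZeroMemClass.coe_eq_zero, hmk0]
      exact ⟨fun h => ⟨a.2, fun b hb => h.2 b (hQ0Q hb)⟩,
        fun h => blockKer_commutator_le hQe hcl hsc hQsol (hQn τ) hτe hcopτ hQ0e h⟩
    rw [← hFk, Nat.card_congr (QuotientGroup.quotientKerEquivOfSurjective F hFs).toEquiv]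
    rfl
  · rw [hrange] at hw
    rw [hsk]
    exact hneg w hw

end CfsgLib.TwoLengthExponent
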