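/-
A normal q-subgroup of class two and central exponent q detecting the coprime
centraliser of the q-core.
-/
import Mathlib
import Cfsg.Prelude.Def_Solvable
import Cfsg.Agent.Lib.Transfer.Critical
import Cfsg.Agent.Lib.FusionExamples.SmallElements
import Cfsg.Agent.Lib.PGroups.Frattini
import Cfsg.Agent.Lib.Cores.PCore
import Cfsg.Agent.Lib.CoreFree.Constrained

set_option autoImplicit false
set_option linter.style.haveILetI false

open scoped commutatorElement

namespace CfsgLib.TwoLengthExponent

universe w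

theorem exists_detecting {H : Type w} [Group H] [Finite H] (q : ℕ) [Fact q.Prime] :
    ∃ Q : Subgroup H, (∀ g, g ∈ Subgroup.normalizer (Q : Set H)) ∧ IsPGroup q Q ∧
      ⁅Q, Q⁆ ≤ Subgroup.centralizer (Q : Set H) ∧
      (∀ g ∈ Q, g ^ q ∈ Subgroup.centralizer (Q : Set H)) ∧
      ∀ x : H, (orderOf x).Coprime q → x ∈ Subgroup.centralizer (Q : Set H) →
        x ∈ Subgroup.centralizer (Cfsg.pCore q H : Set H) := by
  set P := Cfsg.pCore q H with hPdef
  haveI : P.Normal := CfsgLib.CoreFree.pCore_normal H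
  have hP : IsPGroup q P := CfsgLib.Cores.isPGroup_pCore q H
  obtain ⟨C, hCc, hCΦ, hCG, hCC⟩ := CfsgLib.Transfer.exists_critical hP
  haveI := hCc
  have hcen : ∀ a : P, a ∈ Subgroup.centralizer (C : Set P) →
      (a : H) ∈ Subgroup.centralizer (C.map P.subtype : Set H) := by
    intro a ha
    rw [Subgroup.mem_centralizer_iff]
    rintro _ ⟨c, hc, rfl⟩
    exact congrArg Subtype.val (Subgroup.mem_centralizer_iff.1 ha c hc)
  haveI hN : (C.map P.subtype).Normal := ConjAct.normal_of_characteristic_of_normal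
  refine ⟨C.map P.subtype, fun g => ?_, (hP.to_subgroup C).map P.subtype, ?_, ?_, ?_⟩
  · rw [Subgroup.normalizer_eq_top]
    exact Subgroup.mem_top g
  · rw [Subgroup.commutator_le]
    rintro _ ⟨a, ha, rfl⟩ _ ⟨b, hb, rfl⟩
    have := hcen ⁅a, b⁆ (hCG (Subgroup.commutator_mem_commutator ha (Subgroup.mem_top b))).2
    simpa [commutatorElement_def] using this
  · rintro _ ⟨a, ha, rfl⟩
    refine hcen (a ^ q) (hCΦ ⟨(⟨a, ha⟩ : C) ^ q, ?_, rfl⟩)
    exact CfsgLib.PGroups.pow_mem_frattini (hP.to_subgroup C) _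
  · intro x hx hxC
    rw [Subgroup.mem_centralizer_iff]
    intro g hg
    let a : MulAut P := MulAut.conjNormal x
    have hfix : ∀ c ∈ C, a c = c := by
      intro c hc
      apply Subtype.ext
      have h := Subgroup.mem_centralizer_iff.1 hxC _ ⟨c, hc, rfl⟩
      rw [MulAut.conjNormal_apply]
      rw [Subgroup.subtype_apply] at h
      rw [← h, mul_inv_cancel_right]
    set y : P := ⟨g, hg⟩
    have hmem : y⁻¹ * a y ∈ C := by
      apply hCC
      rw [Subgroup.mem_centralizer_iff]
      intro c hc
      -- both `y * c * y⁻¹` and `c` are fixed by `a`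
      have h1 : y * c * y⁻¹ ∈ C := by
        haveI : C.Normal := inferInstance
        exact ‹C.Normal›.conj_mem c hc y
      have h2 := hfix _ h1
      rw [map_mul, map_mul, map_inv, hfix c hc] at h2
      calc c * (y⁻¹ * a y) = y⁻¹ * (y * c * y⁻¹) * a y := by group
        _ = y⁻¹ * (a y * c * (a y)⁻¹) * a y := by rw [h2]
        _ = y⁻¹ * a y * c := by group
    have ham : a ^ orderOf x = 1 := by
      show MulAut.conjNormal x ^ orderOf x = 1
      rw [← map_pow, pow_orderOf_eq_one, map_one]
    have h := CfsgLib.FusionExamples.eq_of_stable hP a ham hx (hfix _ hmem)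
    have h' := congrArg Subtype.val h
    rw [MulAut.conjNormal_apply] at h'
    exact (mul_inv_eq_iff_eq_mul.1 h').symm

end CfsgLib.TwoLengthExponent
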