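/-
Bryukhanova's bound: the representation on the steps and the induction on the exponent.
-/
import Mathlib
import Cfsg.Agent.S0205
import Cfsg.Agent.Lib.TwoLengthExponent.Defs
import Cfsg.Agent.Lib.GrossTwoLength.Main

set_option autoImplicit false
set_option linter.style.haveILetI false
set_option linter.unusedSectionVars false

open scoped commutatorElement

namespace CfsgLib.TwoLengthExponent

open Cfsg CfsgLib.Cores CfsgLib.PSolvable CfsgLib.HallHigmanExc CfsgLib.CoprimeAction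

universe u v w

/-- The algebraic closure of the field of two elements. -/
local notation "K₂" => AlgebraicClosure (ZMod 2)

/-- The linear representation on an elementary abelian normal section. -/
theorem exists_section_rep {G : Type w} [Group G] [Finite G] (X Y : Subgroup G) [X.Normal]
    [Y.Normal] (hXX : ⁅X, X⁆ ≤ Y) (hsq : ∀ x ∈ X, x ^ 2 ∈ Y) :
    ∃ (d : ℕ) (r : X → (Fin d → K₂)) (ρ : G →* Module.End K₂ (Fin d → K₂)),
      (∀ a b, r (a * b) = r a + r b) ∧
      (∀ (g : G) (x : X), r ⟨g * x * g⁻¹, (inferInstance : X.Normal).conj_mem _ x.2 g⟩ = ρ g (r x)) ∧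
      Submodule.span K₂ (Set.range r) = ⊤ ∧
      (∀ x : X, r x = 0 ↔ (x : G) ∈ Y) ∧
      ∀ g, ρ g = 1 ↔ ∀ x ∈ X, ⁅g, x⁆ ∈ Y := by
  classical
  haveI : Fact (Nat.Prime 2) := ⟨Nat.prime_two⟩
  set Φ := Y.subgroupOf X with hΦ
  haveI hΦn : Φ.Normal := inferInstance
  have hcomm : ∀ a b : X ⧸ Φ, a * b = b * a := fun a b => by
    induction a using QuotientGroup.induction_on with | _ a =>
    induction b using QuotientGroup.induction_on with | _ b =>
    rw [← QuotientGroup.mk_mul, ← QuotientGroup.mk_mul, QuotientGroup.eq]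
    rw [hΦ, Subgroup.mem_subgroupOf]
    have hc := hXX (Subgroup.commutator_mem_commutator (X.inv_mem b.2) (X.inv_mem a.2))
    simpa [commutatorElement_def, mul_assoc] using hc
  letI : CommGroup (X ⧸ Φ) := { (inferInstance : Group (X ⧸ Φ)) with mul_comm := hcomm }
  have hexpA : ∀ a : Additive (X ⧸ Φ), 2 • a = 0 := fun a => by
    obtain ⟨x, hx⟩ := QuotientGroup.mk_surjective (Additive.toMul a)
    show Additive.ofMul ((Additive.toMul a) ^ 2) = 0
    rw [← hx, ← QuotientGroup.mk_pow, (QuotientGroup.eq_one_iff (x ^ 2)).2 (by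
      rw [hΦ, Subgroup.mem_subgroupOf, Subgroup.coe_pow]; exact hsq x x.2)]
    rfl
  obtain ⟨d, co, N, hco, hN, hcoN, hspan⟩ := exists_coordinates hexpA
  let q : X → Additive (X ⧸ Φ) := fun x => Additive.ofMul (x : X ⧸ Φ)
  let r : X → (Fin d → K₂) := fun x => co (q x)
  have hq : ∀ x y, q (x * y) = q x + q y := fun x y => rfl
  have hr : ∀ x y, r (x * y) = r x + r y := fun x y => map_add co (q x) (q y)
  have hr0 : ∀ x : X, r x = 0 ↔ (x : G) ∈ Y := fun x => by
    rw [show r x = co (q x) from rfl, map_eq_zero_iff co hco]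
    exact (QuotientGroup.eq_one_iff x).trans Subgroup.mem_subgroupOf
  have hΦi : ∀ g : G, Φ ≤ Φ.comap (MulAut.conjNormal g : MulAut X).toMonoidHom := fun g x hx => by
    rw [hΦ, Subgroup.mem_subgroupOf] at hx
    rw [Subgroup.mem_comap, hΦ, Subgroup.mem_subgroupOf]
    show (((MulAut.conjNormal g : MulAut X) x : X) : G) ∈ Y
    rw [MulAut.conjNormal_apply]
    exact (inferInstance : Y.Normal).conj_mem _ hx g
  let act : G → AddMonoid.End (Additive (X ⧸ Φ)) := fun g =>
    MonoidHom.toAdditive (QuotientGroup.map Φ Φ (MulAut.conjNormal g : MulAut X).toMonoidHom (hΦi g))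
  have hact : ∀ g x, act g (q x) = q ((MulAut.conjNormal g : MulAut X) x) := fun g x => rfl
  have hqs : Function.Surjective q := fun a => by
    obtain ⟨x, hx⟩ := QuotientGroup.mk_surjective (Additive.toMul a)
    exact ⟨x, congrArg Additive.ofMul hx⟩
  let ψ : G →* AddMonoid.End (Additive (X ⧸ Φ)) :=
    { toFun := act
      map_one' := AddMonoidHom.ext fun a => by
        obtain ⟨x, rfl⟩ := hqs a
        refine (hact 1 x).trans ?_
        rw [map_one]; rfl
      map_mul' := fun g h => AddMonoidHom.ext fun a => by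
        obtain ⟨x, rfl⟩ := hqs a
        refine (hact (g * h) x).trans ?_
        rw [map_mul]
        show _ = act g (act h (q x))
        rw [hact, hact]; rfl }
  refine ⟨d, r, N.comp ψ, hr, fun g x => ?_, ?_, hr0, fun g => ?_⟩
  · show r _ = N (ψ g) (co (q x))
    rw [← hcoN]
    show co (q _) = co (act g (q x))
    rw [hact]
    exact congrArg (fun y => co (q y)) (Subtype.ext (MulAut.conjNormal_apply g x).symm)
  · rw [← hspan]
    exact congrArg _ (hqs.range_comp co)
  · have key : ∀ x : X, act g (q x) = q x ↔ ⁅g, (x : G)⁆ ∈ Y := fun x => by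
      rw [hact]
      refine (Additive.ofMul.injective.eq_iff.trans ?_)
      rw [QuotientGroup.eq, hΦ, Subgroup.mem_subgroupOf]
      have e : ((((MulAut.conjNormal g : MulAut X) x)⁻¹ * x : X) : G) =
          (x : G)⁻¹ * ⁅g, (x : G)⁆⁻¹ * x := by
        rw [Subgroup.coe_mul, Subgroup.coe_inv, MulAut.conjNormal_apply, commutatorElement_def]
        group
      rw [e]
      constructor
      · intro h
        have h1 := (inferInstance : Y.Normal).conj_mem _ h (x : G)
        rw [show (x : G) * ((x : G)⁻¹ * ⁅g, (x : G)⁆⁻¹ * x) * (x : G)⁻¹ = ⁅g, (x : G)⁆⁻¹ by group] at h1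
        exact inv_mem_iff.1 h1
      · intro h
        have h1 := (inferInstance : Y.Normal).conj_mem _ (inv_mem h) (x : G)⁻¹
        rwa [inv_inv] at h1
    rw [MonoidHom.comp_apply, ← map_one N, hN.eq_iff]
    constructor
    · intro h x hx
      exact (key ⟨x, hx⟩).1 (DFunLike.congr_fun h (q ⟨x, hx⟩))
    · intro h
      refine AddMonoidHom.ext fun a => ?_
      obtain ⟨x, rfl⟩ := hqs a
      exact (key x).2 (h x x.2)

/-- The direct sum of two representations, in coordinates. -/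
theorem exists_sum_rep {G : Type w} [Group G] {d e : ℕ} (ρ : G →* Module.End K₂ (Fin d → K₂))
    (σ : G →* Module.End K₂ (Fin e → K₂)) :
    ∃ τ : G →* Module.End K₂ (Fin (d + e) → K₂),
      (∀ g, τ g = 1 ↔ ρ g = 1 ∧ σ g = 1) ∧
      ∀ g m, (∑ i ∈ Finset.range m, ρ g ^ i = 0) → (∑ i ∈ Finset.range m, σ g ^ i = 0) →
        ∑ i ∈ Finset.range m, τ g ^ i = 0 := by
  let E : ((Fin d → K₂) × (Fin e → K₂)) ≃ₗ[K₂] (Fin (d + e) → K₂) :=
    (LinearEquiv.sumArrowLequivProdArrow (Fin d) (Fin e) K₂ K₂).symm.trans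
      (LinearEquiv.funCongrLeft K₂ K₂ finSumFinEquiv.symm)
  let τ : G →* Module.End K₂ (Fin (d + e) → K₂) :=
    { toFun := fun g => E.conj ((ρ g).prodMap (σ g))
      map_one' := by
        refine LinearMap.ext fun x => ?_
        simp [LinearEquiv.conj_apply, map_one]
      map_mul' := fun g h => by
        refine LinearMap.ext fun x => ?_
        simp [LinearEquiv.conj_apply, map_mul] }
  have hτ : ∀ g a b, τ g (E (a, b)) = E (ρ g a, σ g b) := fun g a b => by
    simp [τ, LinearEquiv.conj_apply]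
  have hE : ∀ x, ∃ a b, x = E (a, b) := fun x =>
    ⟨(E.symm x).1, (E.symm x).2, (E.apply_symm_apply x).symm⟩
  refine ⟨τ, fun g => ⟨fun h => ?_, fun h => ?_⟩, fun g m h1 h2 => ?_⟩
  · have h' : ∀ a b, (ρ g a, σ g b) = (a, b) := fun a b => E.injective (by rw [← hτ, h]; rfl)
    exact ⟨LinearMap.ext fun a => congrArg Prod.fst (h' a 0),
      LinearMap.ext fun b => congrArg Prod.snd (h' 0 b)⟩
  · refine LinearMap.ext fun x => ?_
    obtain ⟨a, b, rfl⟩ := hE x
    rw [hτ, h.1, h.2]; rfl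
  · refine LinearMap.ext fun x => ?_
    obtain ⟨a, b, rfl⟩ := hE x
    rw [LinearMap.sum_apply, LinearMap.zero_apply]
    have e1 := LinearMap.congr_fun h1 a
    have e2 := LinearMap.congr_fun h2 b
    rw [LinearMap.sum_apply, LinearMap.zero_apply] at e1 e2
    calc ∑ i ∈ Finset.range m, (τ g ^ i) (E (a, b))
        = ∑ i ∈ Finset.range m, E ((ρ g ^ i) a, (σ g ^ i) b) :=
          Finset.sum_congr rfl fun i _ => by rw [← map_pow, ← map_pow, ← map_pow, hτ]
      _ = E (∑ i ∈ Finset.range m, ((ρ g ^ i) a, (σ g ^ i) b)) := (map_sum E _ _).symm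
      _ = 0 := by
        rw [show (∑ i ∈ Finset.range m, ((ρ g ^ i) a, (σ g ^ i) b)) = 0 from
          Prod.ext (by rw [Prod.fst_sum]; exact e1) (by rw [Prod.snd_sum]; exact e2)]
        exact map_zero E

/-- An element of odd order fixing a `2`-subgroup `Y` and `X` modulo `Y` fixes `X`. -/
theorem commute_of_odd {G : Type w} [Group G] {Y : Subgroup G} (hY : IsPGroup 2 Y) {g x : G}
    (hg : Odd (orderOf g)) (hfix : g ∈ Subgroup.centralizer (Y : Set G)) (hx : ⁅g, x⁆ ∈ Y) :
    x * g = g * x := by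
  set c := ⁅g, x⁆ with hc
  have hgc : g * c * g⁻¹ = c := by
    rw [← Subgroup.mem_centralizer_iff.1 hfix c hx, mul_inv_cancel_right]
  have key : ∀ n, g ^ n * x * (g ^ n)⁻¹ = c ^ n * x := by
    intro n
    induction n with
    | zero => simp
    | succ n ih =>
      calc g ^ (n + 1) * x * (g ^ (n + 1))⁻¹ = g * (g ^ n * x * (g ^ n)⁻¹) * g⁻¹ := by
            rw [pow_succ']; group
        _ = g * c ^ n * g⁻¹ * (g * x * g⁻¹) := by rw [ih]; group
        _ = c ^ n * (c * x) := by rw [← conj_pow, hgc, hc, commutatorElement_def]; group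
        _ = c ^ (n + 1) * x := by rw [← mul_assoc, ← pow_succ]
  have h1 := key (orderOf g)
  rw [pow_orderOf_eq_one, one_mul, inv_one, mul_one] at h1
  have h2 : c ^ orderOf g = 1 := mul_eq_right.1 h1.symm
  obtain ⟨j, hj⟩ := hY ⟨c, hx⟩
  have hj' : c ^ 2 ^ j = 1 := congrArg Subtype.val hj
  have hc1 : c = 1 := orderOf_eq_one_iff.1 (Nat.eq_one_of_dvd_coprimes
    ((Nat.coprime_two_left.2 hg).pow_left j) (orderOf_dvd_of_pow_eq_one hj')
    (orderOf_dvd_of_pow_eq_one h2))
  rw [hc, commutatorElement_eq_one_iff_mul_comm] at hc1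
  exact hc1.symm

theorem normalized_sup {G : Type w} [Group G] {N A B : Subgroup G}
    (hA : N ≤ Subgroup.normalizer (A : Set G)) (hB : N ≤ Subgroup.normalizer (B : Set G)) :
    N ≤ Subgroup.normalizer ((A ⊔ B : Subgroup G) : Set G) := fun g hg => by
  rw [← conj_smul_eq_self]
  show Subgroup.map (MulAut.conj g).toMonoidHom _ = _
  rw [Subgroup.map_sup]
  congr 1
  · exact conj_smul_eq_self.2 (hA hg)
  · exact conj_smul_eq_self.2 (hB hg)

theorem normalized_commutator {G : Type w} [Group G] {N A B : Subgroup G}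
    (hA : N ≤ Subgroup.normalizer (A : Set G)) (hB : N ≤ Subgroup.normalizer (B : Set G)) :
    N ≤ Subgroup.normalizer ((⁅A, B⁆ : Subgroup G) : Set G) := fun g hg => by
  rw [← conj_smul_eq_self]
  show Subgroup.map (MulAut.conj g).toMonoidHom _ = _
  rw [Subgroup.map_commutator]
  congr 1
  · exact conj_smul_eq_self.2 (hA hg)
  · exact conj_smul_eq_self.2 (hB hg)

/-- A proper invariant subgroup of a normal subgroup of a `2`-group stays proper after joining the
commutator with the group. -/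
theorem commutator_sup_lt {G : Type w} [Group G] [Finite G] {P X Y : Subgroup G}
    (hP : IsPGroup 2 P) (hXP : X ≤ P) (hPX : P ≤ Subgroup.normalizer (X : Set G))
    (hYX : Y < X) (hPY : P ≤ Subgroup.normalizer (Y : Set G)) : ⁅X, P⁆ ⊔ Y < X := by
  haveI : Fact (Nat.Prime 2) := ⟨Nat.prime_two⟩
  refine lt_of_le_of_ne (sup_le (commutator_le_left hPX) hYX.le) fun hEq => hYX.not_ge ?_
  obtain ⟨k, hk⟩ := (Subgroup.isNilpotent_iff_lowerCentralSeries P).1 hP.isNilpotent
  have hLP : ∀ j, P.lowerCentralSeries j ≤ P := by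
    intro j
    induction j with
    | zero => exact le_rfl
    | succ j ih => exact (Subgroup.commutator_mono ih le_rfl).trans (Subgroup.commutator_le_self P)
  have hLn : ∀ j, P ≤ Subgroup.normalizer ((P.lowerCentralSeries j : Subgroup G) : Set G) := by
    intro j
    induction j with
    | zero => exact Subgroup.le_normalizer
    | succ j ih => exact normalized_commutator ih Subgroup.le_normalizer
  suffices h : ∀ j, X ≤ P.lowerCentralSeries j ⊔ Y by
    have := h k
    rwa [hk, bot_sup_eq] at this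
  intro j
  induction j with
  | zero => exact hXP.trans le_sup_left
  | succ j ih =>
    set A := P.lowerCentralSeries j with hA
    set T := ⁅A, P⁆ ⊔ Y with hT
    have hTn : P ≤ Subgroup.normalizer (T : Set G) :=
      normalized_sup (normalized_commutator (hLn j) Subgroup.le_normalizer) hPY
    let S : Subgroup G :=
      { carrier := {g | g ∈ P ∧ ∀ p ∈ P, ⁅g, p⁆ ∈ T}
        one_mem' := ⟨P.one_mem, fun p _ => by rw [commutatorElement_one_left]; exact T.one_mem⟩
        mul_mem' := fun {a b} ha hb => ⟨P.mul_mem ha.1 hb.1, fun p hp => by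
          rw [show ⁅a * b, p⁆ = a * ⁅b, p⁆ * a⁻¹ * ⁅a, p⁆ by
            rw [commutatorElement_def, commutatorElement_def, commutatorElement_def]; group]
          exact T.mul_mem ((Subgroup.mem_normalizer_iff.1 (hTn ha.1) _).1 (hb.2 p hp)) (ha.2 p hp)⟩
        inv_mem' := fun {a} ha => ⟨P.inv_mem ha.1, fun p hp => by
          rw [show ⁅a⁻¹, p⁆ = a⁻¹ * ⁅a, p⁆⁻¹ * a⁻¹⁻¹ by
            rw [commutatorElement_def, commutatorElement_def]; group]
          exact (Subgroup.mem_normalizer_iff.1 (hTn (P.inv_mem ha.1)) _).1 (T.inv_mem (ha.2 p hp))⟩ }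
    have hAS : A ⊔ Y ≤ S := sup_le
      (fun a ha => ⟨hLP j ha, fun p hp =>
        (le_sup_left : ⁅A, P⁆ ≤ T) (Subgroup.commutator_mem_commutator ha hp)⟩)
      (fun a ha => ⟨hXP (hYX.le ha), fun p hp => (le_sup_right : Y ≤ T) (by
        rw [commutatorElement_def, mul_assoc, mul_assoc, ← mul_assoc p]
        exact Y.mul_mem ha ((Subgroup.mem_normalizer_iff.1 (hPY hp) _).1 (Y.inv_mem ha)))⟩)
    calc X = ⁅X, P⁆ ⊔ Y := hEq.symm
      _ ≤ T ⊔ Y := sup_le_sup_right (Subgroup.commutator_le.2 fun x hx p hp =>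
          (hAS (ih hx)).2 p hp) _
      _ = P.lowerCentralSeries (j + 1) ⊔ Y := by rw [hT, sup_assoc, sup_idem]; rfl

/-- The representation of `N` on the steps of `P`. -/
theorem exists_rep_of_steps {H : Type w} [Group H] [Finite H] {n : ℕ} {P N : Subgroup H}
    (hP : IsPGroup 2 P) (hPN : P ≤ N) (hN : N ≤ Subgroup.normalizer (P : Set H))
    (_hz : ∀ y ∈ N, (∃ k, y ^ 2 ^ k = 1) → y ^ 2 ^ n ∈ P) (h : HasSteps n P N) :
    ∃ (d : ℕ) (ρ : N →* Module.End K₂ (Fin d → K₂)),
      P.subgroupOf N ≤ ρ.ker ∧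
      (∀ y : N, (∃ k, y ^ 2 ^ k = 1) → ∑ i ∈ Finset.range (2 ^ n), ρ y ^ i = 0) ∧
      (∀ g ∈ ρ.ker, Odd (orderOf g) → (g : H) ∈ Subgroup.centralizer (P : Set H)) ∧
      ∀ g : N, (g : H) ∈ Subgroup.centralizer (P : Set H) → g ∈ ρ.ker := by
  classical
  suffices key : ∀ X : Subgroup H, X ≤ P → N ≤ Subgroup.normalizer (X : Set H) →
      ∃ (d : ℕ) (ρ : N →* Module.End K₂ (Fin d → K₂)),
        P.subgroupOf N ≤ ρ.ker ∧
        (∀ y : N, (∃ k, y ^ 2 ^ k = 1) → ∑ i ∈ Finset.range (2 ^ n), ρ y ^ i = 0) ∧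
        (∀ g ∈ ρ.ker, Odd (orderOf g) → (g : H) ∈ Subgroup.centralizer (X : Set H)) ∧
        ∀ g : N, (g : H) ∈ Subgroup.centralizer (X : Set H) → g ∈ ρ.ker from
    key P le_rfl hN
  intro X
  induction X using WellFoundedLT.induction with
  | _ X ih =>
    intro hXP hNX
    by_cases hX : X = ⊥
    · refine ⟨0, 1, fun g _ => rfl, fun y _ => LinearMap.ext fun x => Subsingleton.elim _ _,
        fun g _ _ => ?_, fun g _ => rfl⟩
      rw [hX, Subgroup.mem_centralizer_iff]
      intro a ha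
      rw [SetLike.mem_coe, Subgroup.mem_bot] at ha
      simp [ha]
    obtain ⟨Y₀, hY₀X, hNY₀, hXX, hsq, hrel⟩ := h X hXP hX hNX
    set Y := ⁅X, P⁆ ⊔ Y₀ with hY
    have hYX : Y < X :=
      commutator_sup_lt hP hXP (hPN.trans hNX) hY₀X (hPN.trans hNY₀)
    have hNY : N ≤ Subgroup.normalizer (Y : Set H) :=
      normalized_sup (normalized_commutator hNX hN) hNY₀
    have hY₀Y : Y₀ ≤ Y := le_sup_right
    obtain ⟨d₂, σ, hσP, hσrel, hσodd, hσcent⟩ := ih Y hYX (hYX.le.trans hXP) hNY
    -- the section inside `N`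
    haveI : (X.subgroupOf N).Normal :=
      Subgroup.normal_subgroupOf_of_le_normalizer hNX
    haveI : (Y.subgroupOf N).Normal :=
      Subgroup.normal_subgroupOf_of_le_normalizer hNY
    have hXN : X ≤ N := hXP.trans hPN
    obtain ⟨d₁, r, ρ, hr, hrρ, hspan, hr0, hρker⟩ := exists_section_rep (X.subgroupOf N)
      (Y.subgroupOf N) (Subgroup.commutator_le.2 fun a ha b hb => by
        rw [Subgroup.mem_subgroupOf]
        exact hY₀Y (hXX (Subgroup.commutator_mem_commutator (Subgroup.mem_subgroupOf.1 ha)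
          (Subgroup.mem_subgroupOf.1 hb))))
      (fun a ha => by
        rw [Subgroup.mem_subgroupOf]
        exact hY₀Y (hsq _ (Subgroup.mem_subgroupOf.1 ha)))
    obtain ⟨τ, hτ1, hτsum⟩ := exists_sum_rep ρ σ
    refine ⟨d₁ + d₂, τ, fun g hg => ?_, fun y hy => ?_, fun g hg hgo => ?_, fun g hg => ?_⟩
    · rw [MonoidHom.mem_ker, hτ1]
      refine ⟨(hρker g).2 fun x hx => ?_, hσP hg⟩
      rw [Subgroup.mem_subgroupOf] at hx hg ⊢
      refine (le_sup_left : ⁅X, P⁆ ≤ Y) ?_
      rw [Subgroup.commutator_comm]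
      exact Subgroup.commutator_mem_commutator hg hx
    · refine hτsum y _ (LinearMap.ext_on hspan ?_) (hσrel y hy)
      rintro _ ⟨x, rfl⟩
      obtain ⟨w, hw, hrw⟩ := CfsgLib.MetacyclicP.exists_pow_eq (P := X.subgroupOf N) r hr
        (fun a => (ρ a).toAddMonoidHom) hrρ y x (2 ^ n)
      have hwY : ((w : N) : H) ∈ Y := by
        have e : (w : N) = ((x : N) * y) ^ 2 ^ n * (y ^ 2 ^ n)⁻¹ := by rw [hw, mul_inv_cancel_right]
        rw [e]
        push_cast
        refine hY₀Y (hrel y y.2 ?_ _ (Subgroup.mem_subgroupOf.1 x.2))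
        obtain ⟨k, hk⟩ := hy
        exact ⟨k, congrArg Subtype.val hk⟩
      rw [LinearMap.sum_apply, LinearMap.zero_apply]
      have h0 : r w = 0 := (hr0 w).2 (Subgroup.mem_subgroupOf.2 hwY)
      rw [hrw] at h0
      refine Eq.trans (Finset.sum_congr rfl fun i _ => ?_) h0
      rw [Module.End.pow_apply]
      rfl
    · rw [MonoidHom.mem_ker, hτ1] at hg
      have hcY := hσodd g hg.2 hgo
      rw [Subgroup.mem_centralizer_iff]
      intro x hx
      refine commute_of_odd (hP.to_le (hYX.le.trans hXP)) (g := (g : H))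
        (by rwa [Subgroup.orderOf_coe]) hcY ?_
      exact Subgroup.mem_subgroupOf.1 ((hρker g).1 hg.1 ⟨x, hXN hx⟩
        (Subgroup.mem_subgroupOf.2 hx))
    · rw [MonoidHom.mem_ker, hτ1]
      refine ⟨(hρker g).2 fun x hx => ?_, hσcent g (Subgroup.centralizer_le hYX.le hg)⟩
      have : ⁅g, x⁆ = 1 := by
        rw [commutatorElement_eq_one_iff_mul_comm]
        exact Subtype.ext (Subgroup.mem_centralizer_iff.1 hg _ (Subgroup.mem_subgroupOf.1 hx)).symm
      rw [this]
      exact one_mem _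

/-- The step hypothesis: a relation of the exponent gives steps. -/
def StepHyp : Prop :=
  ∀ (H : Type w) [Group H] [Finite H], Group.IsSolvable H → pCore 2 H = ⊥ →
    ∀ (d : ℕ) (ρ : H →* Module.End K₂ (Fin d → K₂)), Function.Injective ρ →
    ∀ n : ℕ, (∀ y : H, (∃ k, y ^ 2 ^ k = 1) →
        y ^ 2 ^ (n + 1) = 1 ∧ ∑ i ∈ Finset.range (2 ^ (n + 1)), ρ y ^ i = 0) →
    ∀ P N : Subgroup H, IsPGroup 2 P → P ≤ N → N ≤ Subgroup.normalizer (P : Set H) →
      (∀ y ∈ N, (∃ k, y ^ 2 ^ k = 1) → y ^ 2 ^ n ∈ P) → HasSteps n P N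

set_option maxHeartbeats 1600000 in
/-- The exponent of the `2`-elements of a quotient is one step less than the nilpotency. -/
theorem pLengthLE_pred_of_relation (hstep : StepHyp.{w}) : ∀ (n : ℕ) (H : Type w) [Group H] [Finite H],
    Group.IsSolvable H → pCore 2 H = ⊥ →
    ∀ (d : ℕ) (ρ : H →* Module.End K₂ (Fin d → K₂)), Function.Injective ρ →
    (∀ y : H, (∃ k, y ^ 2 ^ k = 1) →
      y ^ 2 ^ (n + 1) = 1 ∧ ∑ i ∈ Finset.range (2 ^ (n + 1)), ρ y ^ i = 0) →
    PLengthLE 2 n H := by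
  classical
  haveI : Fact (Nat.Prime 2) := ⟨Nat.prime_two⟩
  haveI : CharP K₂ 2 := charP_of_injective_algebraMap (algebraMap (ZMod 2) _).injective 2
  intro n
  induction n with
  | zero =>
    intro H _ _ _ _ d ρ hρ hrel
    refine pLengthLE_zero_of_exponent fun y hy => ?_
    obtain ⟨-, hsum⟩ := hrel y hy
    rw [zero_add, pow_one, Finset.sum_range_succ, Finset.sum_range_one, pow_zero, pow_one] at hsum
    rw [pow_zero, pow_one]
    apply hρ
    rw [map_one]
    refine LinearMap.ext fun x => ?_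
    have h9 := LinearMap.congr_fun hsum x
    rw [LinearMap.add_apply, Module.End.one_apply, LinearMap.zero_apply,
      add_eq_zero_iff_eq_neg] at h9
    have hneg : -(ρ y x) = ρ y x := neg_eq_of_add_eq_zero_left
      (by rw [← two_smul K₂ (ρ y x), show (2 : K₂) = 0 from CharTwo.two_eq_zero, zero_smul])
    rw [Module.End.one_apply, ← hneg, ← h9]
  | succ n ih =>
    intro H _ _ hsol hcore d ρ hρ hrel
    haveI := hsol
    have hu2 := CfsgLib.GrossTwoLength.pow_eq_one_of_relation hcore hρ hrel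
    set O := pPrimeCore 2 H with hO
    set P1 := pCore 2 (H ⧸ O) with hP1
    haveI : Group.IsSolvable (H ⧸ O) :=
      Group.isSolvable_of_surjective (QuotientGroup.mk'_surjective O)
    set f : H →* (H ⧸ O) ⧸ P1 := (QuotientGroup.mk' P1).comp (QuotientGroup.mk' O) with hf
    have hfs : Function.Surjective f :=
      (QuotientGroup.mk'_surjective P1).comp (QuotientGroup.mk'_surjective O)
    have hsolJ : Group.IsSolvable ((H ⧸ O) ⧸ P1) := Group.isSolvable_of_surjective hfs
    have hH1 : IsPSolvable 2 (H ⧸ O) := isPSolvable_of_isSolvable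
    have hO1 : pPrimeCore 2 (H ⧸ O) = ⊥ := pPrimeCore_quotient_pPrimeCore 2
    have hcore2 : pCore 2 ((H ⧸ O) ⧸ P1) = ⊥ := pCore_quotient_pCore 2 _
    set M0 := f.ker with hM0
    have hmemM0 : ∀ {x : H}, x ∈ M0 ↔ (x : H ⧸ O) ∈ P1 := fun {x} =>
      MonoidHom.mem_ker.trans (QuotientGroup.eq_one_iff (x : H ⧸ O))
    obtain ⟨PM⟩ := (inferInstance : Nonempty (Sylow 2 M0))
    set P := (PM : Subgroup M0).map M0.subtype with hP
    have hPp : IsPGroup 2 P := PM.isPGroup'.map _
    set N := Subgroup.normalizer (P : Set H) with hN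
    have hPN : P ≤ N := Subgroup.le_normalizer
    have hP1P : ∀ x ∈ P1, ∃ p ∈ P, ((p : H) : H ⧸ O) = x := by
      let g : M0 →* P1 := ((QuotientGroup.mk' O).comp M0.subtype).codRestrict P1
        (fun x => hmemM0.1 x.2)
      have hgs : Function.Surjective g := fun x => by
        obtain ⟨h, hh⟩ := QuotientGroup.mk'_surjective O (x : H ⧸ O)
        exact ⟨⟨h, hmemM0.2 (by rw [← QuotientGroup.mk'_apply, hh]; exact x.2)⟩, Subtype.ext hh⟩
      intro x hx
      have htop : (PM.mapSurjective hgs : Subgroup P1) = ⊤ :=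
        ((PM.mapSurjective hgs).is_maximal' (IsPGroup.to_subgroup (isPGroup_pCore 2 _) ⊤) le_top).symm
      have h9 : (⟨x, hx⟩ : P1) ∈ (PM.mapSurjective hgs : Subgroup P1) := htop ▸ Subgroup.mem_top _
      obtain ⟨a, ha, he⟩ := h9
      exact ⟨a, ⟨a, ha, rfl⟩, congrArg Subtype.val he⟩
    have hNrep : ∀ v, ∃ g ∈ N, f g = v := by
      intro v
      obtain ⟨h, rfl⟩ := hfs v
      have h9 : h ∈ N ⊔ M0 := by
        rw [hN, hP, Sylow.normalizer_sup_eq_top PM]; exact Subgroup.mem_top h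
      obtain ⟨a, ha, b, hb, rfl⟩ := Subgroup.mem_sup_of_normal_right.1 h9
      exact ⟨a, ha, by rw [map_mul, MonoidHom.mem_ker.1 hb, mul_one]⟩
    have hPM0 : P ≤ M0 := Subgroup.map_subtype_le _
    -- the elements of `N` in `M0`
    have hPmax : ∀ y ∈ N, y ∈ M0 → (∃ k, y ^ 2 ^ k = 1) → y ∈ P := by
      rintro y hyN hyM ⟨k, hk⟩
      have hyp : IsPGroup 2 (Subgroup.zpowers (⟨y, hyM⟩ : M0)) := by
        obtain ⟨i, -, hi⟩ := (Nat.dvd_prime_pow Nat.prime_two).1 (orderOf_dvd_of_pow_eq_one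
          (show (⟨y, hyM⟩ : M0) ^ 2 ^ k = 1 from Subtype.ext hk))
        exact IsPGroup.of_card (n := i) (by rw [Nat.card_zpowers, hi])
      have hyn : Subgroup.zpowers (⟨y, hyM⟩ : M0) ≤
          Subgroup.normalizer ((PM : Subgroup M0) : Set M0) := by
        refine Subgroup.zpowers_le.2 (mem_normalizer_of_conj_mem fun a ha => ?_)
        obtain ⟨b, hb, hba⟩ := (Subgroup.mem_normalizer_iff.1 hyN (a : H)).1 ⟨a, ha, rfl⟩
        rwa [show (⟨y, hyM⟩ : M0) * a * ⟨y, hyM⟩⁻¹ = b from Subtype.ext hba.symm]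
      have hle : Subgroup.zpowers (⟨y, hyM⟩ : M0) ≤ (PM : Subgroup M0) := by
        refine le_sup_left.trans (PM.is_maximal' ?_ le_sup_right).le
        exact hyp.to_sup_of_normal_right' PM.isPGroup' hyn
      exact ⟨⟨y, hyM⟩, hle (Subgroup.mem_zpowers _), rfl⟩
    have hz : ∀ y ∈ N, (∃ k, y ^ 2 ^ k = 1) → y ^ 2 ^ (n + 1) ∈ P := by
      rintro y hy ⟨k, hk⟩
      refine hPmax _ (N.pow_mem hy _) ?_ ⟨k, by rw [← pow_mul, mul_comm, pow_mul, hk, one_pow]⟩
      rw [MonoidHom.mem_ker, map_pow]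
      exact hu2 _ ⟨k, by rw [← map_pow, hk, map_one]⟩
    obtain ⟨d', ρ', hPker, hrel', hodd', hcent'⟩ := exists_rep_of_steps hPp hPN le_rfl hz
      (hstep H hsol hcore d ρ hρ (n + 1) hrel P N hPp hPN le_rfl hz)
    let π : N →* (H ⧸ O) ⧸ P1 := f.comp N.subtype
    have hπs : Function.Surjective π := fun v => by
      obtain ⟨g, hg, hgv⟩ := hNrep v
      exact ⟨⟨g, hg⟩, hgv⟩
    have hker : π.ker ≤ ρ'.ker := by
      intro g hg
      have hgM : (g : H) ∈ M0 := MonoidHom.mem_ker.1 hg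
      obtain ⟨p, hp, hpg⟩ := hP1P _ (hmemM0.1 hgM)
      have hgo : p⁻¹ * (g : H) ∈ O := by
        rw [← QuotientGroup.eq_one_iff, QuotientGroup.mk_mul, QuotientGroup.mk_inv, hpg,
          inv_mul_cancel]
      have hpgN : p⁻¹ * (g : H) ∈ N := N.mul_mem (N.inv_mem (hPN hp)) g.2
      have hc : p⁻¹ * (g : H) ∈ Subgroup.centralizer (P : Set H) := by
        rw [Subgroup.mem_centralizer_iff]
        intro a ha
        have h1 : ⁅p⁻¹ * (g : H), a⁆ ∈ P := by
          rw [commutatorElement_def]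
          exact P.mul_mem ((Subgroup.mem_normalizer_iff.1 hpgN a).1 ha) (P.inv_mem ha)
        have h2 : ⁅p⁻¹ * (g : H), a⁆ ∈ O := by
          rw [commutatorElement_def, mul_assoc, mul_assoc, ← mul_assoc a]
          exact O.mul_mem hgo ((inferInstance : O.Normal).conj_mem _ (O.inv_mem hgo) a)
        obtain ⟨j, hj⟩ := hPp ⟨_, h1⟩
        have h3 : ⁅p⁻¹ * (g : H), a⁆ = 1 := orderOf_eq_one_iff.1 (Nat.eq_one_of_dvd_coprimes
          (((CfsgLib.Cores.odd_card_oddCore (G := H)).coprime_two_left).pow_left j)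
          (orderOf_dvd_of_pow_eq_one (congrArg Subtype.val hj)) (Subgroup.orderOf_dvd_natCard _ h2))
        rw [commutatorElement_eq_one_iff_mul_comm] at h3
        exact h3.symm
      have e : g = ⟨p, hPN hp⟩ * ⟨p⁻¹ * (g : H), hpgN⟩ :=
        Subtype.ext (mul_inv_cancel_left p (g : H)).symm
      rw [e]
      exact mul_mem (hPker (Subgroup.mem_subgroupOf.2 hp)) (hcent' ⟨_, hpgN⟩ hc)
    obtain ⟨ρJ, hρJ⟩ : ∃ ρJ : (H ⧸ O) ⧸ P1 →* Module.End K₂ (Fin d' → K₂),
        ∀ g : N, ρJ (π g) = ρ' g := by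
      refine ⟨(QuotientGroup.lift π.ker ρ' hker).comp
        (QuotientGroup.quotientKerEquivOfSurjective π hπs).symm.toMonoidHom, fun g => ?_⟩
      have e : (QuotientGroup.quotientKerEquivOfSurjective π hπs).symm (π g) = (g : N ⧸ π.ker) :=
        (QuotientGroup.quotientKerEquivOfSurjective π hπs).symm_apply_eq.2 rfl
      rw [MonoidHom.comp_apply, MulEquiv.coe_toMonoidHom, e, QuotientGroup.lift_mk]
    have hJ : Function.Injective ρJ := by
      rw [← MonoidHom.ker_eq_bot_iff, eq_bot_iff, ← hcore2]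
      refine le_pCore (N := ρJ.ker) fun j => ?_
      obtain ⟨g, hg⟩ := hπs (j : (H ⧸ O) ⧸ P1)
      obtain ⟨a, b, hab, ⟨k, hk⟩, hb⟩ :=
        CfsgLib.NormalPComplement.exists_pParts (p := 2) (isOfFinOrder_of_finite g)
      refine ⟨k, Subtype.ext ?_⟩
      have hgk : g ∈ ρ'.ker := by
        rw [MonoidHom.mem_ker, ← hρJ, hg]; exact j.2
      have hodd : Odd (orderOf (g ^ b)) := Nat.coprime_two_left.1 hb.symm
      have hc := hodd' (g ^ b) (pow_mem hgk b) hodd
      have hπ : π (g ^ b) = 1 := by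
        show f ((g ^ b : N) : H) = 1
        refine (QuotientGroup.eq_one_iff _).2 (centralizer_pCore_le hH1 hO1 ?_)
        rw [Subgroup.mem_centralizer_iff]
        intro x hx
        obtain ⟨p, hp, rfl⟩ := hP1P x hx
        show (QuotientGroup.mk' O) p * (QuotientGroup.mk' O) _ = _
        rw [← map_mul, Subgroup.mem_centralizer_iff.1 hc p hp, map_mul]
        rfl
      show (j : (H ⧸ O) ⧸ P1) ^ 2 ^ k = 1
      rw [← hg, ← hab, map_mul, hπ, mul_one, ← map_pow, orderOf_dvd_iff_pow_eq_one.1 hk, map_one]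
    refine pLengthLE_succ_of_quotient (ih _ hsolJ hcore2 d' ρJ hJ fun v hv => ⟨hu2 v hv, ?_⟩)
    obtain ⟨g, rfl⟩ := hπs v
    obtain ⟨a, b, hab, ⟨k, hk⟩, hb⟩ :=
      CfsgLib.NormalPComplement.exists_pParts (p := 2) (isOfFinOrder_of_finite g)
    have hpb : π (g ^ b) = 1 := by
      obtain ⟨j, hj⟩ := hv
      refine orderOf_eq_one_iff.1 (Nat.eq_one_of_dvd_coprimes (a := 2 ^ j)
        (Nat.Coprime.pow_left j hb.symm) ?_ (orderOf_map_dvd π (g ^ b)))
      refine orderOf_dvd_of_pow_eq_one ?_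
      rw [map_pow, ← pow_mul, mul_comm, pow_mul, hj, one_pow]
    have hga : π g = π (g ^ a) := by
      conv_lhs => rw [← hab, map_mul, hpb, mul_one]
    rw [hga, hρJ]
    exact hrel' (g ^ a) ⟨k, orderOf_dvd_iff_pow_eq_one.1 hk⟩

/-- A finite group solvable in the weak sense at two is solvable. -/
theorem isSolvable_of_two {G : Type w} [Group G] [Finite G] (hG : Cfsg.IsPSolvable 2 G) :
    Group.IsSolvable G := by
  haveI : Fact (Nat.Prime 2) := ⟨Nat.prime_two⟩
  obtain ⟨n, c, h0, hlast, hmono, hn, hf⟩ := hG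
  have key : ∀ i : Fin (n + 1), Group.IsSolvable ↥(c i) := by
    intro i
    induction i using Fin.induction with
    | zero => rw [h0]; infer_instance
    | succ i ih =>
      haveI := hn i.castSucc
      haveI := ih
      have hle : c i.castSucc ≤ c i.succ := hmono i.castSucc_lt_succ.le
      let N : Subgroup ↥(c i.succ) := (c i.castSucc).subgroupOf (c i.succ)
      haveI : Group.IsSolvable ↥N :=
        Group.isSolvable_of_isSolvable_injective (f := (Subgroup.subgroupOfEquivOfLe hle).toMonoidHom)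
          (Subgroup.subgroupOfEquivOfLe hle).injective
      haveI : Group.IsSolvable (↥(c i.succ) ⧸ N) := by
        have hcard : Nat.card (↥(c i.succ) ⧸ N) = (c i.castSucc).relIndex (c i.succ) := rfl
        rcases hf i with ⟨k, hk⟩ | hk
        · haveI := (IsPGroup.of_card (hcard.trans hk) : IsPGroup 2 (↥(c i.succ) ⧸ N)).isNilpotent
          infer_instance
        · exact Cfsg.Agent.S0205.result (hcard ▸ Nat.coprime_two_right.1 hk)
      exact (Group.isSolvable_iff_subgroup_quotient N).2 ⟨inferInstance, inferInstance⟩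
  have h := key (Fin.last n)
  rw [hlast] at h
  exact Group.isSolvable_of_surjective (f := (⊤ : Subgroup G).subtype) fun g => ⟨⟨g, trivial⟩, rfl⟩

/-- Bryukhanova's bound, given the steps. -/
theorem pLengthLE_exponent_two (hstep : StepHyp.{w}) : ∀ (n : ℕ) (G : Type w) [Group G] [Finite G],
    Group.IsSolvable G → (∀ g : G, (∃ k, g ^ 2 ^ k = 1) → g ^ 2 ^ n = 1) → PLengthLE 2 n G := by
  haveI : Fact (Nat.Prime 2) := ⟨Nat.prime_two⟩
  intro n G _ _ hsol hexp
  cases n with
  | zero => exact pLengthLE_zero_of_exponent hexp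
  | succ e =>
    haveI := hsol
    haveI : Group.IsSolvable (G ⧸ pPrimeCore 2 G) :=
      Group.isSolvable_of_surjective (QuotientGroup.mk'_surjective _)
    set O := pPrimeCore 2 G with hO
    set P := pCore 2 (G ⧸ O) with hP
    obtain ⟨d, r, ρ, hρ, hr, -, hrρ, hspan⟩ :=
      exists_frattini_rep (G := G ⧸ O) isPSolvable_of_isSolvable
        (pPrimeCore_quotient_pPrimeCore (G := G) 2)
    have hexp1 := exp_map (p := 2) (QuotientGroup.mk'_surjective O) hexp
    have hexp2 := exp_map (p := 2) (QuotientGroup.mk'_surjective P) hexp1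
    refine pLengthLE_succ_of_quotient (pLengthLE_pred_of_relation hstep e _
      (Group.isSolvable_of_surjective (QuotientGroup.mk'_surjective _))
      (pCore_quotient_pCore 2 (G ⧸ O)) d ρ hρ fun v hv => ⟨hexp2 v hv, ?_⟩)
    obtain ⟨g, rfl⟩ := QuotientGroup.mk'_surjective P v
    obtain ⟨k, hk⟩ := hv
    rw [← map_pow, QuotientGroup.mk'_apply, QuotientGroup.eq_one_iff] at hk
    refine sum_pow_eq_zero r hr ρ hrρ hspan fun x => hexp1 _ ?_
    have h1 : ((x : G ⧸ O) * g) ^ 2 ^ k ∈ P := by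
      rw [← QuotientGroup.eq_one_iff, QuotientGroup.mk_pow, QuotientGroup.mk_mul,
        (QuotientGroup.eq_one_iff (x : G ⧸ O)).2 x.2, one_mul, ← QuotientGroup.mk_pow,
        QuotientGroup.eq_one_iff]
      exact hk
    obtain ⟨l, hl⟩ := isPGroup_pCore 2 (G ⧸ O) ⟨_, h1⟩
    exact ⟨k + l, by rw [pow_add, pow_mul]; exact congrArg Subtype.val hl⟩

end CfsgLib.TwoLengthExponent
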