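/-
Rotations in a `2`-group preserving a nondegenerate alternating pairing.
-/
import Mathlib
import Cfsg.Agent.Lib.TwoLengthExponent.Defs

set_option autoImplicit false
set_option linter.style.haveILetI false
set_option linter.unusedSectionVars false

open scoped commutatorElement
open MulAction

namespace CfsgLib.TwoLengthExponent

open CfsgLib.HallHigmanExc

universe u v w

section Transfer

variable {R : Type w} [Group R] [Finite R] {H : Subgroup R} {A : Type w} [CommGroup A] (θ : H →* A)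

theorem smul_coe_eq_iff (r g : R) : r • (g : R ⧸ H) = g ↔ g⁻¹ * r * g ∈ H := by
  rw [MulAction.Quotient.smul_mk, eq_comm, QuotientGroup.eq, smul_eq_mul, ← mul_assoc]

/-- The transfer of an element fixing all cosets, which is trivial away from the base coset. -/
theorem transfer_eq_self {r : R} (hall : ∀ g : R, g⁻¹ * r * g ∈ H) (hr : r ∈ H)
    (htriv : ∀ g : R, g ∉ H → θ ⟨g⁻¹ * r * g, hall g⟩ = 1) :
    θ.transfer r = θ ⟨r, hr⟩ := by
  classical
  letI := Fintype.ofFinite (Quotient (orbitRel (Subgroup.zpowers r) (R ⧸ H)))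
  rw [MonoidHom.transfer_eq_prod_quotient_orbitRel_zpowers_quot]
  have hfix : ∀ x : R ⧸ H, r • x = x := fun x =>
    QuotientGroup.induction_on x fun g => (smul_coe_eq_iff r g).2 (hall g)
  have hone : ∀ x : R ⧸ H, Function.minimalPeriod (r • ·) x = 1 := fun x =>
    Function.minimalPeriod_eq_one_iff_isFixedPt.2 (hfix x)
  have hval : ∀ (g : R) (n : ℕ) (_ : n = 1) (hm : g⁻¹ * r ^ n * g ∈ H),
      θ ⟨g⁻¹ * r ^ n * g, hm⟩ = θ ⟨g⁻¹ * r * g, hall g⟩ := by
    rintro g n rfl hm
    congr 1
    exact Subtype.ext (by show g⁻¹ * r ^ 1 * g = g⁻¹ * r * g; rw [pow_one])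
  set Q0 : Quotient (orbitRel (Subgroup.zpowers r) (R ⧸ H)) := Quotient.mk _ ((1 : R) : R ⧸ H)
  have hout : Q0.out = ((1 : R) : R ⧸ H) := by
    obtain ⟨⟨g, j, rfl⟩, hg⟩ := orbitRel_apply.1 (Quotient.mk_out (s := orbitRel (Subgroup.zpowers r)
      (R ⧸ H)) ((1 : R) : R ⧸ H))
    refine hg.symm.trans ?_
    show r ^ j • ((1 : R) : R ⧸ H) = ((1 : R) : R ⧸ H)
    exact zpow_mem (show r ∈ MulAction.stabilizer R ((1 : R) : R ⧸ H) from hfix _) j
  rw [Fintype.prod_eq_single Q0]
  · rw [hval _ _ (hone _)]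
    have hmem : Q0.out.out ∈ H := by
      have h1 := QuotientGroup.out_eq' Q0.out
      rw [hout, QuotientGroup.eq] at h1
      simpa [hout] using h1
    rw [show (⟨Q0.out.out⁻¹ * r * Q0.out.out, hall _⟩ : H) =
      ⟨Q0.out.out, hmem⟩⁻¹ * ⟨r, hr⟩ * ⟨Q0.out.out, hmem⟩ from rfl, map_mul, map_mul, map_inv,
      inv_mul_eq_div, div_mul_cancel]
  · intro q hq
    rw [hval _ _ (hone _)]
    refine htriv _ fun hmem => hq ?_
    have h2 : q.out = ((1 : R) : R ⧸ H) := by
      rw [← QuotientGroup.out_eq' q.out, QuotientGroup.eq]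
      simpa using hmem
    rw [← Quotient.out_eq q, h2]

/-- The transfer of an element whose square is everywhere trivial. -/
theorem transfer_eq_one {r : R} (hsq : ∀ g : R, g⁻¹ * r ^ 2 * g ∈ H)
    (htriv : ∀ (g : R) (n : ℕ) (hm : g⁻¹ * r ^ n * g ∈ H), n = 1 ∨ n = 2 →
      θ ⟨g⁻¹ * r ^ n * g, hm⟩ = 1) : θ.transfer r = 1 := by
  classical
  letI := Fintype.ofFinite (Quotient (orbitRel (Subgroup.zpowers r) (R ⧸ H)))
  rw [MonoidHom.transfer_eq_prod_quotient_orbitRel_zpowers_quot]
  refine Finset.prod_eq_one fun q _ => htriv _ _ _ ?_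
  have h2 : Function.IsPeriodicPt (r • ·) 2 q.out := by
    show (r • ·)^[2] q.out = q.out
    rw [smul_iterate, ← QuotientGroup.out_eq' q.out]
    exact (smul_coe_eq_iff _ _).2 (hsq _)
  exact (Nat.dvd_prime Nat.prime_two).1 h2.minimalPeriod_dvd

end Transfer

variable {M : Type v} [AddCommGroup M] {R : Type w} [Group R] {C : Type u} [AddCommGroup C]
  {q k : ℕ} {φ : R →* AddMonoid.End M} {B : M →+ M →+ C}

/-- Orthogonality of two subgroups. -/
def Orth (B : M →+ M →+ C) (D E : AddSubgroup M) : Prop := ∀ x ∈ D, ∀ y ∈ E, B x y = 0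

theorem end_inv_apply_apply (φ : R →* AddMonoid.End M) (r : R) (m : M) : φ r⁻¹ (φ r m) = m := by
  rw [← end_map_mul_apply, inv_mul_cancel, end_map_one_apply]

theorem end_apply_inv_apply (φ : R →* AddMonoid.End M) (r : R) (m : M) : φ r (φ r⁻¹ m) = m := by
  rw [← end_map_mul_apply, mul_inv_cancel, end_map_one_apply]

theorem end_injective (φ : R →* AddMonoid.End M) (r : R) : Function.Injective (φ r) :=
  Function.LeftInverse.injective (end_inv_apply_apply φ r)

theorem mem_disp_range {φ : R →* AddMonoid.End M} {r : R} {x : M} :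
    x ∈ (disp φ r).range ↔ ∃ y, φ r y - y = x := Iff.rfl

theorem disp_invariant (φ : R →* AddMonoid.End M) (r : R) {x : M} (hx : x ∈ (disp φ r).range) :
    φ r x ∈ (disp φ r).range := by
  obtain ⟨y, rfl⟩ := mem_disp_range.1 hx
  exact mem_disp_range.2 ⟨φ r y, by rw [map_sub]⟩

theorem pow_invariant (φ : R →* AddMonoid.End M) {r : R} {A : AddSubgroup M}
    (hA : ∀ x ∈ A, φ r x ∈ A) : ∀ (n : ℕ), ∀ x ∈ A, φ (r ^ n) x ∈ A
  | 0, x, hx => by rwa [pow_zero, end_map_one_apply]
  | n + 1, x, hx => by rw [pow_succ', end_map_mul_apply]; exact hA _ (pow_invariant φ hA n x hx)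

theorem pow_fix (φ : R →* AddMonoid.End M) {r : R} {x : M} (hx : φ r x = x) :
    ∀ n : ℕ, φ (r ^ n) x = x
  | 0 => by rw [pow_zero, end_map_one_apply]
  | n + 1 => by rw [pow_succ', end_map_mul_apply, pow_fix φ hx n, hx]

/-- A subgroup inside a group of order `q ^ 2` with more than `q` elements is everything. -/
theorem eq_of_card_gt [Finite M] (hqp : q.Prime) {A D : AddSubgroup M} (hD : Nat.card D = q ^ 2)
    (hA : A ≤ D) (hgt : q < Nat.card A) : A = D := by
  refine AddSubgroup.eq_of_le_of_card_ge hA ?_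
  obtain ⟨i, hi, he⟩ := (Nat.dvd_prime_pow hqp).1 (hD ▸ AddSubgroup.card_dvd_of_le hA)
  rcases (show i = 0 ∨ i = 1 ∨ i = 2 by omega) with rfl | rfl | rfl
  · rw [he, pow_zero] at hgt; have := hqp.two_le; omega
  · rw [he, pow_one] at hgt; omega
  · rw [he, hD]

theorem map_mul_end (φ : R →* AddMonoid.End M) (a b : R) (D : AddSubgroup M) :
    D.map (φ (a * b) : M →+ M) = (D.map (φ b : M →+ M)).map (φ a : M →+ M) := by
  rw [map_mul]
  exact (AddSubgroup.map_map _ _ _).symm

namespace FormData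

variable (h : FormData q φ B)
include h

theorem skew (a b : M) : B a b = -(B b a) := by
  have h1 := h.alt (a + b)
  simp only [map_add, AddMonoidHom.add_apply, h.alt, zero_add, add_zero] at h1
  exact eq_neg_of_add_eq_zero_right h1

theorem orth_symm {D E : AddSubgroup M} (ho : Orth B D E) : Orth B E D := fun x hx y hy => by
  rw [h.skew, ho y hy x hx, neg_zero]

/-- The fixed points are the orthogonal of the displacements. -/
theorem fix_iff (r : R) (w : M) : φ r w = w ↔ ∀ x ∈ (disp φ r).range, B x w = 0 := by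
  constructor
  · rintro hw _ ⟨y, rfl⟩
    rw [disp_apply, map_sub, AddMonoidHom.sub_apply]
    conv_lhs => arg 1; rw [← hw]
    rw [h.inv, sub_self]
  · intro hw
    have h0 : φ r⁻¹ w - w = 0 := h.nondeg _ fun y => by
      have h1 := hw _ (mem_disp_range.2 ⟨y, rfl⟩)
      have h2 : B (φ r y) w = B y (φ r⁻¹ w) := by
        conv_lhs => rw [← end_apply_inv_apply φ r w, h.inv]
      rw [map_sub, AddMonoidHom.sub_apply, h2, ← map_sub] at h1
      rw [h.skew, h1, neg_zero]
    conv_lhs => rw [← sub_eq_zero.1 h0]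
    exact end_apply_inv_apply φ r w

theorem fixes_of_orth {r : R} {D : AddSubgroup M} (ho : Orth B (disp φ r).range D) {x : M}
    (hx : x ∈ D) : φ r x = x := (h.fix_iff r x).2 fun y hy => ho y hy x hx

theorem eq_zero_of_two_pow (hq : Odd q) {j : ℕ} {x : M} (hx : 2 ^ j • x = 0) : x = 0 := by
  have h1 := addOrderOf_dvd_of_nsmul_eq_zero hx
  have h2 := addOrderOf_dvd_of_nsmul_eq_zero (h.tors x)
  exact AddMonoid.addOrderOf_eq_one_iff.1 (Nat.eq_one_of_dvd_coprimes
    ((Nat.coprime_two_left.2 hq).pow_left j) h1 h2)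

theorem odd_of_eq (hq : q + 1 = 2 ^ (k + 1)) : Odd q :=
  ⟨2 ^ k - 1, by have := Nat.two_pow_pos k; rw [pow_succ] at hq; omega⟩

theorem eq_zero_of_eq_neg (hq : q + 1 = 2 ^ (k + 1)) {x : M} (hx : x = -x) : x = 0 :=
  h.eq_zero_of_two_pow (odd_of_eq h hq) (j := 1) (by
    rw [pow_one, two_nsmul]; exact eq_neg_iff_add_eq_zero.1 hx)

end FormData

section Rot

variable [Finite M] (h : FormData q φ B) (hqp : q.Prime) (hq : q + 1 = 2 ^ (k + 1)) (hk : 1 ≤ k)
include h hqp hq hk

theorem IsRot.fixed_eq_zero {r : R} (hr : IsRot q k φ r) {x : M} (hx : x ∈ (disp φ r).range)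
    (hfix : φ r x = x) : x = 0 :=
  h.eq_zero_of_eq_neg hq ((pow_fix φ hfix (2 ^ k)).symm.trans (hr.2 x hx))

theorem IsRot.eq_zero_of_orth {r : R} (hr : IsRot q k φ r) {x : M} (hx : x ∈ (disp φ r).range)
    (ho : ∀ y ∈ (disp φ r).range, B y x = 0) : x = 0 :=
  hr.fixed_eq_zero h hqp hq hk hx ((h.fix_iff r x).2 ho)

theorem IsRot.exists_ne_zero {r : R} (hr : IsRot q k φ r) :
    ∃ x ∈ (disp φ r).range, x ≠ 0 := by
  by_contra! hc
  have : (disp φ r).range = ⊥ := (AddSubgroup.eq_bot_iff_forall _).2 hc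
  have h1 := hr.1
  rw [this, AddSubgroup.card_bot] at h1
  have := hqp.two_le
  nlinarith

theorem IsRot.exists_decomp {r : R} (hr : IsRot q k φ r) (m : M) :
    ∃ d ∈ (disp φ r).range, ∃ f, φ r f = f ∧ m = d + f := by
  let D := (disp φ r).range
  have hd : Function.Injective (fun d : D => (⟨disp φ r d, ⟨_, rfl⟩⟩ : D)) := by
    intro a b hab
    have h0 : disp φ r ((a : M) - b) = 0 := by
      rw [map_sub, sub_eq_zero]; exact congrArg Subtype.val hab
    exact Subtype.ext (sub_eq_zero.1 (hr.fixed_eq_zero h hqp hq hk (D.sub_mem a.2 b.2)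
      (mem_disp_ker.1 (AddMonoidHom.mem_ker.2 h0))))
  obtain ⟨d, hdm⟩ := (Finite.injective_iff_surjective.1 hd) ⟨disp φ r m, ⟨m, rfl⟩⟩
  refine ⟨d, d.2, m - d, mem_disp_ker.1 (AddMonoidHom.mem_ker.2 ?_), by abel⟩
  rw [map_sub, sub_eq_zero]
  exact (congrArg Subtype.val hdm).symm

theorem IsRot.pow_smul_eq {r : R} (hr : IsRot q k φ r) {x : M} (hx : x ∈ (disp φ r).range) :
    φ (r ^ 2 ^ (k + 1)) x = x := by
  rw [pow_succ, mul_two, pow_add, end_map_mul_apply, hr.2 x hx, map_neg, hr.2 x hx, neg_neg]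

/-- A rotation leaves no proper nontrivial subgroup of its plane invariant. -/
theorem IsRot.eq_of_invariant {r : R} (hr : IsRot q k φ r) {A : AddSubgroup M}
    (hA : A ≤ (disp φ r).range) (hinv : ∀ x ∈ A, φ r x ∈ A) {x : M} (hx : x ∈ A) (hx0 : x ≠ 0) :
    A = (disp φ r).range := by
  refine eq_of_card_gt hqp hr.1 hA ?_
  let f : M → M := fun y => φ r y
  have hiter : ∀ n y, f^[n] y = φ (r ^ n) y := by
    intro n
    induction n with
    | zero => intro y; rw [pow_zero, end_map_one_apply]; rfl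
    | succ n ih => intro y; rw [Function.iterate_succ_apply', ih, pow_succ', end_map_mul_apply]
  have hper : Function.minimalPeriod f x = 2 ^ (k + 1) := by
    haveI := Fact.mk Nat.prime_two
    refine Function.minimalPeriod_eq_prime_pow (fun hp => hx0 ?_) ?_
    · have hp' : f^[2 ^ k] x = x := hp
      rw [hiter, hr.2 x (hA hx)] at hp'
      exact h.eq_zero_of_eq_neg hq hp'.symm
    · show f^[2 ^ (k + 1)] x = x
      rw [hiter, hr.pow_smul_eq h hqp hq hk (hA hx)]
  have hinj : Function.Injective (fun i : Fin (2 ^ (k + 1)) =>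
      (⟨φ (r ^ (i : ℕ)) x, pow_invariant φ hinv _ x hx⟩ : A)) := by
    intro i j hij
    have h1 : f^[(i : ℕ)] x = f^[(j : ℕ)] x := by
      rw [hiter, hiter]; exact congrArg Subtype.val hij
    exact Fin.ext (Function.iterate_injOn_Iio_minimalPeriod (f := f) (x := x)
      (by rw [hper]; exact i.2) (by rw [hper]; exact j.2) h1)
  have := Nat.card_le_card_of_injective _ hinj
  rw [Nat.card_fin] at this
  omega

theorem IsRot.eq_or_fixes {r : R} (hr : IsRot q k φ r) {D : AddSubgroup M}
    (hD : Nat.card D = q ^ 2) (hinv : ∀ x ∈ D, φ r x ∈ D) :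
    D = (disp φ r).range ∨ ∀ x ∈ D, φ r x = x := by
  refine or_iff_not_imp_right.2 fun hne => ?_
  push Not at hne
  obtain ⟨x, hx, hne⟩ := hne
  have e := hr.eq_of_invariant h hqp hq hk (A := (disp φ r).range ⊓ D) inf_le_left
    (fun y hy => ⟨disp_invariant φ r hy.1, hinv y hy.2⟩)
    (x := φ r x - x) ⟨⟨x, rfl⟩, D.sub_mem (hinv x hx) hx⟩ (sub_ne_zero.2 hne)
  exact (AddSubgroup.eq_of_le_of_card_ge (e.symm.le.trans inf_le_right) (by rw [hD, hr.1])).symm

theorem IsRot.conj {r : R} (hr : IsRot q k φ r) (g : R) :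
    (disp φ (g * r * g⁻¹)).range = (disp φ r).range.map (φ g : M →+ M) ∧
      IsRot q k φ (g * r * g⁻¹) := by
  have hrange : (disp φ (g * r * g⁻¹)).range = (disp φ r).range.map (φ g : M →+ M) := by
    ext x
    constructor
    · rintro ⟨y, rfl⟩
      refine ⟨_, ⟨φ g⁻¹ y, rfl⟩, ?_⟩
      show φ g (φ r (φ g⁻¹ y) - φ g⁻¹ y) = φ (g * r * g⁻¹) y - y
      rw [map_sub, end_apply_inv_apply, end_map_mul_apply, end_map_mul_apply]
    · rintro ⟨_, ⟨y, rfl⟩, rfl⟩
      refine ⟨φ g y, ?_⟩
      show φ (g * r * g⁻¹) (φ g y) - φ g y = φ g (φ r y - y)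
      rw [map_sub, end_map_mul_apply, end_inv_apply_apply, end_map_mul_apply]
  refine ⟨hrange, ?_, ?_⟩
  · rw [hrange, AddSubgroup.card_map_of_injective (end_injective φ g), hr.1]
  · rw [hrange]
    rintro _ ⟨x, hx, rfl⟩
    show φ ((g * r * g⁻¹) ^ 2 ^ k) (φ g x) = -(φ g x)
    rw [conj_pow, end_map_mul_apply, end_inv_apply_apply, end_map_mul_apply, hr.2 x hx, map_neg]

variable [Finite R] (hR : IsPGroup 2 R)
include hR

set_option maxHeartbeats 800000 in
/-- Two rotation planes are equal or orthogonal. -/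
theorem planes_eq_or_orth {r r' : R} (hr : IsRot q k φ r) (hr' : IsRot q k φ r') :
    (disp φ r).range = (disp φ r').range ∨ Orth B (disp φ r).range (disp φ r').range := by
  classical
  let Good : Set (AddSubgroup M) → Prop := fun F =>
    (∀ D ∈ F, ∃ r, IsRot q k φ r ∧ D = (disp φ r).range) ∧
      ∀ D ∈ F, ∀ E ∈ F, D ≠ E → Orth B D E
  haveI : Finite (AddSubgroup M) := Finite.of_injective _ SetLike.coe_injective
  haveI : Nonempty {F // Good F} := ⟨⟨∅, by simp [Good]⟩⟩
  obtain ⟨⟨F, hF1, hF2⟩, hmax⟩ := Finite.exists_max fun F : {F // Good F} => F.1.ncard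
  have hdisj : ∀ D ∈ F, ∀ E ∈ F, D ≠ E → ∀ x, x ∈ D → x ∈ E → x = 0 := by
    intro D hD E hE hne x hx hx'
    obtain ⟨d, hd, rfl⟩ := hF1 D hD
    exact hd.eq_zero_of_orth h hqp hq hk hx fun y hy => hF2 _ hD E hE hne y hy x hx'
  -- the stabilizer of the family
  let N : Subgroup R :=
    { carrier := {g | ∀ D ∈ F, D.map (φ g : M →+ M) ∈ F}
      one_mem' := fun D hD => by
        rwa [show (φ 1 : M →+ M) = AddMonoidHom.id M from
          AddMonoidHom.ext (end_map_one_apply φ), AddSubgroup.map_id]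
      mul_mem' := fun {a b} ha hb D hD => by
        rw [map_mul_end]
        exact ha _ (hb D hD)
      inv_mem' := fun {a} ha => by
        have hpow : ∀ n : ℕ, ∀ D ∈ F, D.map (φ (a ^ n) : M →+ M) ∈ F := by
          intro n
          induction n with
          | zero =>
            intro D hD
            rwa [pow_zero, show (φ 1 : M →+ M) = AddMonoidHom.id M from
              AddMonoidHom.ext (end_map_one_apply φ), AddSubgroup.map_id]
          | succ n ih =>
            intro D hD
            rw [pow_succ, map_mul_end]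
            exact ih _ (ha D hD)
        have he : a⁻¹ = a ^ (orderOf a - 1) := by
          rw [inv_eq_iff_mul_eq_one, mul_pow_sub_one (orderOf_pos a).ne', pow_orderOf_eq_one]
        show ∀ D ∈ F, D.map (φ a⁻¹ : M →+ M) ∈ F
        rw [he]; exact hpow _ }
  -- a rotation in the stabilizer has its plane in the family
  have hNF : ∀ r ∈ N, IsRot q k φ r → (disp φ r).range ∈ F := by
    intro r hrN hr
    have hfixed : ∀ D1 ∈ F, ∀ x ∈ D1, φ r x ∈ D1 := by
      intro D1 hD1 x hx
      by_contra hout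
      set D2 := D1.map (φ r : M →+ M) with hD2def
      have hD2 : D2 ∈ F := hrN D1 hD1
      have hne : D1 ≠ D2 := fun e => hout (by rw [e]; exact ⟨x, hx, rfl⟩)
      have hmem2 : ∀ y ∈ D1, φ r y ∈ D2 := fun y hy => ⟨y, hy, rfl⟩
      obtain ⟨d1, hd1, e1⟩ := hF1 D1 hD1
      have hinj : ∀ y ∈ D1, disp φ r y = 0 → y = 0 := fun y hy h0 =>
        hdisj D1 hD1 D2 hD2 hne y hy (by rw [← sub_eq_zero.1 h0]; exact hmem2 y hy)
      have himg : D1.map (disp φ r) = (disp φ r).range := by
        refine AddSubgroup.eq_of_le_of_card_ge (AddSubgroup.map_le_range _ _) ?_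
        rw [hr.1]
        have hc : Nat.card D1 = q ^ 2 := by rw [e1, hd1.1]
        rw [← hc]
        exact Nat.card_le_card_of_injective
          (fun y : D1 => (⟨disp φ r y, ⟨y, y.2, rfl⟩⟩ : D1.map (disp φ r)))
          fun a b hab => Subtype.ext (sub_eq_zero.1 (hinj _ (D1.sub_mem a.2 b.2) (by
            rw [map_sub, sub_eq_zero]; exact congrArg Subtype.val hab)))
      set D3 := D2.map (φ r : M →+ M) with hD3def
      have hD3 : D3 ∈ F := hrN D2 hD2
      have hne3 : D2 ≠ D3 := by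
        intro e
        exact hne (AddSubgroup.map_injective (end_injective φ r) (hD2def.symm.trans (e.trans hD3def)))
      have hsq : ∀ y ∈ D1, φ r (φ r y) = y := by
        intro y hy
        obtain ⟨y', hy', e⟩ : φ r (disp φ r y) ∈ D1.map (disp φ r) := by
          rw [himg]; exact disp_invariant φ r ⟨y, rfl⟩
        rw [disp_apply, disp_apply, map_sub] at e
        have eA : φ r (φ r y) + y' = φ r y + φ r y' := by linear_combination (norm := abel) -e
        have hA : φ r (φ r y) ∈ D3 := ⟨_, hmem2 y hy, rfl⟩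
        have hB2 : φ r y + φ r y' ∈ D2 := D2.add_mem (hmem2 y hy) (hmem2 y' hy')
        by_cases h31 : D3 = D1
        · have h0 := hdisj D1 hD1 D2 hD2 hne _ (D1.add_mem (h31 ▸ hA) hy') (by rw [eA]; exact hB2)
          have h1 : φ r (y + y') = 0 := by rw [map_add, ← eA, h0]
          have h2 : y' = -y := eq_neg_of_add_eq_zero_right
            (end_injective φ r (by rw [h1, map_zero]))
          rw [eq_neg_of_add_eq_zero_left h0, h2, neg_neg]
        · obtain ⟨d3, hd3, e3⟩ := hF1 D3 hD3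
          have hA0 : φ r (φ r y) = 0 := by
            refine hd3.eq_zero_of_orth h hqp hq hk (e3 ▸ hA) fun z hz => ?_
            have hz3 : z ∈ D3 := e3.symm ▸ hz
            rw [show φ r (φ r y) = φ r y + φ r y' - y' from eq_sub_of_add_eq eA, map_sub,
              hF2 D3 hD3 D2 hD2 hne3.symm z hz3 _ hB2, hF2 D3 hD3 D1 hD1 h31 z hz3 _ hy', sub_zero]
          have hy0 : y = 0 := end_injective φ r (by
            rw [map_zero]; exact end_injective φ r (by rw [hA0, map_zero]))
          rw [hA0, hy0]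
      obtain ⟨z, hz, hz0⟩ := hr.exists_ne_zero h hqp hq hk
      obtain ⟨y, hy, rfl⟩ : z ∈ D1.map (disp φ r) := himg.symm ▸ hz
      have hz2 : φ (r ^ 2) (disp φ r y) = disp φ r y := by
        rw [pow_two, end_map_mul_apply, disp_apply, map_sub, map_sub, hsq y hy]
      have h2 := hr.2 _ hz
      obtain ⟨j, rfl⟩ : ∃ j, k = j + 1 := ⟨k - 1, by omega⟩
      rw [pow_succ', pow_mul, pow_fix φ hz2] at h2
      exact hz0 (h.eq_zero_of_eq_neg hq h2)
    by_contra hnot
    have horth : ∀ D ∈ F, Orth B (disp φ r).range D := by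
      intro D hD
      obtain ⟨d, hd, e⟩ := hF1 D hD
      rcases hr.eq_or_fixes h hqp hq hk (D := D) (by rw [e, hd.1]) (hfixed D hD) with e' | e'
      · exact absurd (e' ▸ hD) hnot
      · exact fun x hx y hy => (h.fix_iff r y).1 (e' y hy) x hx
    have hgood : Good (insert (disp φ r).range F) := by
      refine ⟨?_, ?_⟩
      · rintro D (rfl | hD)
        exacts [⟨r, hr, rfl⟩, hF1 D hD]
      · rintro D (rfl | hD) E (rfl | hE) hne
        exacts [absurd rfl hne, horth E hE, h.orth_symm (horth D hD), hF2 D hD E hE hne]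
    have hlt := hmax ⟨_, hgood⟩
    simp only at hlt
    rw [Set.ncard_insert_of_notMem hnot (Set.toFinite F)] at hlt
    omega
  have hFN : ∀ d, IsRot q k φ d → (disp φ d).range ∈ F → d ∈ N := by
    intro d hd hdF D hD
    have hle : D.map (φ d : M →+ M) ≤ D := by
      rintro _ ⟨x, hx, rfl⟩
      by_cases e : (disp φ d).range = D
      · rw [← e] at hx ⊢; exact disp_invariant φ d hx
      · show φ d x ∈ D
        rwa [h.fixes_of_orth (hF2 _ hdF D hD e) hx]
    rwa [AddSubgroup.eq_of_le_of_card_ge hle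
      (AddSubgroup.card_map_of_injective (end_injective φ d)).ge]
  haveI := Fact.mk Nat.prime_two
  have hN : N = ⊤ := by
    haveI : Group.IsNilpotent R := hR.isNilpotent
    by_contra hN
    obtain ⟨g, hgN, hg⟩ := SetLike.exists_of_lt
      (Group.normalizerCondition_of_isNilpotent N (lt_top_iff_ne_top.2 hN))
    apply hg
    intro D hD
    obtain ⟨d, hd, rfl⟩ := hF1 D hD
    obtain ⟨he, hd'⟩ := hd.conj h hqp hq hk g
    rw [← he]
    exact hNF _ ((Subgroup.mem_normalizer_iff.1 hgN d).1 (hFN d hd hD)) hd'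
  have hall : ∀ r, IsRot q k φ r → (disp φ r).range ∈ F := fun r hr =>
    hNF r (by rw [hN]; exact Subgroup.mem_top r) hr
  exact or_iff_not_imp_left.2 fun hne => hF2 _ (hall r hr) _ (hall r' hr') hne

end Rot

/-- Elements with orthogonal displacements commute in their action. -/
theorem commute_of_orth (h : FormData q φ B) {r r' : R}
    (ho : Orth B (disp φ r).range (disp φ r').range) : φ (r * r') = φ (r' * r) := by
  refine AddMonoidHom.ext fun m => ?_
  show φ (r * r') m = φ (r' * r) m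
  have h1 : φ r (disp φ r' m) = disp φ r' m := h.fixes_of_orth ho ⟨m, rfl⟩
  have h2 : φ r' (disp φ r m) = disp φ r m := h.fixes_of_orth (h.orth_symm ho) ⟨m, rfl⟩
  rw [disp_apply, map_sub] at h1 h2
  rw [end_map_mul_apply, end_map_mul_apply]
  linear_combination (norm := abel) h1 - h2

/-- The elements mapping `D` into itself. -/
def planeStab [Finite M] (φ : R →* AddMonoid.End M) (D : AddSubgroup M) : Subgroup R where
  carrier := {g | ∀ x ∈ D, φ g x ∈ D}
  one_mem' x hx := by rwa [end_map_one_apply]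
  mul_mem' {a b} ha hb x hx := by rw [end_map_mul_apply]; exact ha _ (hb x hx)
  inv_mem' {a} ha x hx := by
    have hinj : Function.Injective (fun y : D => (⟨φ a y, ha y y.2⟩ : D)) := fun y z e =>
      Subtype.ext (end_injective φ a (congrArg Subtype.val e))
    obtain ⟨y, hy⟩ := Finite.injective_iff_surjective.1 hinj ⟨x, hx⟩
    have hy' : φ a y = x := congrArg Subtype.val hy
    rw [← hy', end_inv_apply_apply]
    exact y.2

/-- The action of the stabilizer of `D` on `D`. -/
def planeAct [Finite M] (φ : R →* AddMonoid.End M) (D : AddSubgroup M) :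
    planeStab φ D →* AddMonoid.End D :=
  subAction (φ.comp (planeStab φ D).subtype) D fun r x hx => r.2 x hx

section Plane

variable [Finite M] (h : FormData q φ B) (hqp : q.Prime) (hq : q + 1 = 2 ^ (k + 1)) (hk : 1 ≤ k)
  [Finite R] (hR : IsPGroup 2 R) {s : R} (hs : IsRot q k φ s)
include h hqp hq hk hR hs

theorem trivial_of_fix {g : R} (hg : g ∈ planeStab φ (disp φ s).range) {v : M}
    (hv : v ∈ (disp φ s).range) (hv0 : v ≠ 0) (hfix : φ g v = v) :
    ∀ x ∈ (disp φ s).range, φ g x = x := by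
  set D := (disp φ s).range with hD
  let X : AddSubgroup M := D ⊓ (B v).ker
  have hXne : X ≠ D := fun e => hv0 (hs.eq_zero_of_orth h hqp hq hk hv fun y hy => by
    rw [h.skew, AddMonoidHom.mem_ker.1 (show y ∈ X by rw [e]; exact hy).2, neg_zero])
  have hXle : Nat.card X ≤ q := by
    by_contra hgt
    exact hXne (eq_of_card_gt hqp hs.1 inf_le_left (not_le.1 hgt))
  have hvcard : Nat.card (AddSubgroup.zmultiples v) = q := by
    rw [Nat.card_zmultiples]
    haveI := Fact.mk hqp
    exact addOrderOf_eq_prime (h.tors v) hv0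
  have hXeq : AddSubgroup.zmultiples v = X :=
    AddSubgroup.eq_of_le_of_card_ge (AddSubgroup.zmultiples_le.2
      ⟨hv, AddMonoidHom.mem_ker.2 (h.alt v)⟩) (hXle.trans hvcard.ge)
  intro x hx
  have hd : φ g x - x ∈ X := by
    refine ⟨D.sub_mem (hg x hx) hx, AddMonoidHom.mem_ker.2 ?_⟩
    rw [map_sub]
    conv_lhs => arg 1; rw [← hfix, h.inv]
    rw [sub_self]
  rw [← hXeq] at hd
  obtain ⟨i, hi⟩ := AddSubgroup.mem_zmultiples_iff.1 hd
  have hfix' : φ g (φ g x - x) = φ g x - x := by rw [← hi, map_zsmul, hfix]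
  have hn : ∀ n : ℕ, φ (g ^ n) x = x + n • (φ g x - x) := by
    intro n
    induction n with
    | zero => rw [pow_zero, end_map_one_apply, zero_nsmul, add_zero]
    | succ n ih =>
      rw [pow_succ', end_map_mul_apply, ih, map_add, map_nsmul, hfix', succ_nsmul]
      abel
  obtain ⟨j, hj⟩ := hR g
  have h1 := hn (2 ^ j)
  rw [hj, end_map_one_apply, left_eq_add] at h1
  exact sub_eq_zero.1 (h.eq_zero_of_two_pow (FormData.odd_of_eq h hq) h1)

theorem mem_planeStab_self : s ∈ planeStab φ (disp φ s).range := fun _ hx => disp_invariant φ s hx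

theorem planeAct_index_dvd : (planeAct φ (disp φ s).range).ker.index ∣ 2 ^ (k + 2) := by
  classical
  set D := (disp φ s).range with hD
  set K := (planeAct φ D).ker with hK
  let ψ : planeStab φ D ⧸ K →* AddMonoid.End D :=
    QuotientGroup.lift K (planeAct φ D) le_rfl
  have hψ : ∀ a : planeStab φ D, ψ a = planeAct φ D a := fun _ => rfl
  letI : MulAction (planeStab φ D ⧸ K) {x : D // x ≠ 0} :=
    { smul := fun g x => ⟨ψ g x.1, fun e => x.2 (by
        have := congrArg (ψ g⁻¹) e
        rwa [← end_map_mul_apply, inv_mul_cancel, end_map_one_apply, map_zero] at this)⟩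
      one_smul := fun x => Subtype.ext (end_map_one_apply ψ _)
      mul_smul := fun a b x => Subtype.ext (end_map_mul_apply ψ a b _) }
  letI := Fintype.ofFinite (planeStab φ D ⧸ K)
  letI := Fintype.ofFinite (Quotient (orbitRel (planeStab φ D ⧸ K) {x : D // x ≠ 0}))
  letI : ∀ g : planeStab φ D ⧸ K, Fintype (fixedBy {x : D // x ≠ 0} g) := fun g => Fintype.ofFinite _
  have hb := sum_card_fixedBy_eq_card_orbits_mul_card_group (planeStab φ D ⧸ K) {x : D // x ≠ 0}
  rw [Finset.sum_eq_single 1 (fun g _ hg => ?_) (fun h1 => absurd (Finset.mem_univ _) h1)] at hb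
  rotate_left
  · rw [Fintype.card_eq_zero_iff]
    refine ⟨fun x => hg ?_⟩
    obtain ⟨⟨⟨v, hv⟩, hv0⟩, hfx⟩ := x
    obtain ⟨a, rfl⟩ := QuotientGroup.mk'_surjective K g
    refine (QuotientGroup.eq_one_iff a).2 (MonoidHom.mem_ker.2 (end_eq_one_iff.2 fun y => ?_))
    exact Subtype.ext (trivial_of_fix h hqp hq hk hR hs a.2 hv
      (fun e => hv0 (Subtype.ext e))
      (congrArg Subtype.val (congrArg Subtype.val hfx)) y y.2)
  have hX : Fintype.card (fixedBy {x : D // x ≠ 0} (1 : planeStab φ D ⧸ K)) = q ^ 2 - 1 := by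
    haveI := Fintype.ofFinite D
    rw [Fintype.card_congr (β := {x : D // x ≠ 0}) ⟨fun x => x.1,
      fun x => ⟨x, one_smul (planeStab φ D ⧸ K) x⟩, fun _ => rfl, fun _ => rfl⟩,
      Fintype.card_subtype_compl, Fintype.card_subtype_eq, ← Nat.card_eq_fintype_card, hs.1]
  rw [hX] at hb
  have hdvd : K.index ∣ q ^ 2 - 1 := ⟨_, by
    rw [hb, Subgroup.index_eq_card, Nat.card_eq_fintype_card, mul_comm]⟩
  haveI := Fact.mk Nat.prime_two
  obtain ⟨a, ha⟩ := (hR.to_subgroup (planeStab φ D)).index K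
  have hfac : q ^ 2 - 1 = (2 ^ k - 1) * 2 ^ (k + 2) := by
    obtain ⟨c, hc⟩ : ∃ c, 2 ^ k = c + 1 := ⟨2 ^ k - 1, by have := Nat.two_pow_pos k; omega⟩
    rw [pow_succ, hc] at hq
    have hq' : q = 2 * c + 1 := by omega
    rw [pow_add, hc, hq', Nat.add_sub_cancel]
    have : (2 * c + 1) ^ 2 = c * ((c + 1) * 2 ^ 2) + 1 := by ring
    omega
  rw [hfac, ha] at hdvd
  rw [ha]
  refine (Nat.Coprime.pow_left _ (Nat.coprime_two_left.2 ?_)).dvd_of_dvd_mul_left hdvd
  exact ⟨2 ^ (k - 1) - 1, by
    have := Nat.two_pow_pos (k - 1)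
    have : 2 ^ k = 2 ^ (k - 1) * 2 := by rw [← pow_succ, show k - 1 + 1 = k by omega]
    omega⟩

/-- An element fixing `D` pointwise outside `D` commutes with `s` if it does so on `D`. -/
theorem commute_of_eq_plane {r : R} (hr : IsRot q k φ r)
    (he : (disp φ r).range = (disp φ s).range)
    (hc : ∀ x ∈ (disp φ s).range, φ s (φ r x) = φ r (φ s x)) : φ (s * r) = φ (r * s) := by
  refine AddMonoidHom.ext fun m => ?_
  show φ (s * r) m = φ (r * s) m
  obtain ⟨d, hd, f, hf, rfl⟩ := hs.exists_decomp h hqp hq hk m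
  have hf' : φ r f = f := (h.fix_iff r f).2 fun x hx => (h.fix_iff s f).1 hf x (he ▸ hx)
  rw [end_map_mul_apply, end_map_mul_apply]
  simp only [map_add, hf, hf', hc d hd]

theorem conj_commute_on_plane {b : R} (he : ∀ x ∈ (disp φ s).range, φ b x ∈ (disp φ s).range) :
    ∀ x ∈ (disp φ s).range, φ s (φ (b * s * b⁻¹) x) = φ (b * s * b⁻¹) (φ s x) := by
  set D := (disp φ s).range with hD
  set K := (planeAct φ D).ker with hK
  let s' : planeStab φ D ⧸ K :=
    ((⟨s, mem_planeStab_self h hqp hq hk hR hs⟩ : planeStab φ D) : planeStab φ D ⧸ K)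
  let b' : planeStab φ D ⧸ K := ((⟨b, he⟩ : planeStab φ D) : planeStab φ D ⧸ K)
  haveI := Fact.mk Nat.prime_two
  have hord : orderOf s' = 2 ^ (k + 1) := by
    refine orderOf_eq_prime_pow (fun e => ?_) ?_
    · obtain ⟨x, hx, hx0⟩ := hs.exists_ne_zero h hqp hq hk
      rw [← QuotientGroup.mk_pow, QuotientGroup.eq_one_iff, MonoidHom.mem_ker, end_eq_one_iff] at e
      have h2 : φ (s ^ 2 ^ k) x = x := congrArg Subtype.val (e ⟨x, hx⟩)
      rw [hs.2 x hx] at h2
      exact hx0 (h.eq_zero_of_eq_neg hq h2.symm)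
    · rw [← QuotientGroup.mk_pow, QuotientGroup.eq_one_iff, MonoidHom.mem_ker, end_eq_one_iff]
      exact fun x => Subtype.ext (hs.pow_smul_eq h hqp hq hk x.2)
  have hidx : (Subgroup.zpowers s').index ∣ 2 := by
    have h1 := planeAct_index_dvd h hqp hq hk hR hs
    rw [← hK, Subgroup.index_eq_card, ← Subgroup.card_mul_index (Subgroup.zpowers s'),
      Nat.card_zpowers, hord, pow_succ 2 (k + 1)] at h1
    exact (Nat.mul_dvd_mul_iff_left (Nat.two_pow_pos _)).1 h1
  have hnorm : (Subgroup.zpowers s').Normal := by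
    rcases (Nat.dvd_prime Nat.prime_two).1 hidx with h1 | h1
    · rw [Subgroup.index_eq_one.1 h1]; infer_instance
    · exact Subgroup.normal_of_index_eq_two h1
  obtain ⟨j, hj⟩ := hnorm.conj_mem s' (Subgroup.mem_zpowers s') b'
  have hcomm : s' * (b' * s' * b'⁻¹) = b' * s' * b'⁻¹ * s' := by
    simp only at hj
    rw [← hj, ← zpow_one_add, ← zpow_add_one, add_comm]
  intro x hx
  have e1 := QuotientGroup.eq.1 (show
    (((⟨s, mem_planeStab_self h hqp hq hk hR hs⟩ * (⟨b, he⟩ *
      ⟨s, mem_planeStab_self h hqp hq hk hR hs⟩ * ⟨b, he⟩⁻¹)) : planeStab φ D) :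
        planeStab φ D ⧸ K) = (((⟨b, he⟩ *
      ⟨s, mem_planeStab_self h hqp hq hk hR hs⟩ * ⟨b, he⟩⁻¹ *
      ⟨s, mem_planeStab_self h hqp hq hk hR hs⟩) : planeStab φ D) : planeStab φ D ⧸ K) from hcomm)
  rw [MonoidHom.mem_ker, end_eq_one_iff] at e1
  have e2 := congrArg Subtype.val (e1 ⟨x, hx⟩)
  change φ ((s * (b * s * b⁻¹))⁻¹ * (b * s * b⁻¹ * s)) x = x at e2
  rw [end_map_mul_apply] at e2
  have e3 := congrArg (φ (s * (b * s * b⁻¹))) e2
  rw [end_apply_inv_apply, end_map_mul_apply, end_map_mul_apply _ s] at e3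
  exact e3.symm

end Plane

variable [Finite M] [Finite R]

/-- In a `2`-group a rotation commutes in its action with its commutators. -/
theorem rot_conj_commute [hqp : Fact q.Prime] (hR : IsPGroup 2 R) (h : FormData q φ B)
    (hq : q + 1 = 2 ^ (k + 1)) (hk : 2 ≤ k) {s b : R} (hs : IsRot q k φ s) :
    φ (s * ⁅b, s⁆) = φ (⁅b, s⁆ * s) := by
  have hk1 : 1 ≤ k := by omega
  obtain ⟨he, hs'⟩ := hs.conj h hqp.out hq hk1 b
  have hc : φ (s * (b * s * b⁻¹)) = φ (b * s * b⁻¹ * s) := by
    rcases planes_eq_or_orth h hqp.out hq hk1 hR hs hs' with heq | ho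
    · refine commute_of_eq_plane h hqp.out hq hk1 hR hs hs' heq.symm
        (conj_commute_on_plane h hqp.out hq hk1 hR hs fun x hx => ?_)
      rw [heq, he]
      exact ⟨x, hx, rfl⟩
    · exact commute_of_orth h ho
  calc φ (s * ⁅b, s⁆) = φ (s * (b * s * b⁻¹)) * φ s⁻¹ := by
        rw [← map_mul, commutatorElement_def]; group
    _ = φ (b * s * b⁻¹ * s) * φ s⁻¹ := by rw [hc]
    _ = φ (⁅b, s⁆ * s) := by rw [← map_mul, commutatorElement_def]; group

set_option maxHeartbeats 800000 in
/-- For `q = 3` a rotation commutes in its action with a product of involutions making an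
involution or a rotation with it. -/
theorem rot_commute_of_involutions (hR : IsPGroup 2 R) (h : FormData 3 φ B) {s b : R}
    (hs : IsRot 3 1 φ s) (hb : b ∈ Subgroup.closure {t : R | φ (t ^ 2) = 1})
    (hbs : φ ((b * s) ^ 2) = 1 ∨ IsRot 3 1 φ (b * s)) : φ (b * s) = φ (s * b) := by
  classical
  have hqp : Nat.Prime 3 := Nat.prime_three
  have hq : 3 + 1 = 2 ^ (1 + 1) := rfl
  haveI := Fact.mk Nat.prime_two
  obtain ⟨x0, hx0, hx00⟩ := hs.exists_ne_zero h hqp hq le_rfl
  set D := (disp φ s).range with hD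
  let N0 : Subgroup (planeStab φ D) :=
    { carrier := {g | (∀ x ∈ D, φ (g : R) x = x) ∨ ∀ x ∈ D, φ (g : R) x = -x}
      one_mem' := Or.inl fun x _ => end_map_one_apply φ x
      mul_mem' := by
        rintro a b (ha | ha) (hb | hb)
        · exact Or.inl fun x hx => by
            rw [Subgroup.coe_mul, end_map_mul_apply, hb x hx, ha x hx]
        · exact Or.inr fun x hx => by
            rw [Subgroup.coe_mul, end_map_mul_apply, hb x hx, map_neg, ha x hx]
        · exact Or.inr fun x hx => by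
            rw [Subgroup.coe_mul, end_map_mul_apply, hb x hx, ha x hx]
        · exact Or.inl fun x hx => by
            rw [Subgroup.coe_mul, end_map_mul_apply, hb x hx, map_neg, ha x hx, neg_neg]
      inv_mem' := by
        rintro a (ha | ha)
        · refine Or.inl fun x hx => ?_
          conv_lhs => rw [← ha x hx]
          exact end_inv_apply_apply φ (a : R) x
        · refine Or.inr fun x hx => ?_
          have := congrArg (φ (a : R)⁻¹) (ha x hx)
          rw [end_inv_apply_apply, map_neg] at this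
          rw [Subgroup.coe_inv]
          exact neg_eq_iff_eq_neg.1 this.symm }
  haveI hN0 : N0.Normal := ⟨fun n hn g => by
    have hgi : ∀ x ∈ D, φ (g : R)⁻¹ x ∈ D := (planeStab φ D).inv_mem g.2
    rcases hn with hn | hn
    · refine Or.inl fun x hx => ?_
      rw [Subgroup.coe_mul, Subgroup.coe_mul, Subgroup.coe_inv, end_map_mul_apply,
        end_map_mul_apply, hn _ (hgi x hx), end_apply_inv_apply]
    · refine Or.inr fun x hx => ?_
      rw [Subgroup.coe_mul, Subgroup.coe_mul, Subgroup.coe_inv, end_map_mul_apply,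
        end_map_mul_apply, hn _ (hgi x hx), map_neg, end_apply_inv_apply]⟩
  have hle : (planeAct φ D).ker ≤ N0 := fun g hg => Or.inl fun x hx =>
    congrArg Subtype.val (end_eq_one_iff.1 (MonoidHom.mem_ker.1 hg) ⟨x, hx⟩)
  have hs2 : (⟨s, mem_planeStab_self h hqp hq le_rfl hR hs⟩ : planeStab φ D) ^ 2 ∈ N0 :=
    Or.inr fun x hx => by
      rw [SubgroupClass.coe_pow]
      exact hs.2 x hx
  have hidx : N0.index ∣ 4 := by
    have h1 : (planeAct φ D).ker.index ∣ 2 ^ (1 + 2) :=
      planeAct_index_dvd h hqp hq le_rfl hR hs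
    rw [← Subgroup.relIndex_mul_index hle] at h1
    obtain ⟨a, -, ha⟩ := (Nat.dvd_prime_pow Nat.prime_two).1
      ((dvd_mul_right _ _).trans h1)
    rcases a with _ | a
    · exfalso
      rw [pow_zero, Subgroup.relIndex_eq_one] at ha
      have h3 : φ (s ^ 2) x0 = x0 :=
        congrArg Subtype.val (end_eq_one_iff.1 (MonoidHom.mem_ker.1 (ha hs2)) ⟨x0, hx0⟩)
      rw [show (s ^ 2 : R) = s ^ 2 ^ 1 by rw [pow_one], hs.2 x0 hx0] at h3
      exact hx00 (h.eq_zero_of_eq_neg hq h3.symm)
    · rw [ha, pow_succ', mul_assoc] at h1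
      have h4 := (Nat.mul_dvd_mul_iff_left (show 0 < 2 by norm_num)).1
        (show 2 * (2 ^ a * N0.index) ∣ 2 * 4 from h1)
      exact (dvd_mul_left _ _).trans h4
  have hcomm : ∀ a b : planeStab φ D ⧸ N0, a * b = b * a := by
    obtain ⟨a, ha2, ha⟩ := (Nat.dvd_prime_pow Nat.prime_two).1 (show N0.index ∣ 2 ^ 2 from hidx)
    rw [Subgroup.index_eq_card] at ha
    rcases (show a = 0 ∨ a = 1 ∨ a = 2 by omega) with rfl | rfl | rfl
    · haveI := (Nat.card_eq_one_iff_unique.1 (by rw [ha, pow_zero])).1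
      exact fun a b => Subsingleton.elim _ _
    · rw [pow_one] at ha
      haveI := isCyclic_of_prime_card (α := planeStab φ D ⧸ N0) ha
      exact fun a b => (IsCyclic.isMulCommutative (α := planeStab φ D ⧸ N0)).is_comm.comm a b
    · exact IsPGroup.commutative_of_card_eq_prime_sq ha
  letI : CommGroup (planeStab φ D ⧸ N0) :=
    { (inferInstance : Group (planeStab φ D ⧸ N0)) with mul_comm := hcomm }
  let θ : planeStab φ D →* planeStab φ D ⧸ N0 := QuotientGroup.mk' N0
  -- a rotation with plane `D` is mapped to its class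
  have hrot : ∀ r, IsRot 3 1 φ r → (disp φ r).range = D → ∀ hr : r ∈ planeStab φ D,
      θ.transfer r = θ ⟨r, hr⟩ := by
    intro r hr he hmem
    have hcases : ∀ g : R, (disp φ (g⁻¹ * r * g)).range = D ∨
        ∀ x ∈ D, φ (g⁻¹ * r * g) x = x := by
      intro g
      obtain ⟨-, hc⟩ := hr.conj h hqp hq le_rfl g⁻¹
      rw [inv_inv] at hc
      rcases planes_eq_or_orth h hqp hq le_rfl hR hc hs with e | o
      · exact Or.inl e
      · exact Or.inr fun x hx => h.fixes_of_orth o hx
    have hall : ∀ g : R, g⁻¹ * r * g ∈ planeStab φ D := fun g x hx => by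
      rcases hcases g with e | o
      · rw [← e] at hx ⊢; exact disp_invariant φ _ hx
      · rwa [o x hx]
    refine transfer_eq_self θ hall hmem fun g hg => ?_
    refine (QuotientGroup.eq_one_iff _).2 (Or.inl ?_)
    rcases hcases g with e | o
    · refine absurd ?_ hg
      have hm : D.map (φ g⁻¹ : M →+ M) = D := by
        obtain ⟨e', -⟩ := hr.conj h hqp hq le_rfl g⁻¹
        rw [inv_inv] at e'
        rw [← he, ← e', e, he]
      have hgi : g⁻¹ ∈ planeStab φ D := fun x hx => by
        have hx' : φ g⁻¹ x ∈ D.map (φ g⁻¹ : M →+ M) := ⟨x, hx, rfl⟩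
        rwa [hm] at hx'
      simpa using (planeStab φ D).inv_mem hgi
    · exact o
  -- involutions are killed
  have hinv : ∀ t, φ (t ^ 2) = 1 → θ.transfer t = 1 := by
    intro t ht
    have htriv : ∀ (g : R) (x : M), φ (g⁻¹ * t ^ 2 * g) x = x := fun g x => by
      rw [end_map_mul_apply, end_map_mul_apply, end_eq_one_iff.1 ht, end_inv_apply_apply]
    refine transfer_eq_one θ (fun g x hx => by rwa [htriv]) fun g n hm hn => ?_
    refine (QuotientGroup.eq_one_iff _).2 ?_
    rcases hn with rfl | rfl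
    · set u := g⁻¹ * t ^ 1 * g with hu
      have hu2 : ∀ x, φ u (φ u x) = x := fun x => by
        rw [← end_map_mul_apply, show u * u = g⁻¹ * t ^ 2 * g by rw [hu]; group, htriv]
      by_cases hex : ∀ x ∈ D, φ u x = -x
      · exact Or.inr hex
      push Not at hex
      obtain ⟨x, hx, hne⟩ := hex
      refine Or.inl fun y hy => trivial_of_fix h hqp hq le_rfl hR hs hm
        (D.add_mem hx (hm x hx)) (fun e => hne (eq_neg_of_add_eq_zero_right e)) ?_ y hy
      rw [map_add, hu2, add_comm]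
    · exact Or.inl fun x _ => htriv g x
  have hTb : θ.transfer b = 1 :=
    (Subgroup.closure_le (θ.transfer.ker)).2 (fun t ht => MonoidHom.mem_ker.2 (hinv t ht)) hb
  have hmem : s ∈ planeStab φ D := mem_planeStab_self h hqp hq le_rfl hR hs
  have hTs : θ.transfer s = θ ⟨s, hmem⟩ := hrot s hs rfl hmem
  have hTbs : θ.transfer (b * s) = θ ⟨s, hmem⟩ := by rw [map_mul, hTb, one_mul, hTs]
  have hbs' : IsRot 3 1 φ (b * s) := hbs.resolve_left fun h2 => by
    have h1 := (QuotientGroup.eq_one_iff _).1 (hTbs.symm.trans (hinv _ h2))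
    have h3 := hs.2 x0 hx0
    rw [pow_one, pow_two, end_map_mul_apply] at h3
    rcases h1 with h1 | h1
    · rw [h1 x0 hx0, h1 x0 hx0] at h3
      exact hx00 (h.eq_zero_of_eq_neg hq h3)
    · rw [h1 x0 hx0, map_neg, h1 x0 hx0, neg_neg] at h3
      exact hx00 (h.eq_zero_of_eq_neg hq h3)
  have hc : φ (b * s * s) = φ (s * (b * s)) := by
    rcases planes_eq_or_orth h hqp hq le_rfl hR hbs' hs with e | o
    · have hm : b * s ∈ planeStab φ D := fun x hx => by
        rw [hD, ← e] at hx ⊢; exact disp_invariant φ _ hx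
      have hcl := (hrot _ hbs' e hm).symm.trans hTbs
      have h1 : (⟨s, hmem⟩ : planeStab φ D)⁻¹ * ⟨b * s, hm⟩ ∈ N0 :=
        QuotientGroup.eq.1 hcl.symm
      refine (commute_of_eq_plane h hqp hq le_rfl hR hs hbs' e fun x hx => ?_).symm
      rcases h1 with h1 | h1 <;>
      · have hval : ∀ y ∈ D, φ (b * s) y = φ s (φ (s⁻¹ * (b * s)) y) := fun y _ => by
          rw [← end_map_mul_apply φ s, mul_inv_cancel_left]
        have h1' : ∀ y ∈ D, φ (b * s) y = _ := fun y hy => (hval y hy).trans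
          (congrArg (φ s) (h1 y hy))
        simp only [h1' x hx, h1' _ (disp_invariant φ s hx), map_neg]
    · exact commute_of_orth h o
  calc φ (b * s) = φ (b * s * s) * φ s⁻¹ := by rw [← map_mul, mul_inv_cancel_right]
    _ = φ (s * (b * s)) * φ s⁻¹ := by rw [hc]
    _ = φ (s * b) := by rw [← map_mul]; group

end CfsgLib.TwoLengthExponent
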