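/-
The steps: on every invariant subgroup the products of successive conjugates vanish modulo a
proper invariant subgroup.
-/
import Mathlib
import Cfsg.Agent.Lib.TwoLengthExponent.BlockRot
import Cfsg.Agent.Lib.TwoLengthExponent.Rotation
import Cfsg.Agent.Lib.TwoLengthExponent.Detect
import Cfsg.Agent.Lib.FusionExamples.SmallElements
import Cfsg.Agent.Lib.GrossTwoLength.Main

set_option autoImplicit false
set_option linter.style.haveILetI false
set_option linter.unusedSectionVars false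

open scoped commutatorElement

namespace CfsgLib.TwoLengthExponent

open Cfsg CfsgLib.Cores CfsgLib.HallHigmanExc CfsgLib.GrossTwoLength CfsgLib.CoprimeAction

universe u v w

variable {K : Type u} [Field K] {V : Type v} [AddCommGroup V] [Module K V] {H : Type w} [Group H]

/-- Telescoping a power of a product. -/
theorem pow_mul_inv_step (b s : H) (L : ℕ) :
    (b * s) ^ (2 * L) * (s ^ (2 * L))⁻¹ =
      ((b * s) ^ L * (s ^ L)⁻¹) * (s ^ L * ((b * s) ^ L * (s ^ L)⁻¹) * (s ^ L)⁻¹) := by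
  rw [two_mul, pow_add, pow_add]
  group

/-- A power of a product differs from the power by an element of an invariant subgroup. -/
theorem pow_mul_inv_mem {X : Subgroup H} {x y : H} (hx : x ∈ X)
    (hy : y ∈ Subgroup.normalizer (X : Set H)) : ∀ m : ℕ, (x * y) ^ m * (y ^ m)⁻¹ ∈ X := by
  intro m
  induction m with
  | zero => simp
  | succ m ih =>
    have h := X.mul_mem ih ((Subgroup.mem_normalizer_iff.1 (Subgroup.pow_mem _ hy m) x).1 hx)
    convert h using 1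
    rw [pow_succ (x * y), pow_succ y]
    group

variable [Finite H] {ρ : H →* Module.End K V} {Q : Subgroup H}

/-- Conjugation transports the block kernels. -/
theorem conj_mem_blockSe {g c : H} (hg : g ∈ Subgroup.normalizer (Q : Set H))
    {l l' : centerImage ρ Q →* Kˣ}
    (h : ρ g * blk (centerImage ρ Q) l' = blk (centerImage ρ Q) l * ρ g)
    (hc : c ∈ blockSe ρ Q l') : g * c * g⁻¹ ∈ blockSe ρ Q l := by
  refine ⟨(Subgroup.mem_normalizer_iff.1 hg c).1 hc.1, fun b hb => ?_⟩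
  have hb' : g⁻¹ * b * g ∈ Q := by
    simpa using (Subgroup.mem_normalizer_iff.1 ((Subgroup.normalizer (Q : Set H)).inv_mem hg) b).1 hb
  have hgi : ρ g * blk (centerImage ρ Q) l' * ρ g⁻¹ = blk (centerImage ρ Q) l := by
    rw [h, mul_assoc, (rho_mul_inv g).1, mul_one]
  have key : ∀ u v : H, ρ (g * u * g⁻¹) * ρ (g * v * g⁻¹) * blk (centerImage ρ Q) l =
      ρ g * (ρ u * ρ v * blk (centerImage ρ Q) l') * ρ g⁻¹ := fun u v => by
    rw [← hgi]
    simp only [map_mul, mul_assoc]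
    simp only [← mul_assoc (ρ g⁻¹) (ρ g), (rho_mul_inv g).2, one_mul]
  have hb2 : b = g * (g⁻¹ * b * g) * g⁻¹ := by group
  rw [hb2, key, key, hc.2 _ hb']

/-- Conjugation transports the fixators of the blocks. -/
theorem conj_mem_blockFix (hQn : ∀ g, g ∈ Subgroup.normalizer (Q : Set H)) {g f : H}
    {l l' : centerImage ρ Q →* Kˣ}
    (h : ρ g * blk (centerImage ρ Q) l' = blk (centerImage ρ Q) l * ρ g)
    (hf : f ∈ blockFix ρ Q l') : g * f * g⁻¹ ∈ blockFix ρ Q l := by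
  refine ⟨hQn _, conj_mem_blockStab h hf.2.1, fun a ha => ?_⟩
  have ha' : g⁻¹ * a * g ∈ Q := by
    simpa using (Subgroup.mem_normalizer_iff.1 ((Subgroup.normalizer (Q : Set H)).inv_mem (hQn g)) a).1 ha
  have h1 := conj_mem_blockSe (hQn g) h (hf.2.2 _ ha')
  convert h1 using 1
  group

set_option maxHeartbeats 3200000 in
/-- The steps exist over a group with the short relation. -/
theorem hasSteps_of_relation [IsAlgClosed K] [FiniteDimensional K V] [CharP K 2] [Group.IsSolvable H]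
    (hcore : pCore 2 H = ⊥) (hρ : Function.Injective ρ) {n : ℕ}
    (hrel : ∀ y : H, (∃ k, y ^ 2 ^ k = 1) →
      y ^ 2 ^ (n + 1) = 1 ∧ ∑ i ∈ Finset.range (2 ^ (n + 1)), ρ y ^ i = 0)
    {P N : Subgroup H} (hP : IsPGroup 2 P) (hPN : P ≤ N) (hN : N ≤ Subgroup.normalizer (P : Set H))
    (hz : ∀ y ∈ N, (∃ k, y ^ 2 ^ k = 1) → y ^ 2 ^ n ∈ P) : HasSteps n P N := by
  classical
  haveI h2 : Fact (Nat.Prime 2) := ⟨Nat.prime_two⟩
  intro X hXP hX1 hXN
  have hXp : IsPGroup 2 X := hP.to_le hXP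
  set ΦX := (frattini X).map X.subtype with hΦX
  have hΦle : ΦX ≤ X := Subgroup.map_subtype_le _
  have hΦcomm : ⁅X, X⁆ ≤ ΦX := Subgroup.commutator_le.2 fun a ha b hb =>
    ⟨⁅(⟨a, ha⟩ : X), (⟨b, hb⟩ : X)⁆, CfsgLib.PGroups.commutator_le_frattini hXp
      (Subgroup.commutator_mem_commutator (Subgroup.mem_top _) (Subgroup.mem_top _)),
      map_commutatorElement X.subtype _ _⟩
  have hΦsq : ∀ x ∈ X, x ^ 2 ∈ ΦX := fun x hx =>
    ⟨⟨x, hx⟩ ^ 2, CfsgLib.PGroups.pow_mem_frattini hXp ⟨x, hx⟩, rfl⟩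
  have hΦn : ∀ g ∈ Subgroup.normalizer (X : Set H), ∀ x ∈ ΦX, g * x * g⁻¹ ∈ ΦX := by
    rintro g hg _ ⟨x, hx, rfl⟩
    exact ⟨Subgroup.normalizerMonoidHom X ⟨g, hg⟩ x,
      (Subgroup.characteristic_iff_map_le.1 (inferInstance : (frattini X).Characteristic) _)
        ⟨x, hx, rfl⟩, rfl⟩
  have hgenX : ∀ S ≤ X, ΦX ⊔ S = X → S = X := by
    intro S hS h
    have h2 : S.subgroupOf X ⊔ frattini X = ⊤ := by
      refine Subgroup.map_injective X.subtype_injective ?_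
      rw [Subgroup.map_sup, Subgroup.map_subgroupOf_eq_of_le hS, sup_comm, ← hΦX, h,
        ← MonoidHom.range_eq_map, Subgroup.range_subtype]
    rw [← Subgroup.map_subgroupOf_eq_of_le hS, frattini_nongenerating h2, ← MonoidHom.range_eq_map,
      Subgroup.range_subtype]
  set A := Subgroup.closure {z : H | ∃ y ∈ N, (∃ k, y ^ 2 ^ k = 1) ∧ y ^ 2 ^ n = z} with hA
  have hAP : A ≤ P := (Subgroup.closure_le P).2 fun z ⟨y, hy, hyk, hyz⟩ => hyz ▸ hz y hy hyk
  have hAN : ∀ g ∈ N, ∀ a ∈ A, g * a * g⁻¹ ∈ A := by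
    intro g hg a ha
    induction ha using Subgroup.closure_induction with
    | mem z hz' =>
      obtain ⟨y, hy, ⟨k, hk⟩, rfl⟩ := hz'
      exact Subgroup.subset_closure ⟨g * y * g⁻¹, N.mul_mem (N.mul_mem hg hy) (N.inv_mem hg),
        ⟨k, by rw [conj_pow, hk, mul_one, mul_inv_cancel]⟩, by rw [conj_pow]⟩
    | one => rw [mul_one, mul_inv_cancel]; exact A.one_mem
    | mul a b _ _ ha hb =>
      have h := A.mul_mem ha hb
      convert h using 1
      group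
    | inv a _ ha =>
      have h := A.inv_mem ha
      convert h using 1
      group
  have hyP : ∀ y ∈ N, (∃ k, y ^ 2 ^ k = 1) → IsPGroup 2 (P ⊔ Subgroup.zpowers y : Subgroup H) := by
    intro y hy hyk
    refine IsPGroup.to_sup_of_normal_left' hP ?_ (Subgroup.zpowers_le.2 (hN hy))
    obtain ⟨k, hk⟩ := hyk
    obtain ⟨i, -, hi⟩ := (Nat.dvd_prime_pow Nat.prime_two).1 (orderOf_dvd_of_pow_eq_one hk)
    exact IsPGroup.of_card (n := i) (by rw [Nat.card_zpowers, hi])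
  have hxy : ∀ y ∈ N, (∃ k, y ^ 2 ^ k = 1) → ∀ x ∈ X, x * y ∈ N ∧ ∃ k, (x * y) ^ 2 ^ k = 1 := by
    intro y hy hyk x hx
    refine ⟨N.mul_mem (hPN (hXP hx)) hy, ?_⟩
    obtain ⟨k, hk⟩ := hyP y hy hyk ⟨x * y, Subgroup.mul_mem_sup (hXP hx) (Subgroup.mem_zpowers y)⟩
    exact ⟨k, congrArg Subtype.val hk⟩
  by_cases hXA : X ≤ A
  swap
  · refine ⟨ΦX ⊔ (X ⊓ A), lt_of_le_of_ne (sup_le hΦle inf_le_left) fun h => hXA ?_, fun g hg => ?_,
      hΦcomm.trans le_sup_left, fun x hx => Subgroup.mem_sup_left (hΦsq x hx), ?_⟩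
    · exact (hgenX _ inf_le_left h).ge.trans inf_le_right
    · refine mem_normalizer_of_conj_mem fun x hx => ?_
      have hle : ΦX ⊔ (X ⊓ A) ≤ (ΦX ⊔ (X ⊓ A)).comap (MulAut.conj g).toMonoidHom :=
        sup_le (fun a ha => Subgroup.mem_sup_left (hΦn g (hXN hg) a ha)) fun a ha =>
          Subgroup.mem_sup_right ⟨(Subgroup.mem_normalizer_iff.1 (hXN hg) a).1 ha.1, hAN g hg a ha.2⟩
      exact hle hx
    · intro y hy hyk x hx
      obtain ⟨hxyN, hxyk⟩ := hxy y hy hyk x hx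
      exact Subgroup.mem_sup_right ⟨pow_mul_inv_mem hx (hXN hy) _,
        A.mul_mem (Subgroup.subset_closure ⟨_, hxyN, hxyk, rfl⟩)
          (A.inv_mem (Subgroup.subset_closure ⟨_, hy, hyk, rfl⟩))⟩
  -- the case of a subgroup fixing all blocks
  have hQex : ∀ q : {q : ℕ // q.Prime}, ∃ Q : Subgroup H,
      (∀ g, g ∈ Subgroup.normalizer (Q : Set H)) ∧ IsPGroup q.1 Q ∧
      ⁅Q, Q⁆ ≤ Subgroup.centralizer (Q : Set H) ∧
      (∀ g ∈ Q, g ^ q.1 ∈ Subgroup.centralizer (Q : Set H)) ∧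
      ∀ x : H, (orderOf x).Coprime q.1 → x ∈ Subgroup.centralizer (Q : Set H) →
        x ∈ Subgroup.centralizer (pCore q.1 H : Set H) := fun q =>
    haveI : Fact q.1.Prime := ⟨q.2⟩
    exists_detecting q.1
  choose Qf hQn hQp hQcl hQpow hQdet using hQex
  have hqK : ∀ q : {q : ℕ // q.Prime}, q.1 ≠ 2 → ((q.1 : ℕ) : K) ≠ 0 := fun q hq2 => by
    rw [Ne, CharP.cast_eq_zero_iff K 2 q.1]
    exact fun h => hq2 ((Nat.prime_dvd_prime_iff_eq Nat.prime_two q.2).1 h).symm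
  have hAstab : ∀ q : {q : ℕ // q.Prime}, q.1 ≠ 2 → ∀ l : centerImage ρ (Qf q) →* Kˣ,
      A ≤ blockStab ρ (blk (centerImage ρ (Qf q)) l) := by
    intro q hq2 l
    haveI : Fact q.1.Prime := ⟨q.2⟩
    refine (Subgroup.closure_le _).2 fun z ⟨y, hy, hyk, hyz⟩ => ?_
    rw [← hyz]
    show Commute (ρ (y ^ 2 ^ n)) _
    by_cases hl : blk (centerImage ρ (Qf q)) l = 0
    · rw [hl]; exact Commute.zero_right _
    · exact pow_commute_blk (hQp q) (hqK q hq2) (hQn q y) (hrel y hyk) hl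
  let Z : ∀ q : {q : ℕ // q.Prime}, (centerImage ρ (Qf q) →* Kˣ) → Subgroup H :=
    fun q l => ΦX ⊔ (X ⊓ blockFix ρ (Qf q) l)
  have hZX : ∀ q l, Z q l ≤ X := fun q l => sup_le hΦle inf_le_left
  have htrans : ∀ q, ∀ g ∈ N, ∀ l l',
      ρ g * blk (centerImage ρ (Qf q)) l' = blk (centerImage ρ (Qf q)) l * ρ g →
      ∀ x ∈ Z q l', g * x * g⁻¹ ∈ Z q l := by
    intro q g hg l l' h x hx
    have hle : Z q l' ≤ (Z q l).comap (MulAut.conj g).toMonoidHom :=
      sup_le (fun a ha => Subgroup.mem_sup_left (hΦn g (hXN hg) a ha)) fun a ha =>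
        Subgroup.mem_sup_right ⟨(Subgroup.mem_normalizer_iff.1 (hXN hg) a).1 ha.1,
          conj_mem_blockFix (hQn q) h ha.2⟩
    exact hle hx
  let Y : Subgroup H :=
    { carrier := {x | x ∈ X ∧ ∀ q : {q : ℕ // q.Prime}, q.1 ≠ 2 → ∀ l, x ∈ Z q l}
      one_mem' := ⟨X.one_mem, fun q _ l => (Z q l).one_mem⟩
      mul_mem' := fun {a b} ha hb =>
        ⟨X.mul_mem ha.1 hb.1, fun q hq l => (Z q l).mul_mem (ha.2 q hq l) (hb.2 q hq l)⟩
      inv_mem' := fun {a} ha => ⟨X.inv_mem ha.1, fun q hq l => (Z q l).inv_mem (ha.2 q hq l)⟩ }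
  have hΦY : ΦX ≤ Y := fun x hx => ⟨hΦle hx, fun q _ l => Subgroup.mem_sup_left hx⟩
  refine ⟨Y, lt_of_le_of_ne (fun x hx => hx.1) ?_, fun g hg => ?_, hΦcomm.trans hΦY,
    fun x hx => hΦY (hΦsq x hx), ?_⟩
  · -- properness
    intro hYX
    have hall : ∀ q : {q : ℕ // q.Prime}, q.1 ≠ 2 → ∀ l, X ≤ blockFix ρ (Qf q) l := fun q hq l =>
      (hgenX _ inf_le_left (le_antisymm (hZX q l) fun x hx => (hYX.ge hx).2 q hq l)).ge.trans
        inf_le_right
    refine hX1 ((Subgroup.eq_bot_iff_forall X).2 fun x hx => ?_)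
    obtain ⟨j, hj⟩ := hXp ⟨x, hx⟩
    have hxj : x ^ 2 ^ j = 1 := congrArg Subtype.val hj
    refine eq_one_of_centralizes_cores hcore ⟨j, hxj⟩ fun r hr => ?_
    haveI : Fact r.Prime := ⟨hr⟩
    rcases eq_or_ne r 2 with rfl | hr2
    · rw [hcore, Subgroup.coe_bot, Subgroup.mem_centralizer_iff]
      rintro g rfl
      rw [one_mul, mul_one]
    set q : {q : ℕ // q.Prime} := ⟨r, hr⟩
    have hcopr : (2 ^ j).Coprime r :=
      Nat.Coprime.pow_left j ((Nat.coprime_primes Nat.prime_two hr).2 (Ne.symm hr2))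
    refine hQdet q x (Nat.Coprime.coprime_dvd_left (orderOf_dvd_of_pow_eq_one hxj) hcopr) ?_
    obtain ⟨_, hsum⟩ := exists_sum_blk (K := K) (centerImage ρ (Qf q))
      (card_centerImage_ne_zero (hQp q) (hqK q hr2))
    have hxe := fun l => (hall q hr2 l hx).2.1
    have hfixc : ∀ z ∈ Qf q ⊓ Subgroup.centralizer (Qf q : Set H), x * z * x⁻¹ = z := by
      intro z hz'
      refine hρ ?_
      rw [← mul_one (ρ (x * z * x⁻¹)), ← mul_one (ρ z), ← hsum, Finset.mul_sum, Finset.mul_sum]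
      refine Finset.sum_congr rfl fun l _ => ?_
      obtain ⟨c, hc⟩ : ∃ c : K, ρ z * blk (centerImage ρ (Qf q)) l = c • blk (centerImage ρ (Qf q)) l :=
        ⟨_, mul_blk (centerImage ρ (Qf q)) l ⟨_, Subgroup.mem_map_of_mem ρ.toHomUnits hz'⟩⟩
      have hxl : Commute (ρ x) (blk (centerImage ρ (Qf q)) l) := hxe l
      rw [map_mul, map_mul, mul_assoc, (commute_inv hxl).eq, mul_assoc, ← mul_assoc (ρ z), hc,
        smul_mul_assoc, mul_smul_comm, ← mul_assoc, hxl.eq, mul_assoc, (rho_mul_inv x).1, mul_one]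
    rw [Subgroup.mem_centralizer_iff]
    intro g hg
    set a : MulAut (Qf q) := Subgroup.normalizerMonoidHom (Qf q) ⟨x, hQn q x⟩ with ha
    have haj : a ^ 2 ^ j = 1 := by
      rw [ha, ← map_pow]
      refine (congrArg _ (Subtype.ext ?_)).trans (map_one (Subgroup.normalizerMonoidHom (Qf q)))
      rw [SubmonoidClass.coe_pow]; exact hxj
    set c : Qf q := (⟨g, hg⟩ : Qf q)⁻¹ * a ⟨g, hg⟩ with hc
    have hcG : (c : H) = g⁻¹ * (x * g * x⁻¹) := rfl
    have hcc : (c : H) ∈ Subgroup.centralizer (Qf q : Set H) := by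
      rw [Subgroup.mem_centralizer_iff]
      intro b hb
      refine hρ ?_
      rw [map_mul, map_mul, ← mul_one (ρ b * ρ (c : H)), ← mul_one (ρ (c : H) * ρ b), ← hsum,
        Finset.mul_sum, Finset.mul_sum]
      refine Finset.sum_congr rfl fun l _ => ?_
      exact (((hall q hr2 l hx).2.2 g hg).2 b hb).symm
    have hfix := CfsgLib.FusionExamples.eq_of_stable (hQp q) a haj hcopr (x := ⟨g, hg⟩)
      (Subtype.ext (hfixc _ ⟨c.2, hcc⟩))
    have h9 : x * g * x⁻¹ = g := congrArg Subtype.val hfix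
    exact (mul_inv_eq_iff_eq_mul.1 h9).symm
  · refine mem_normalizer_of_conj_mem fun x hx => ⟨(Subgroup.mem_normalizer_iff.1 (hXN hg) x).1 hx.1,
      fun q hq l => ?_⟩
    haveI : Fact q.1.Prime := ⟨q.2⟩
    obtain ⟨l', hl'⟩ := exists_conj_blk l (hQn q g)
    exact htrans q g hg l l' hl' x (hx.2 q hq l')
  -- the norm
  intro y hy hyk x hx
  refine ⟨pow_mul_inv_mem hx (hXN hy) _, fun q hq l => ?_⟩
  haveI : Fact q.1.Prime := ⟨q.2⟩
  set e := blk (centerImage ρ (Qf q)) l with he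
  by_cases hl : e = 0
  · refine Subgroup.mem_sup_right ⟨pow_mul_inv_mem hx (hXN hy) _, hQn q _,
      show Commute _ _ by rw [← he, hl]; exact Commute.zero_right _, fun a ha => ⟨?_, fun b _ => ?_⟩⟩
    · exact (Qf q).mul_mem ((Qf q).inv_mem ha) ((Subgroup.mem_normalizer_iff.1 (hQn q _) a).1 ha)
    · rw [← he, hl, mul_zero, mul_zero]
  obtain ⟨M, _, _, mk, φ, B, hmks, hmk, hmk0, hφ, hB0, hker, hdata⟩ :=
    exists_block_module (q := q.1) (hQcl q) (hQpow q) (hQn q) l hl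
  have hXe : X ≤ blockStab ρ e := hXA.trans (hAstab q hq l)
  have hZn : ∀ g ∈ N, Commute (ρ g) e → g ∈ Subgroup.normalizer (Z q l : Set H) := fun g hg hge =>
    mem_normalizer_of_conj_mem fun x hx => htrans q g hg l l hge.eq x hx
  set Zs := (Z q l).subgroupOf X with hZs
  haveI hZsn : Zs.Normal := ⟨fun a ha g =>
    (Subgroup.mem_normalizer_iff.1 (hZn g (hPN (hXP g.2)) (hXe g.2)) _).1 ha⟩
  have hmem : ∀ u : X, (u : X ⧸ Zs) = 1 ↔ (u : H) ∈ Z q l := fun u => QuotientGroup.eq_one_iff u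
  have hEcomm : ∀ a b : X ⧸ Zs, a * b = b * a := fun a b => by
    induction a using QuotientGroup.induction_on with | _ a =>
    induction b using QuotientGroup.induction_on with | _ b =>
    rw [← commutatorElement_eq_one_iff_mul_comm]
    refine (hmem ⁅a, b⁆).2 (Subgroup.mem_sup_left ?_)
    rw [show ((⁅a, b⁆ : X) : H) = ⁅(a : H), (b : H)⁆ from map_commutatorElement X.subtype a b]
    exact hΦcomm (Subgroup.commutator_mem_commutator a.2 b.2)
  have hEsq : ∀ a : X ⧸ Zs, a * a = 1 := fun a => by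
    induction a using QuotientGroup.induction_on with | _ a =>
    rw [← QuotientGroup.mk_mul, hmem, Subgroup.coe_mul, ← pow_two]
    exact Subgroup.mem_sup_left (hΦsq a a.2)
  suffices key : ∀ y ∈ N, (∃ k, y ^ 2 ^ k = 1) → ∀ x ∈ X, y ^ 2 ^ n ∉ blockFix ρ (Qf q) l →
      (x * y) ^ 2 ^ n * (y ^ 2 ^ n)⁻¹ ∈ Z q l by
    obtain ⟨hxyN, hxyk⟩ := hxy y hy hyk x hx
    by_cases h1 : y ^ 2 ^ n ∈ blockFix ρ (Qf q) l
    · by_cases h2 : (x * y) ^ 2 ^ n ∈ blockFix ρ (Qf q) l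
      · exact Subgroup.mem_sup_right ⟨pow_mul_inv_mem hx (hXN hy) _,
          (blockFix ρ (Qf q) l).mul_mem h2 ((blockFix ρ (Qf q) l).inv_mem h1)⟩
      · have h3 := (Z q l).inv_mem (key _ hxyN hxyk x⁻¹ (X.inv_mem hx) h2)
        rwa [inv_mul_cancel_left, mul_inv_rev, inv_inv] at h3
    · exact key y hy hyk x hx h1
  clear hx hyk hy x y
  intro y hy hyk x hx hnot
  obtain ⟨t, k, hc, hnk, hk1, hqk, hrot⟩ := exists_rot hq (hQp q) (hQcl q) (hQn q) (hrel y hyk) hl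
    hmks hmk hmk0 hφ hB0 hdata hnot
  set σ0 := y ^ 2 ^ t with hσ0
  set b := (x * y) ^ 2 ^ t * σ0⁻¹ with hb
  have hbX : b ∈ X := pow_mul_inv_mem hx (hXN hy) _
  set R0 := (P ⊔ Subgroup.zpowers y) ⊓ blockStab ρ e with hR0
  have hR0p : IsPGroup 2 R0 := (hyP y hy hyk).to_le inf_le_left
  let φR : R0 →* AddMonoid.End M := φ.comp (Subgroup.inclusion inf_le_right)
  have hdataR : FormData q.1 φR B := ⟨hdata.tors, hdata.alt, hdata.nondeg, fun r => hdata.inv _⟩
  have hσR : σ0 ∈ R0 := ⟨Subgroup.mem_sup_right (Subgroup.pow_mem _ (Subgroup.mem_zpowers y) _), hc⟩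
  have hXR : X ≤ R0 := le_inf (hXP.trans le_sup_left) hXe
  set sR : R0 := ⟨σ0, hσR⟩
  have hrotR : IsRot q.1 k φR sR := hrot
  have hσN : σ0 ∈ N := N.pow_mem hy _
  have hσX : ∀ u ∈ X, σ0 * u * σ0⁻¹ ∈ X := fun u hu =>
    (Subgroup.mem_normalizer_iff.1 (hXN hσN) u).1 hu
  have hσZ : σ0 ∈ Subgroup.normalizer (Z q l : Set H) := hZn σ0 hσN hc
  have hσZ' : ∀ (L : ℕ), ∀ u ∈ Z q l, σ0 ^ L * u * (σ0 ^ L)⁻¹ ∈ Z q l := fun L u hu =>
    (Subgroup.mem_normalizer_iff.1 (Subgroup.pow_mem _ hσZ L) u).1 hu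
  let cX : X → X := fun u => ⟨σ0 * u * σ0⁻¹, hσX u u.2⟩
  let bX : X := ⟨b, hbX⟩
  -- equality in the module gives a congruence
  have hφeq : ∀ (u v : X) (r r' : R0), φR r = φR r' → (r : H) * (r' : H)⁻¹ = (u : H) * (v : H)⁻¹ →
      (u : X ⧸ Zs) = v := by
    intro u v r r' h hval
    rw [← mul_inv_eq_one, ← QuotientGroup.mk_inv, ← QuotientGroup.mk_mul, hmem]
    refine Subgroup.mem_sup_right ⟨(u * v⁻¹).2, ?_⟩
    rw [Subgroup.coe_mul, Subgroup.coe_inv, ← hval]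
    exact (hker (Subgroup.inclusion inf_le_right (r * r'⁻¹))).1
      (show φR (r * r'⁻¹) = 1 by rw [map_mul, h, ← map_mul, mul_inv_cancel, map_one])
  have hd : ∀ L, (b * σ0) ^ L * (σ0 ^ L)⁻¹ ∈ X := pow_mul_inv_mem hbX (hXN hσN)
  have hbσ : b * σ0 = (x * y) ^ 2 ^ t := inv_mul_cancel_right _ _
  have hwb : (x * y) ^ 2 ^ n * (y ^ 2 ^ n)⁻¹ = (b * σ0) ^ 2 ^ k * (σ0 ^ 2 ^ k)⁻¹ := by
    rw [hbσ, hσ0, ← pow_mul, ← pow_mul, ← pow_add, ← hnk]
  rw [hwb]
  rcases Nat.lt_or_ge k 2 with hk | hk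
  · obtain rfl : k = 1 := by omega
    have hq3 : q.1 = 3 := by omega
    set bR : R0 := ⟨b, hXR hbX⟩
    have hbmem : bR ∈ Subgroup.closure {r : R0 | φR (r ^ 2) = 1} := by
      have hle : A ≤ (Subgroup.closure {r : R0 | φR (r ^ 2) = 1}).map R0.subtype := by
        refine (Subgroup.closure_le _).2 fun z ⟨y', hy', hyk', hyz⟩ => ?_
        have hzA : z ∈ A := Subgroup.subset_closure ⟨y', hy', hyk', hyz⟩
        refine ⟨⟨z, Subgroup.mem_sup_left (hAP hzA), hAstab q hq l hzA⟩, Subgroup.subset_closure ?_, rfl⟩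
        show φR (_ ^ 2) = 1
        rw [show (⟨z, Subgroup.mem_sup_left (hAP hzA), hAstab q hq l hzA⟩ : R0) ^ 2 = 1 from
          Subtype.ext (by
            rw [SubmonoidClass.coe_pow]
            show z ^ 2 = 1
            rw [← hyz, ← pow_mul, ← pow_succ]; exact (hrel y' hyk').1), map_one]
      obtain ⟨r, hr, hr'⟩ := hle (hXA hbX)
      rwa [show bR = r from Subtype.ext hr'.symm]
    obtain ⟨hxyN, hxyk⟩ := hxy y hy hyk x hx
    have halt : φR ((bR * sR) ^ 2) = 1 ∨ IsRot q.1 1 φR (bR * sR) := by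
      by_cases h2 : (x * y) ^ 2 ^ n ∈ blockFix ρ (Qf q) l
      · left
        refine (hker _).2 ?_
        show (b * σ0) ^ 2 ∈ _
        rwa [hbσ, ← pow_mul, ← pow_succ, ← hnk]
      · right
        obtain ⟨t', k', hc', hnk', -, hqk', hrot'⟩ := exists_rot hq (hQp q) (hQcl q) (hQn q)
          (hrel _ hxyk) hl hmks hmk hmk0 hφ hB0 hdata h2
        have hk' : k' + 1 = 1 + 1 := Nat.pow_right_injective le_rfl (hqk'.symm.trans hqk)
        obtain rfl : k' = 1 := by omega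
        obtain rfl : t' = t := by omega
        have heq : (Subgroup.inclusion inf_le_right (bR * sR) : blockStab ρ e) = ⟨_, hc'⟩ :=
          Subtype.ext hbσ
        show Nat.card (disp φ (Subgroup.inclusion inf_le_right (bR * sR))).range = _ ∧
          ∀ w ∈ (disp φ (Subgroup.inclusion inf_le_right (bR * sR))).range,
            φ ((Subgroup.inclusion inf_le_right (bR * sR)) ^ 2 ^ 1) w = -w
        rw [heq]
        exact hrot'
    rw [hq3] at hdataR hrotR halt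
    have hcm := rot_commute_of_involutions hR0p hdataR hrotR hbmem halt
    have hcb : (bX : X ⧸ Zs) = (cX bX : X ⧸ Zs) :=
      hφeq bX (cX bX) (bR * sR) (sR * bR) hcm (by
        show b * σ0 * (σ0 * b)⁻¹ = b * (σ0 * b * σ0⁻¹)⁻¹
        group)
    have h4 : ((bX * cX bX : X) : X ⧸ Zs) = 1 := by rw [QuotientGroup.mk_mul, ← hcb, hEsq]
    have h5 := (hmem _).1 h4
    convert h5 using 1
    show _ = b * (σ0 * b * σ0⁻¹)
    rw [pow_one, pow_two, pow_two]
    group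
  · -- larger rotations act quadratically
    have hc2 : ∀ u : X, (cX (cX u) : X ⧸ Zs) = u := by
      intro u
      set uR : R0 := ⟨u, hXR u.2⟩
      let v : X := u * (cX u)⁻¹
      have hcm := rot_conj_commute hR0p hdataR hqk hk (b := uR) hrotR
      have hv : ((⁅uR, sR⁆ : R0) : H) = (v : H) := by
        rw [show ((⁅uR, sR⁆ : R0) : H) = ⁅(u : H), σ0⁆ from map_commutatorElement R0.subtype uR sR]
        show _ = (u : H) * (σ0 * u * σ0⁻¹)⁻¹
        rw [commutatorElement_def]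
        group
      have h1 : (cX v : X ⧸ Zs) = v := hφeq (cX v) v (sR * ⁅uR, sR⁆) (⁅uR, sR⁆ * sR) hcm (by
        rw [Subgroup.coe_mul, Subgroup.coe_mul, hv]
        show σ0 * v * ((v : H) * σ0)⁻¹ = σ0 * v * σ0⁻¹ * (v : H)⁻¹
        group)
      have h2 : cX v = cX u * (cX (cX u))⁻¹ := Subtype.ext (by
        show σ0 * ((u : H) * (σ0 * u * σ0⁻¹)⁻¹) * σ0⁻¹ =
          σ0 * u * σ0⁻¹ * (σ0 * (σ0 * u * σ0⁻¹) * σ0⁻¹)⁻¹
        group)
      rw [h2, QuotientGroup.mk_mul, QuotientGroup.mk_mul, QuotientGroup.mk_inv, QuotientGroup.mk_inv] at h1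
      have hinv : ∀ a : X ⧸ Zs, a⁻¹ = a := fun a => inv_eq_of_mul_eq_one_right (hEsq a)
      rw [hinv, hinv, hEcomm (u : X ⧸ Zs)] at h1
      exact mul_left_cancel h1
    obtain ⟨i, rfl⟩ : ∃ i, k = i + 2 := ⟨k - 2, by omega⟩
    clear hwb hnk hqk hk1 hk hrot hrotR
    induction i with
    | zero =>
      let d2 : X := ⟨_, hd 2⟩
      have h4 : ((d2 * cX (cX d2) : X) : X ⧸ Zs) = 1 := by rw [QuotientGroup.mk_mul, hc2, hEsq]
      have h5 := (hmem _).1 h4
      rw [show (2 : ℕ) ^ (0 + 2) = 2 * 2 by norm_num, pow_mul_inv_step]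
      convert h5 using 1
      show _ = (b * σ0) ^ 2 * (σ0 ^ 2)⁻¹ * (σ0 * (σ0 * ((b * σ0) ^ 2 * (σ0 ^ 2)⁻¹) * σ0⁻¹) * σ0⁻¹)
      rw [pow_two σ0]
      group
    | succ i ih =>
      rw [show (2 : ℕ) ^ (i + 1 + 2) = 2 * 2 ^ (i + 2) by ring, pow_mul_inv_step]
      exact (Z q l).mul_mem ih (hσZ' _ _ ih)

end CfsgLib.TwoLengthExponent
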